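import Mathlib

/-!
Normalisers of the standard 2-subgroups of general linear groups built by doubling the degree.
-/

set_option autoImplicit false
set_option linter.unusedSectionVars false

namespace Cfsg.Agent.H68.Pro

open Matrix

variable {F : Type*} [Field F] {ι : Type*} [Fintype ι] [DecidableEq ι]

/-- The scalar matrix. -/
abbrev scal : Fˣ →* GL ι F := Matrix.GeneralLinearGroup.scalar ι

/-- The determinant. -/
abbrev dt : GL ι F →* Fˣ := Matrix.GeneralLinearGroup.det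

theorem scal_comm (c : Fˣ) (A : GL ι F) : scal c * A = A * scal c :=
  Matrix.GeneralLinearGroup.scalar_commute c A

theorem scal_injective [Nonempty ι] : Function.Injective (scal : Fˣ → GL ι F) := by
  intro a b h
  obtain ⟨i⟩ := ‹Nonempty ι›
  have := congrFun (congrFun (congrArg (fun g : GL ι F => (g : Matrix ι ι F)) h) i) i
  simp at this
  exact Units.ext this

theorem scal_neg_one : scal (-1 : Fˣ) = (-1 : GL ι F) := by
  refine Units.ext ?_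
  show Matrix.scalar ι ((-1 : Fˣ) : F) = -1
  rw [Units.val_neg, Units.val_one, map_neg, map_one]

/-- Block diagonal elements. -/
def bd : GL ι F × GL ι F →* GL (ι ⊕ ι) F :=
  MonoidHom.toHomUnits
    { toFun := fun p => fromBlocks (p.1 : Matrix ι ι F) 0 0 (p.2 : Matrix ι ι F)
      map_one' := by simp
      map_mul' := fun p q => by simp [fromBlocks_multiply] }

theorem coe_bd (a b : GL ι F) :
    ((bd (a, b) : GL (ι ⊕ ι) F) : Matrix (ι ⊕ ι) (ι ⊕ ι) F) =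
      fromBlocks (a : Matrix ι ι F) 0 0 (b : Matrix ι ι F) := rfl

theorem bd_mul (a b c d : GL ι F) : bd (a, b) * bd (c, d) = bd (a * c, b * d) := (map_mul bd (a, b) (c, d)).symm

theorem bd_inv (a b : GL ι F) : (bd (a, b))⁻¹ = bd (a⁻¹, b⁻¹) := (map_inv bd (a, b)).symm

theorem bd_inj {a b c d : GL ι F} (h : bd (a, b) = bd (c, d)) : a = c ∧ b = d := by
  have h' : ((bd (a, b) : GL (ι ⊕ ι) F) : Matrix (ι ⊕ ι) (ι ⊕ ι) F) =
      ((bd (c, d) : GL (ι ⊕ ι) F) : Matrix (ι ⊕ ι) (ι ⊕ ι) F) := by rw [h]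
  rw [coe_bd, coe_bd, fromBlocks_inj] at h'
  exact ⟨Units.ext h'.1, Units.ext h'.2.2.2⟩

theorem bd_one : bd ((1 : GL ι F), (1 : GL ι F)) = 1 := map_one bd

theorem bd_scal (c : Fˣ) : bd (scal (ι := ι) c, scal c) = (scal c : GL (ι ⊕ ι) F) := by
  refine Units.ext ?_
  rw [coe_bd]
  show fromBlocks (Matrix.scalar ι (c : F)) 0 0 (Matrix.scalar ι (c : F)) = Matrix.scalar (ι ⊕ ι) (c : F)
  simp [fromBlocks_diagonal]

theorem dt_bd (a b : GL ι F) : dt (bd (a, b)) = dt a * dt b := by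
  refine Units.ext ?_
  show (fromBlocks (a : Matrix ι ι F) 0 0 (b : Matrix ι ι F)).det = _
  rw [det_fromBlocks_zero₂₁]
  rfl

/-- The exchange of the two blocks. -/
def sw : GL (ι ⊕ ι) F where
  val := fromBlocks 0 1 1 0
  inv := fromBlocks 0 1 1 0
  val_inv := by simp [fromBlocks_multiply]
  inv_val := by simp [fromBlocks_multiply]

theorem coe_sw : ((sw : GL (ι ⊕ ι) F) : Matrix (ι ⊕ ι) (ι ⊕ ι) F) = fromBlocks 0 1 1 0 := rfl

theorem sw_mul_sw : (sw : GL (ι ⊕ ι) F) * sw = 1 := Units.ext (sw : GL (ι ⊕ ι) F).val_inv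

theorem sw_inv : (sw : GL (ι ⊕ ι) F)⁻¹ = sw := inv_eq_of_mul_eq_one_right sw_mul_sw

theorem sw_bd (a b : GL ι F) : sw * bd (a, b) = bd (b, a) * sw := by
  refine Units.ext ?_
  simp [Units.val_mul, coe_bd, coe_sw, fromBlocks_multiply]

theorem bd_sw_mul_bd (a b c d : GL ι F) :
    bd (a, b) * sw * bd (c, d) = bd (a * d, b * c) * sw := by
  rw [mul_assoc, sw_bd, ← mul_assoc, bd_mul]

theorem bd_sw_mul_bd_sw (a b c d : GL ι F) :
    bd (a, b) * sw * (bd (c, d) * sw) = bd (a * d, b * c) := by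
  rw [← mul_assoc, bd_sw_mul_bd, mul_assoc, sw_mul_sw, mul_one]

theorem bd_ne_bd_sw [Nonempty ι] (a b c d : GL ι F) : bd (a, b) ≠ bd (c, d) * sw := by
  intro h
  have h' : ((bd (a, b) : GL (ι ⊕ ι) F) : Matrix (ι ⊕ ι) (ι ⊕ ι) F) =
      ((bd (c, d) * sw : GL (ι ⊕ ι) F) : Matrix (ι ⊕ ι) (ι ⊕ ι) F) := by rw [h]
  rw [Units.val_mul, coe_bd, coe_bd, coe_sw, fromBlocks_multiply, fromBlocks_inj] at h'
  have h1 : (a : Matrix ι ι F) = 0 := by simpa using h'.1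
  exact a.isUnit.ne_zero h1

theorem bd_sw_inj {a b c d : GL ι F} (h : bd (a, b) * sw = bd (c, d) * sw) : a = c ∧ b = d :=
  bd_inj (mul_right_cancel h)

theorem dt_sw (h : Even (Fintype.card ι)) : dt (sw : GL (ι ⊕ ι) F) = 1 := by
  refine Units.ext ?_
  show (fromBlocks (0 : Matrix ι ι F) (1 : Matrix ι ι F) (1 : Matrix ι ι F) (0 : Matrix ι ι F)).det = 1
  have e : fromBlocks (0 : Matrix ι ι F) (1 : Matrix ι ι F) (1 : Matrix ι ι F) (0 : Matrix ι ι F) =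
      fromBlocks (1 : Matrix ι ι F) 1 0 1 * fromBlocks (1 : Matrix ι ι F) 0 (-1) 1 * fromBlocks (1 : Matrix ι ι F) 1 0 1 *
        fromBlocks (-1 : Matrix ι ι F) 0 0 1 := by
    simp [fromBlocks_multiply]
  rw [e, det_mul, det_mul, det_mul, det_fromBlocks_zero₂₁, det_fromBlocks_zero₁₂, det_fromBlocks_zero₂₁]
  simp [det_neg, h.neg_one_pow]

/-- `diag (1, -1)`. -/
def zz : GL (ι ⊕ ι) F := bd ((1 : GL ι F), -1)

theorem sw_zz : sw * zz = -1 * (zz * sw : GL (ι ⊕ ι) F) := by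
  rw [zz, sw_bd]
  refine Units.ext ?_
  simp [Units.val_mul, coe_bd, coe_sw, fromBlocks_multiply, fromBlocks_neg]

theorem neg_bd (a b : GL ι F) : (-1 : GL (ι ⊕ ι) F) * bd (a, b) = bd (-a, -b) := by
  refine Units.ext ?_
  simp [coe_bd, fromBlocks_neg]

theorem zz_mul_self : (zz : GL (ι ⊕ ι) F) * zz = 1 := by
  rw [zz, bd_mul, mul_one, neg_mul_neg, mul_one, bd_one]

theorem zz_bd (a b : GL ι F) : zz * bd (a, b) = bd (a, b) * zz := by
  rw [zz, bd_mul, bd_mul, one_mul, mul_one, neg_one_mul, mul_neg_one]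

theorem neg_one_ne_one [Nonempty ι] (h2 : (2 : F) ≠ 0) : (-1 : GL ι F) ≠ 1 := by
  intro h
  obtain ⟨i⟩ := ‹Nonempty ι›
  have h' := congrFun (congrFun (congrArg (fun g : GL ι F => (g : Matrix ι ι F)) h) i) i
  simp at h'
  exact h2 (by linear_combination -h')

theorem eq_zero_of_eq_neg (h2 : (2 : F) ≠ 0) {M : Matrix ι ι F} (h : M = -M) : M = 0 := by
  ext i j
  have := congrFun (congrFun h i) j
  rw [Matrix.neg_apply] at this
  exact (mul_eq_zero.1 (show (2 : F) * M i j = 0 by linear_combination this)).resolve_left h2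

theorem comm_zz_imp (h2 : (2 : F) ≠ 0) {g : GL (ι ⊕ ι) F} (h : g * zz = zz * g) :
    ∃ a b : GL ι F, g = bd (a, b) := by
  have e := congrArg (fun x : GL (ι ⊕ ι) F => (x : Matrix (ι ⊕ ι) (ι ⊕ ι) F)) h
  have ez : ((zz : GL (ι ⊕ ι) F) : Matrix (ι ⊕ ι) (ι ⊕ ι) F) = fromBlocks 1 0 0 (-1) := by
    rw [zz, coe_bd]; simp
  simp only [Units.val_mul, ez] at e
  rw [← fromBlocks_toBlocks (g : Matrix (ι ⊕ ι) (ι ⊕ ι) F)] at e
  simp only [fromBlocks_multiply, fromBlocks_inj, mul_neg, neg_mul, mul_one, one_mul, mul_zero, zero_mul,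
    add_zero, zero_add] at e
  have h12 := eq_zero_of_eq_neg h2 e.2.1.symm
  have h21 := eq_zero_of_eq_neg h2 e.2.2.1
  have hg : (g : Matrix (ι ⊕ ι) (ι ⊕ ι) F) =
      fromBlocks (toBlocks₁₁ (g : Matrix (ι ⊕ ι) (ι ⊕ ι) F)) 0 0
        (toBlocks₂₂ (g : Matrix (ι ⊕ ι) (ι ⊕ ι) F)) := by
    conv_lhs => rw [← fromBlocks_toBlocks (g : Matrix (ι ⊕ ι) (ι ⊕ ι) F), h12, h21]
  have hd : IsUnit (g : Matrix (ι ⊕ ι) (ι ⊕ ι) F).det := (Matrix.isUnit_iff_isUnit_det _).1 g.isUnit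
  rw [hg, det_fromBlocks_zero₂₁, IsUnit.mul_iff] at hd
  exact ⟨Matrix.GeneralLinearGroup.mk'' _ hd.1, Matrix.GeneralLinearGroup.mk'' _ hd.2, Units.ext hg⟩

theorem anticomm_zz_imp (h2 : (2 : F) ≠ 0) {g : GL (ι ⊕ ι) F} (h : g * zz = -1 * (zz * g)) :
    ∃ a b : GL ι F, g = bd (a, b) * sw := by
  have : g * sw * zz = zz * (g * sw) := by
    rw [mul_assoc, sw_zz, ← mul_assoc g, mul_neg_one, neg_mul, ← mul_assoc, h]
    simp [mul_assoc]
  obtain ⟨a, b, e⟩ := comm_zz_imp h2 this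
  exact ⟨a, b, by rw [← e, mul_assoc, sw_mul_sw, mul_one]⟩

/-- The doubled subgroup `W ≀ 2`. -/
def wr (W : Subgroup (GL ι F)) : Subgroup (GL (ι ⊕ ι) F) where
  carrier := {g | ∃ a ∈ W, ∃ b ∈ W, g = bd (a, b) ∨ g = bd (a, b) * sw}
  one_mem' := ⟨1, one_mem _, 1, one_mem _, Or.inl bd_one.symm⟩
  mul_mem' := by
    rintro _ _ ⟨a, ha, b, hb, rfl | rfl⟩ ⟨c, hc, d, hd, rfl | rfl⟩
    · exact ⟨_, mul_mem ha hc, _, mul_mem hb hd, Or.inl (bd_mul a b c d)⟩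
    · exact ⟨_, mul_mem ha hc, _, mul_mem hb hd, Or.inr (by rw [← mul_assoc, bd_mul])⟩
    · exact ⟨_, mul_mem ha hd, _, mul_mem hb hc, Or.inr (bd_sw_mul_bd a b c d)⟩
    · exact ⟨_, mul_mem ha hd, _, mul_mem hb hc, Or.inl (bd_sw_mul_bd_sw a b c d)⟩
  inv_mem' := by
    rintro _ ⟨a, ha, b, hb, rfl | rfl⟩
    · exact ⟨_, inv_mem ha, _, inv_mem hb, Or.inl (bd_inv a b)⟩
    · exact ⟨_, inv_mem hb, _, inv_mem ha, Or.inr (by rw [_root_.mul_inv_rev, sw_inv, bd_inv, sw_bd])⟩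

variable {W : Subgroup (GL ι F)}

theorem mem_wr {g : GL (ι ⊕ ι) F} :
    g ∈ wr W ↔ ∃ a ∈ W, ∃ b ∈ W, g = bd (a, b) ∨ g = bd (a, b) * sw := Iff.rfl

theorem bd_mem_wr {a b : GL ι F} (ha : a ∈ W) (hb : b ∈ W) : bd (a, b) ∈ wr W :=
  ⟨a, ha, b, hb, Or.inl rfl⟩

theorem sw_mem_wr : (sw : GL (ι ⊕ ι) F) ∈ wr W :=
  ⟨1, one_mem _, 1, one_mem _, Or.inr (by rw [bd_one, one_mul])⟩

theorem mem_of_bd_mem_wr [Nonempty ι] {a b : GL ι F} (h : bd (a, b) ∈ wr W) : a ∈ W ∧ b ∈ W := by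
  obtain ⟨c, hc, d, hd, e | e⟩ := h
  · obtain ⟨rfl, rfl⟩ := bd_inj e
    exact ⟨hc, hd⟩
  · exact absurd e (bd_ne_bd_sw _ _ _ _)

theorem mem_of_bd_sw_mem_wr [Nonempty ι] {a b : GL ι F} (h : bd (a, b) * sw ∈ wr W) : a ∈ W ∧ b ∈ W := by
  have := mul_mem h (sw_mem_wr (W := W))
  rw [mul_assoc, sw_mul_sw, mul_one] at this
  exact mem_of_bd_mem_wr this

theorem zz_mul_mem_wr {t : GL (ι ⊕ ι) F} (ht : t ∈ wr W) : zz * t = t * zz ∨ zz * t = -1 * (t * zz) := by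
  obtain ⟨a, -, b, -, rfl | rfl⟩ := ht
  · exact Or.inl (zz_bd a b)
  · refine Or.inr ?_
    rw [mul_assoc _ sw zz, sw_zz, ← mul_assoc zz, zz_bd]
    simp [mul_assoc]

/-- What the induction on the degree carries along. -/
structure Good (W : Subgroup (GL ι F)) : Prop where
  pGroup : IsPGroup 2 W
  norm : ∀ g ∈ Subgroup.normalizer (W : Set (GL ι F)), ∃ w ∈ W, ∃ c : Fˣ, g = w * scal c
  scal_mem : ∀ c : Fˣ, (∃ k : ℕ, c ^ 2 ^ k = 1) → scal c ∈ W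
  cent : ∀ x ∈ W, (∀ a ∈ W, dt a = 1 → x * a = a * x) → ∃ c : Fˣ, x = scal c
  nontriv : ∃ a ∈ W, dt a = 1 ∧ a ≠ 1 ∧ a ≠ -1

/-- The main step: normalisers of large subgroups of `W ≀ 2`. -/
theorem coreRel [Finite F] [Nonempty ι] (h2 : (2 : F) ≠ 0)
    {Γ : Subgroup (GL ι F)} {Γ2 : Subgroup (GL (ι ⊕ ι) F)}
    (hΓ : ∀ a b : GL ι F, bd (a, b) ∈ Γ2 → a ∈ Γ ∧ b ∈ Γ) (hswΓ : sw ∈ Γ2)
    (hN : ∀ g ∈ Γ, g ∈ Subgroup.normalizer (W : Set (GL ι F)) → ∃ w ∈ W, ∃ c : Fˣ, g = w * scal c)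
    {S : Subgroup (GL (ι ⊕ ι) F)} (hS : S ≤ wr W) (hz : zz ∈ S) (hsw : sw ∈ S)
    {A : Set (GL ι F)} (hA1 : ∀ a ∈ A, bd (a, 1) ∈ S ∧ bd (1, a) ∈ S)
    (hA2 : ∀ x ∈ W, (∀ a ∈ A, x * a = a * x) → ∃ c : Fˣ, x = scal c)
    (hA3 : ∃ a ∈ A, a ≠ 1 ∧ a ≠ -1)
    (hproj : ∀ a ∈ W, ∃ b, bd (a, b) ∈ S)
    {g : GL (ι ⊕ ι) F} (hgΓ : g ∈ Γ2) (hg : g ∈ Subgroup.normalizer (S : Set (GL (ι ⊕ ι) F))) :
    ∃ w ∈ wr W, ∃ c : Fˣ, g = w * scal c := by
  have := Fintype.ofFinite F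
  obtain ⟨a0, ha0, ha01, ha02⟩ := hA3
  set s := g * zz * g⁻¹ with hs
  have hsS : s ∈ S := (Subgroup.mem_normalizer_iff.1 hg zz).1 hz
  have hss : s * s = 1 := by
    rw [hs, show g * zz * g⁻¹ * (g * zz * g⁻¹) = g * (zz * zz) * g⁻¹ by group, zz_mul_self, mul_one,
      mul_inv_cancel]
  have hcomm : ∀ t ∈ S, s * t = t * s ∨ s * t = -1 * (t * s) := by
    intro t ht
    obtain ⟨t', ht', rfl⟩ : ∃ t' ∈ S, t = g * t' * g⁻¹ :=
      ⟨g⁻¹ * t * g, (Subgroup.mem_normalizer_iff''.1 hg t).1 ht, by group⟩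
    have e1 : s * (g * t' * g⁻¹) = g * (zz * t') * g⁻¹ := by rw [hs]; group
    have e2 : g * t' * g⁻¹ * s = g * (t' * zz) * g⁻¹ := by rw [hs]; group
    rw [e1, e2]
    rcases zz_mul_mem_wr (hS ht') with h | h
    · exact Or.inl (by rw [h])
    · exact Or.inr (by rw [h]; simp [mul_assoc])
  have hne := neg_one_ne_one (ι := ι) (F := F) h2
  have hz' : s = zz ∨ s = -1 * zz := by
    obtain ⟨x, hx, y, hy, hxy | hxy⟩ := hS hsS
    · rw [hxy, bd_mul, ← bd_one] at hss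
      obtain ⟨hxx, -⟩ := bd_inj hss
      have hyx : y = x ∨ y = -x := by
        rcases hcomm sw hsw with h | h
        · rw [hxy, sw_bd] at h
          exact Or.inl (bd_sw_inj h).2
        · rw [hxy, sw_bd, ← mul_assoc, neg_bd] at h
          exact Or.inr (bd_sw_inj h).2
      have hxc : ∀ a ∈ A, x * a = a * x := by
        intro a ha
        rcases hcomm _ (hA1 a ha).1 with h | h
        · rw [hxy, bd_mul, bd_mul] at h
          exact (bd_inj h).1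
        · rw [hxy, bd_mul, bd_mul, neg_bd, mul_one, one_mul] at h
          exfalso
          refine hne (mul_left_cancel (a := y) ?_)
          rw [mul_neg, mul_one]
          exact (bd_inj h).2.symm
      obtain ⟨c, rfl⟩ := hA2 x hx hxc
      rw [← map_mul, ← map_one (scal (ι := ι) (F := F))] at hxx
      have hc : c = 1 ∨ c = -1 := by
        have := congrArg Units.val (scal_injective hxx)
        rw [Units.val_mul, Units.val_one, mul_self_eq_one_iff] at this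
        rcases this with h | h
        · exact Or.inl (Units.ext h)
        · exact Or.inr (Units.ext (by rw [h, Units.val_neg, Units.val_one]))
      have hx1 : (scal c : GL ι F) = 1 ∨ (scal c : GL ι F) = -1 := by
        rcases hc with rfl | rfl
        · exact Or.inl (map_one _)
        · exact Or.inr scal_neg_one
      rcases hyx with rfl | rfl
      · exfalso
        have hz1 : zz = s := by
          have e : g⁻¹ * s * g = s := by
            rw [hxy, bd_scal, mul_assoc, scal_comm, inv_mul_cancel_left]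
          have e' : g⁻¹ * s * g = zz := by rw [hs]; group
          rw [← e', e]
        rw [hxy, zz] at hz1
        obtain ⟨e1, e2⟩ := bd_inj hz1
        exact hne (by rw [e2, ← e1])
      · rcases hx1 with h | h <;> rw [h] at hxy
        · exact Or.inl (by rw [hxy, zz])
        · exact Or.inr (by rw [hxy, zz, neg_bd, neg_neg])
    · exfalso
      rcases hcomm _ (hA1 a0 ha0).1 with h | h
      · rw [hxy, bd_sw_mul_bd, ← mul_assoc (bd _), bd_mul, mul_one] at h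
        exact ha01 (mul_eq_right.1 (bd_sw_inj h).1.symm)
      · rw [hxy, bd_sw_mul_bd, ← mul_assoc (bd _), bd_mul, ← mul_assoc (-1 : GL (ι ⊕ ι) F), neg_bd,
          mul_one, ← neg_mul] at h
        exact ha02 (by rw [← neg_eq_iff_eq_neg]; exact mul_eq_right.1 (bd_sw_inj h).1.symm)
  -- reduction to block diagonal elements
  have main : ∀ g1 g2 : GL ι F, bd (g1, g2) ∈ Γ2 → bd (g1, g2) ∈ Subgroup.normalizer (S : Set (GL (ι ⊕ ι) F)) →
      ∃ w ∈ wr W, ∃ c : Fˣ, bd (g1, g2) = w * scal c := by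
    intro g1 g2 hΓg hn
    have key : ∀ a ∈ W, g1 * a * g1⁻¹ ∈ W ∧ g2 * a * g2⁻¹ ∈ W := by
      intro a ha
      obtain ⟨b, hb⟩ := hproj a ha
      have h1 := (Subgroup.mem_normalizer_iff.1 hn _).1 hb
      have hb' : bd (b, a) ∈ S := by
        have := mul_mem (mul_mem hsw hb) hsw
        rwa [sw_bd, mul_assoc, sw_mul_sw, mul_one] at this
      have h2' := (Subgroup.mem_normalizer_iff.1 hn _).1 hb'
      rw [bd_inv, bd_mul, bd_mul] at h1 h2'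
      exact ⟨(mem_of_bd_mem_wr (hS h1)).1, (mem_of_bd_mem_wr (hS h2')).2⟩
    have n1 : g1 ∈ Subgroup.normalizer (W : Set (GL ι F)) :=
      Subgroup.mem_normalizer_fintype fun a ha => (key a ha).1
    have n2 : g2 ∈ Subgroup.normalizer (W : Set (GL ι F)) :=
      Subgroup.mem_normalizer_fintype fun a ha => (key a ha).2
    obtain ⟨w1, hw1, c1, rfl⟩ := hN g1 (hΓ _ _ hΓg).1 n1
    obtain ⟨w2, hw2, c2, rfl⟩ := hN g2 (hΓ _ _ hΓg).2 n2
    have h3 := hS ((Subgroup.mem_normalizer_iff.1 hn _).1 hsw)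
    rw [bd_inv, mul_assoc, sw_bd, ← mul_assoc, bd_mul] at h3
    have hmem := (mem_of_bd_sw_mem_wr h3).2
    have hw : (w2 * scal c2) * (w1 * scal c1)⁻¹ = w2 * scal (c2 * c1⁻¹) * w1⁻¹ := by
      rw [_root_.mul_inv_rev, ← map_inv, map_mul]; group
    rw [hw] at hmem
    have hsc : (scal (c2 * c1⁻¹) : GL ι F) ∈ W :=
      (Subgroup.mul_mem_cancel_left W hw2).1 ((Subgroup.mul_mem_cancel_right W (inv_mem hw1)).1 hmem)
    refine ⟨bd (w1, w2 * scal (c2 * c1⁻¹)), bd_mem_wr hw1 (mul_mem hw2 hsc), c1, ?_⟩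
    rw [← bd_scal, bd_mul, mul_assoc w2, ← map_mul, inv_mul_cancel_right]
  have hgz : g * zz = s * g := by rw [hs]; group
  rcases hz' with h | h <;> rw [h] at hgz
  · obtain ⟨g1, g2, rfl⟩ := comm_zz_imp h2 hgz
    exact main g1 g2 hgΓ hg
  · rw [mul_assoc] at hgz
    obtain ⟨g1, g2, rfl⟩ := anticomm_zz_imp h2 hgz
    have hg' : bd (g1, g2) ∈ Subgroup.normalizer (S : Set (GL (ι ⊕ ι) F)) := by
      have := mul_mem hg (Subgroup.le_normalizer hsw)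
      rwa [mul_assoc, sw_mul_sw, mul_one] at this
    have hgΓ' : bd (g1, g2) ∈ Γ2 := by
      have := mul_mem hgΓ hswΓ
      rwa [mul_assoc, sw_mul_sw, mul_one] at this
    obtain ⟨w, hw, c, e⟩ := main g1 g2 hgΓ' hg'
    exact ⟨w * sw, mul_mem hw sw_mem_wr, c, by rw [e, mul_assoc, scal_comm, mul_assoc]⟩

theorem core [Finite F] [Nonempty ι] (h2 : (2 : F) ≠ 0)
    (hN : ∀ g ∈ Subgroup.normalizer (W : Set (GL ι F)), ∃ w ∈ W, ∃ c : Fˣ, g = w * scal c)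
    {S : Subgroup (GL (ι ⊕ ι) F)} (hS : S ≤ wr W) (hz : zz ∈ S) (hsw : sw ∈ S)
    {A : Set (GL ι F)} (hA1 : ∀ a ∈ A, bd (a, 1) ∈ S ∧ bd (1, a) ∈ S)
    (hA2 : ∀ x ∈ W, (∀ a ∈ A, x * a = a * x) → ∃ c : Fˣ, x = scal c)
    (hA3 : ∃ a ∈ A, a ≠ 1 ∧ a ≠ -1)
    (hproj : ∀ a ∈ W, ∃ b, bd (a, b) ∈ S)
    {g : GL (ι ⊕ ι) F} (hg : g ∈ Subgroup.normalizer (S : Set (GL (ι ⊕ ι) F))) :
    ∃ w ∈ wr W, ∃ c : Fˣ, g = w * scal c :=
  coreRel (Γ := ⊤) (Γ2 := ⊤) h2 (fun _ _ _ => ⟨trivial, trivial⟩) trivial (fun g _ => hN g) hS hz hsw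
    hA1 hA2 hA3 hproj trivial hg

theorem isPGroup_wr (h : IsPGroup 2 W) : IsPGroup 2 (wr W) := by
  have hd : ∀ a ∈ W, ∀ b ∈ W, ∃ k : ℕ, bd (a, b) ^ 2 ^ k = 1 := by
    intro a ha b hb
    obtain ⟨k, hk⟩ := h ⟨a, ha⟩
    obtain ⟨l, hl⟩ := h ⟨b, hb⟩
    refine ⟨k + l, ?_⟩
    have hk' : a ^ 2 ^ k = 1 := congrArg Subtype.val hk
    have hl' : b ^ 2 ^ l = 1 := congrArg Subtype.val hl
    rw [← map_pow, Prod.pow_mk, pow_add, pow_mul, hk', one_pow, mul_comm, pow_mul, hl', one_pow]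
    exact bd_one
  rintro ⟨g, a, ha, b, hb, rfl | rfl⟩
  · obtain ⟨k, hk⟩ := hd a ha b hb
    exact ⟨k, Subtype.ext hk⟩
  · obtain ⟨k, hk⟩ := hd _ (mul_mem ha hb) _ (mul_mem hb ha)
    refine ⟨k + 1, Subtype.ext ?_⟩
    show (bd (a, b) * sw) ^ 2 ^ (k + 1) = 1
    rw [pow_succ', pow_mul, sq, bd_sw_mul_bd_sw, hk]

theorem scal_mem_wr (hW : ∀ c : Fˣ, (∃ k : ℕ, c ^ 2 ^ k = 1) → scal c ∈ W) (c : Fˣ)
    (hc : ∃ k : ℕ, c ^ 2 ^ k = 1) : scal c ∈ wr W := by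
  rw [← bd_scal]
  exact bd_mem_wr (hW c hc) (hW c hc)

theorem neg_one_mem_of (hW : ∀ c : Fˣ, (∃ k : ℕ, c ^ 2 ^ k = 1) → scal c ∈ W) : (-1 : GL ι F) ∈ W := by
  rw [← scal_neg_one]
  exact hW _ ⟨1, by simp⟩

/-- The doubling step. -/
theorem Good.double [Finite F] [Nonempty ι] (h2 : (2 : F) ≠ 0) (hι : Even (Fintype.card ι))
    (hW : Good W) : Good (wr W) := by
  have hneg := neg_one_mem_of hW.scal_mem
  obtain ⟨a0, ha0, hd0, h01, h02⟩ := hW.nontriv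
  refine ⟨isPGroup_wr hW.pGroup, ?_, scal_mem_wr hW.scal_mem, ?_, ?_⟩
  · intro g hg
    exact core h2 hW.norm le_rfl (bd_mem_wr (one_mem _) hneg) sw_mem_wr
      (A := {a | a ∈ W ∧ dt a = 1})
      (fun a ha => ⟨bd_mem_wr ha.1 (one_mem _), bd_mem_wr (one_mem _) ha.1⟩)
      (fun x hx h => hW.cent x hx fun a ha hd => h a ⟨ha, hd⟩) ⟨a0, ⟨ha0, hd0⟩, h01, h02⟩
      (fun a ha => ⟨a, bd_mem_wr ha ha⟩) hg
  · intro g hg hc
    have hc1 : ∀ a ∈ W, dt a = 1 → g * bd (a, 1) = bd (a, 1) * g := fun a ha hd =>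
      hc _ (bd_mem_wr ha (one_mem _)) (by rw [dt_bd, hd, map_one, one_mul])
    have hc2 : ∀ a ∈ W, dt a = 1 → g * bd (1, a) = bd (1, a) * g := fun a ha hd =>
      hc _ (bd_mem_wr (one_mem _) ha) (by rw [dt_bd, hd, map_one, one_mul])
    obtain ⟨x, hx, y, hy, rfl | rfl⟩ := hg
    · have hsw' := hc sw sw_mem_wr (dt_sw hι)
      rw [sw_bd] at hsw'
      obtain ⟨rfl, -⟩ := bd_sw_inj hsw'
      obtain ⟨c, rfl⟩ := hW.cent x hx fun a ha hd => by
        have := hc1 a ha hd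
        rw [bd_mul, bd_mul] at this
        exact (bd_inj this).1
      exact ⟨c, bd_scal c⟩
    · have := hc1 a0 ha0 hd0
      rw [bd_sw_mul_bd, ← mul_assoc (bd _), bd_mul, mul_one] at this
      exact absurd (mul_eq_right.1 (bd_sw_inj this).1.symm) h01
  · refine ⟨bd (a0, 1), bd_mem_wr ha0 (one_mem _), by rw [dt_bd, hd0, map_one, one_mul],
      fun h => h01 ?_, fun h => ?_⟩
    · rw [← bd_one] at h
      exact (bd_inj h).1
    · have e : (-1 : GL (ι ⊕ ι) F) = bd ((-1 : GL ι F), (-1 : GL ι F)) := by rw [← neg_bd, bd_one, mul_one]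
      rw [e] at h
      exact neg_one_ne_one h2 (bd_inj h).2.symm

/-- In the special linear group the Sylow 2-subgroup is its own normaliser. -/
theorem Good.special [Finite F] [Nonempty ι] (h2 : (2 : F) ≠ 0) (hι : Even (Fintype.card ι))
    {d : ℕ} (hd : Fintype.card (ι ⊕ ι) = 2 ^ d) (hW : Good W) {g : GL (ι ⊕ ι) F} (hg1 : dt g = 1)
    (hg : g ∈ Subgroup.normalizer ((wr W ⊓ dt.ker : Subgroup (GL (ι ⊕ ι) F)) : Set (GL (ι ⊕ ι) F))) :
    g ∈ wr W := by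
  have hneg := neg_one_mem_of hW.scal_mem
  obtain ⟨a0, ha0, hd0, h01, h02⟩ := hW.nontriv
  have hdn : dt (-1 : GL ι F) = 1 := by
    rw [← scal_neg_one, Matrix.GeneralLinearGroup.det_scalar, hι.neg_one_pow]
  obtain ⟨w, hw, c, rfl⟩ := core h2 hW.norm (S := wr W ⊓ dt.ker) inf_le_left
    ⟨bd_mem_wr (one_mem _) hneg, by show dt _ = 1; rw [zz, dt_bd, map_one, one_mul, hdn]⟩
    ⟨sw_mem_wr, dt_sw hι⟩
    (A := {a | a ∈ W ∧ dt a = 1})
    (fun a ha => ⟨⟨bd_mem_wr ha.1 (one_mem _), by show dt _ = 1; rw [dt_bd, ha.2, map_one, one_mul]⟩,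
      ⟨bd_mem_wr (one_mem _) ha.1, by show dt _ = 1; rw [dt_bd, ha.2, map_one, one_mul]⟩⟩)
    (fun x hx h => hW.cent x hx fun a ha hd => h a ⟨ha, hd⟩) ⟨a0, ⟨ha0, hd0⟩, h01, h02⟩
    (fun a ha => ⟨a⁻¹, bd_mem_wr ha (inv_mem ha), by
      show dt _ = 1; rw [dt_bd, map_inv, mul_inv_cancel]⟩) hg
  refine mul_mem hw (scal_mem_wr hW.scal_mem c ?_)
  obtain ⟨k, hk⟩ := isPGroup_wr hW.pGroup ⟨w, hw⟩
  have hk' : dt w ^ 2 ^ k = 1 := by rw [← map_pow, show w ^ 2 ^ k = 1 from congrArg Subtype.val hk, map_one]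
  rw [map_mul, Matrix.GeneralLinearGroup.det_scalar, hd] at hg1
  refine ⟨d + k, ?_⟩
  rw [pow_add, pow_mul, show c ^ 2 ^ d = (dt w)⁻¹ from eq_inv_of_mul_eq_one_right hg1, inv_pow, hk',
    inv_one]

end Cfsg.Agent.H68.Pro
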