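import Cfsg.Agent.H68.Pro.Block
import Cfsg.Agent.H49.ClassicalTwo

/-!
Sylow 2-subgroups of the linear groups of degree a power of two, and their normalisers.
-/

set_option autoImplicit false
set_option linter.unusedSectionVars false

namespace Cfsg.Agent.H68.Pro

open Matrix

section General

variable {G : Type*} [Group G]

/-- Splitting an element of finite order into its 2-part and its odd part. -/
theorem exists_two_odd [Finite G] (g : G) :
    ∃ g2 u : G, g = g2 * u ∧ (∃ k : ℕ, g2 ^ 2 ^ k = 1) ∧ Odd (orderOf u) ∧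
      g2 ∈ Subgroup.zpowers g ∧ u ∈ Subgroup.zpowers g := by
  obtain ⟨a, m, hm, he⟩ := Nat.exists_eq_pow_mul_and_not_dvd (orderOf_pos g).ne' 2 (by norm_num)
  have hm' : Odd m := Nat.not_even_iff_odd.1 fun h => hm h.two_dvd
  have hco : IsCoprime ((2 : ℤ) ^ a) (m : ℤ) := by
    have h := Int.isCoprime_iff_nat_coprime (a := ((2 ^ a : ℕ) : ℤ)) (b := (m : ℤ))
    simp only [Int.natAbs_natCast] at h
    exact_mod_cast h.2 (hm'.coprime_two_left.pow_left a)
  obtain ⟨x, y, hxy⟩ := hco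
  have hg : g ^ ((orderOf g : ℕ) : ℤ) = 1 := by rw [_root_.zpow_natCast, pow_orderOf_eq_one]
  refine ⟨g ^ (y * m), g ^ (x * 2 ^ a), ?_, ⟨a, ?_⟩, ?_, ⟨_, rfl⟩, ⟨_, rfl⟩⟩
  · rw [← _root_.zpow_add, add_comm, hxy, zpow_one]
  · rw [← _root_.zpow_natCast, ← _root_.zpow_mul, show y * (m : ℤ) * ((2 ^ a : ℕ) : ℤ) = ((orderOf g : ℕ) : ℤ) * y by
      rw [he]; push_cast; ring, _root_.zpow_mul, hg, _root_.one_zpow]
  · refine Odd.of_dvd_nat hm' (orderOf_dvd_of_pow_eq_one ?_)
    rw [← _root_.zpow_natCast, ← _root_.zpow_mul, show x * (2 : ℤ) ^ a * (m : ℤ) = ((orderOf g : ℕ) : ℤ) * x by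
      rw [he]; push_cast; ring, _root_.zpow_mul, hg, _root_.one_zpow]

/-- The 2-elements of the normaliser of a Sylow 2-subgroup lie in it. -/
theorem mem_sylow_of_normalizer [Finite G] (P : Sylow 2 G) {g : G} {k : ℕ} (hg : g ^ 2 ^ k = 1)
    (hn : g ∈ Subgroup.normalizer ((P : Subgroup G) : Set G)) : g ∈ (P : Subgroup G) := by
  have hp : IsPGroup 2 (Subgroup.zpowers g) := by
    rintro ⟨_, i, rfl⟩
    refine ⟨k, Subtype.ext ?_⟩
    show (g ^ i) ^ 2 ^ k = 1
    rw [← _root_.zpow_natCast, ← _root_.zpow_mul, mul_comm, _root_.zpow_mul, _root_.zpow_natCast, hg, _root_.one_zpow]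
  have := hp.inf_normalizer_sylow P
  have hm : g ∈ Subgroup.zpowers g ⊓ Subgroup.normalizer ((P : Subgroup G) : Set G) :=
    ⟨Subgroup.mem_zpowers g, hn⟩
  rw [show Subgroup.zpowers g ⊓ Subgroup.normalizer ((P : Subgroup G) : Set G) =
    Subgroup.zpowers g ⊓ (P : Subgroup G) from this] at hm
  exact hm.2

/-- A 2-subgroup containing the 2-elements of its normaliser is a Sylow 2-subgroup. -/
theorem exists_sylow_eq [Finite G] {W : Subgroup G} (hW : IsPGroup 2 W)
    (h : ∀ g ∈ Subgroup.normalizer (W : Set G), (∃ k : ℕ, g ^ 2 ^ k = 1) → g ∈ W) :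
    ∃ P : Sylow 2 G, (P : Subgroup G) = W := by
  have := Fact.mk Nat.prime_two
  obtain ⟨P, hP⟩ := hW.exists_le_sylow
  refine ⟨P, le_antisymm ?_ hP⟩
  by_contra hne
  have hlt : W.subgroupOf (P : Subgroup G) < ⊤ := lt_top_iff_ne_top.2 fun e => hne (fun x hx => by
    have : (⟨x, hx⟩ : (P : Subgroup G)) ∈ W.subgroupOf (P : Subgroup G) := e ▸ Subgroup.mem_top _
    exact this)
  have : Group.IsNilpotent (P : Subgroup G) := P.isPGroup'.isNilpotent
  obtain ⟨⟨y, hy⟩, hyn, hyw⟩ := SetLike.exists_of_lt (Group.normalizerCondition_of_isNilpotent _ hlt)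
  refine hyw (h y ?_ ?_)
  · rw [Subgroup.mem_normalizer_iff] at hyn ⊢
    intro x
    constructor
    · intro hx
      exact (hyn ⟨x, hP hx⟩).1 hx
    · intro hx
      have hxP : x ∈ (P : Subgroup G) := by
        have := mul_mem (mul_mem (inv_mem hy) (hP hx)) hy
        simpa [mul_assoc] using this
      exact (hyn ⟨x, hxP⟩).2 hx
  · obtain ⟨k, hk⟩ := P.isPGroup' ⟨y, hy⟩
    exact ⟨k, congrArg Subtype.val hk⟩

end General

variable {F : Type*} [Field F]

local notation "G2" => GL (Fin 2) F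

/-- The centraliser of a non-scalar matrix of degree two. -/
theorem comm_two {x y : G2} (hx : ∀ c : Fˣ, x ≠ scal c) (h : y * x = x * y) :
    ∃ α β : F, (y : Matrix (Fin 2) (Fin 2) F) = α • 1 + β • (x : Matrix (Fin 2) (Fin 2) F) := by
  set X := (x : Matrix (Fin 2) (Fin 2) F) with hX
  set Y := (y : Matrix (Fin 2) (Fin 2) F) with hY
  have e : Y * X = X * Y := congrArg (fun g : G2 => (g : Matrix (Fin 2) (Fin 2) F)) h
  have e00 := congrFun (congrFun e 0) 0
  have e01 := congrFun (congrFun e 0) 1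
  have e10 := congrFun (congrFun e 1) 0
  simp only [Matrix.mul_apply, Fin.sum_univ_two] at e00 e01 e10
  by_cases h01 : X 0 1 = 0
  · by_cases h10 : X 1 0 = 0
    · have hd : X 0 0 ≠ X 1 1 := by
        intro hd
        have h0 : X 0 0 ≠ 0 := by
          intro h0
          have := Matrix.GeneralLinearGroup.det_ne_zero x
          rw [← hX, Matrix.det_fin_two, h01, h0] at this
          simp at this
        refine hx (Units.mk0 _ h0) (Units.ext ?_)
        ext i j
        fin_cases i <;> fin_cases j <;> simp [← hX, h01, h10, hd]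
      have y01 : Y 0 1 = 0 := by
        have : Y 0 1 * (X 1 1 - X 0 0) = 0 := by rw [h01] at e01; linear_combination e01
        exact (mul_eq_zero.1 this).resolve_right (sub_ne_zero.2 (Ne.symm hd))
      have y10 : Y 1 0 = 0 := by
        have : Y 1 0 * (X 0 0 - X 1 1) = 0 := by rw [h10] at e10; linear_combination e10
        exact (mul_eq_zero.1 this).resolve_right (sub_ne_zero.2 hd)
      have hd' : X 0 0 - X 1 1 ≠ 0 := sub_ne_zero.2 hd
      refine ⟨Y 0 0 - (Y 0 0 - Y 1 1) / (X 0 0 - X 1 1) * X 0 0, (Y 0 0 - Y 1 1) / (X 0 0 - X 1 1), ?_⟩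
      ext i j
      fin_cases i <;> fin_cases j <;> simp [h01, h10, y01, y10]
      field_simp
      ring
    · refine ⟨Y 0 0 - Y 1 0 / X 1 0 * X 0 0, Y 1 0 / X 1 0, ?_⟩
      ext i j
      fin_cases i <;> fin_cases j <;> simp [h01]
      · rw [h01] at e00
        have : Y 0 1 * X 1 0 = 0 := by linear_combination e00
        exact (mul_eq_zero.1 this).resolve_right h10
      · field_simp
      · field_simp
        linear_combination e10
  · refine ⟨Y 0 0 - Y 0 1 / X 0 1 * X 0 0, Y 0 1 / X 0 1, ?_⟩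
    ext i j
    fin_cases i <;> fin_cases j <;> simp
    · field_simp
    · field_simp
      linear_combination -e00
    · field_simp
      linear_combination -e01

theorem comm_comm_two {x y z : G2} (hx : ∀ c : Fˣ, x ≠ scal c) (hy : y * x = x * y) (hz : z * x = x * z) :
    y * z = z * y := by
  obtain ⟨a, b, hy'⟩ := comm_two hx hy
  obtain ⟨c, d, hz'⟩ := comm_two hx hz
  refine Units.ext ?_
  rw [Units.val_mul, Units.val_mul, hy', hz']
  simp only [mul_add, add_mul, smul_mul_assoc, mul_smul_comm, one_mul, mul_one, smul_smul, smul_add]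
  rw [mul_comm a c, mul_comm b c, mul_comm a d, mul_comm b d]
  abel

/-- An element commuting with two non-commuting ones is a scalar. -/
theorem scal_of_comm {x z y : G2} (hxz : x * z ≠ z * x) (hx : y * x = x * y) (hz : y * z = z * y) :
    ∃ c : Fˣ, y = scal c := by
  by_contra hc
  push Not at hc
  exact hxz (comm_comm_two hc hx.symm hz.symm)

/-- An odd order element normalising a 2-group with a distinguished cyclic subgroup is a scalar. -/
theorem odd_normal_scalar [Finite F] {S : Subgroup G2} (hp : IsPGroup 2 S) {x : G2} (hx : x ∈ S)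
    (hx4 : x ^ 4 ≠ 1) (hgen : ∀ s ∈ S, s ^ 4 ≠ 1 → s ∈ Subgroup.zpowers x)
    {y : G2} (hy : y ∈ S) (hxy : x * y ≠ y * x)
    {u : G2} (hu : u ∈ Subgroup.normalizer (S : Set G2)) (hodd : Odd (orderOf u)) :
    ∃ c : Fˣ, u = scal c := by
  have hxns : ∀ c : Fˣ, x ≠ scal c := fun c hc => hxy (by rw [hc]; exact scal_comm c y)
  obtain ⟨n, hn'⟩ := hp ⟨x, hx⟩
  have hn : x ^ 2 ^ n = 1 := congrArg Subtype.val hn'
  have hconj4 : ∀ t : G2, (t * x * t⁻¹) ^ 4 ≠ 1 := by
    intro t h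
    rw [conj_pow, mul_inv_eq_one, mul_eq_left] at h
    exact hx4 h
  have hux : u * x * u⁻¹ = x := by
    obtain ⟨k, hk⟩ := hgen _ ((Subgroup.mem_normalizer_iff.1 hu x).1 hx) (hconj4 u)
    have hk' : x ^ k = u * x * u⁻¹ := hk
    have hiter : ∀ i : ℕ, u ^ i * x * (u ^ i)⁻¹ = x ^ (k ^ i) := by
      intro i
      induction i with
      | zero => simp
      | succ i ih =>
        calc u ^ (i + 1) * x * (u ^ (i + 1))⁻¹ = u * (u ^ i * x * (u ^ i)⁻¹) * u⁻¹ := by
              rw [pow_succ']; group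
          _ = (u * x * u⁻¹) ^ (k ^ i) := by rw [ih, conj_zpow]
          _ = x ^ (k ^ (i + 1)) := by rw [← hk', ← _root_.zpow_mul, pow_succ' k i]
    have hm := hiter (orderOf u)
    rw [pow_orderOf_eq_one, one_mul, inv_one, mul_one] at hm
    obtain ⟨l, -, hl⟩ := (Nat.dvd_prime_pow Nat.prime_two).1 (orderOf_dvd_of_pow_eq_one hn)
    have hdvd : ((2 ^ l : ℕ) : ℤ) ∣ k ^ orderOf u - 1 := by
      rw [← hl, orderOf_dvd_sub_iff_zpow_eq_zpow, zpow_one]
      exact hm.symm
    have hz : ((k : ZMod (2 ^ l))) ^ orderOf u = 1 := by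
      have := (ZMod.intCast_zmod_eq_zero_iff_dvd _ _).2 hdvd
      push_cast at this
      exact sub_eq_zero.1 this
    have hk1 : (k : ZMod (2 ^ l)) = 1 := by
      set v : (ZMod (2 ^ l))ˣ := Units.ofPowEqOne _ _ hz hodd.pos.ne' with hv
      have h1 : v ^ orderOf u = 1 := Units.pow_ofPowEqOne _ hodd.pos.ne'
      have h2 : v ^ (2 ^ (l - 1)) = 1 := by
        rcases l.eq_zero_or_pos with rfl | hl0
        · simpa using ZMod.pow_totient v
        · have := ZMod.pow_totient v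
          rwa [Nat.totient_prime_pow Nat.prime_two hl0, show (2 - 1 : ℕ) = 1 from rfl, mul_one] at this
      have hv1 : v = 1 := by
        have h3 := pow_gcd_eq_one.2 ⟨h1, h2⟩
        rwa [(hodd.coprime_two_right.pow_right (l - 1)).gcd_eq_one, pow_one] at h3
      simpa [hv] using congrArg Units.val hv1
    have hd1 : ((2 ^ l : ℕ) : ℤ) ∣ k - 1 := by
      rw [← ZMod.intCast_zmod_eq_zero_iff_dvd]
      push_cast
      rw [hk1, sub_self]
    rw [← hl, orderOf_dvd_sub_iff_zpow_eq_zpow, zpow_one] at hd1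
    rw [← hk', hd1]
  have hux' : u * x = x * u := mul_inv_eq_iff_eq_mul.1 hux
  set c := y⁻¹ * (u * y * u⁻¹) with hc
  have hcS : c ∈ S := mul_mem (inv_mem hy) ((Subgroup.mem_normalizer_iff.1 hu y).1 hy)
  have hcx : c * x = x * c := by
    obtain ⟨i, hi⟩ := hgen _ (mul_mem (mul_mem hy hx) (inv_mem hy)) (hconj4 y)
    have hi' : x ^ i = y * x * y⁻¹ := hi
    have hxi : x ^ i * u = u * x ^ i := ((show Commute x u from hux'.symm).zpow_left i).eq
    have e : u * y * u⁻¹ * x = x ^ i * (u * y * u⁻¹) := by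
      calc u * y * u⁻¹ * x = u * y * (u⁻¹ * x * u) * u⁻¹ := by group
        _ = u * y * x * u⁻¹ := by rw [mul_assoc u⁻¹, ← hux', inv_mul_cancel_left]
        _ = u * x ^ i * y * u⁻¹ := by rw [hi']; group
        _ = x ^ i * (u * y * u⁻¹) := by rw [← hxi]; group
    calc c * x = y⁻¹ * (u * y * u⁻¹ * x) := by rw [hc]; group
      _ = y⁻¹ * x ^ i * (u * y * u⁻¹) := by rw [e]; group
      _ = x * c := by rw [hi', hc]; group
  have hcu : u * c = c * u := comm_comm_two hxns hux' hcx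
  have hcu' : u * c * u⁻¹ = c := mul_inv_eq_iff_eq_mul.2 hcu
  have huy : u * y * u⁻¹ = y * c := by rw [hc, mul_inv_cancel_left]
  have hiter : ∀ i : ℕ, u ^ i * y * (u ^ i)⁻¹ = y * c ^ i := by
    intro i
    induction i with
    | zero => simp
    | succ i ih =>
      calc u ^ (i + 1) * y * (u ^ (i + 1))⁻¹ = u * (u ^ i * y * (u ^ i)⁻¹) * u⁻¹ := by rw [pow_succ']; group
        _ = (u * y * u⁻¹) * (u * c * u⁻¹) ^ i := by rw [ih, conj_pow]; group
        _ = y * c ^ (i + 1) := by rw [huy, hcu', pow_succ', mul_assoc]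
  have hcm := hiter (orderOf u)
  rw [pow_orderOf_eq_one, one_mul, inv_one, mul_one, eq_comm, mul_eq_left] at hcm
  obtain ⟨j, hj⟩ := hp ⟨c, hcS⟩
  have hj' : c ^ 2 ^ j = 1 := congrArg Subtype.val hj
  have hc1 : c = 1 := by
    have h3 := pow_gcd_eq_one.2 ⟨hcm, hj'⟩
    rwa [(hodd.coprime_two_right.pow_right j).gcd_eq_one, pow_one] at h3
  rw [hc1, mul_one] at huy
  exact scal_of_comm hxy hux' (mul_inv_eq_iff_eq_mul.1 huy)

/-- Two anticommuting elements of determinant one in every Sylow 2-subgroup. -/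
theorem exists_pair [Finite F] (h2 : (2 : F) ≠ 0) (W : Sylow 2 G2) :
    ∃ i ∈ (W : Subgroup G2), ∃ j ∈ (W : Subgroup G2), dt i = 1 ∧ dt j = 1 ∧ i * j ≠ j * i := by
  have := Fact.mk Nat.prime_two
  obtain ⟨p, hp⟩ := CharP.exists F
  have : NeZero p := ⟨(CharP.char_is_prime F p).ne_zero⟩
  obtain ⟨a, b, hab⟩ := CharP.sq_add_sq F p (-1)
  simp only [Int.cast_neg, Int.cast_one] at hab
  set i : G2 := Matrix.GeneralLinearGroup.mkOfDetNeZero !![(0 : F), 1; -1, 0]
    (by simp [Matrix.det_fin_two]) with hi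
  set j : G2 := Matrix.GeneralLinearGroup.mkOfDetNeZero !![(a : F), (b : F); (b : F), -(a : F)]
    (by rw [Matrix.det_fin_two_of, show (a : F) * -(a : F) - b * b = 1 by linear_combination -hab]; exact one_ne_zero) with hj
  have hdi : dt i = 1 := Units.ext (by simp [hi, Matrix.det_fin_two])
  have hdj : dt j = 1 := by
    refine Units.ext ?_
    show (!![(a : F), (b : F); (b : F), -(a : F)]).det = 1
    rw [Matrix.det_fin_two_of]
    linear_combination -hab
  have hji : j * i = i⁻¹ * j := by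
    rw [eq_inv_mul_iff_mul_eq]
    refine Units.ext ?_
    show !![(0 : F), 1; -1, 0] * (!![(a : F), (b : F); (b : F), -(a : F)] * !![0, 1; -1, 0]) =
      !![(a : F), (b : F); (b : F), -(a : F)]
    simp
  have hii : i * i = -1 := by
    refine Units.ext ?_
    show !![(0 : F), 1; -1, 0] * !![(0 : F), 1; -1, 0] = -1
    simp [Matrix.one_fin_two]
  have hjj : j * j = -1 := by
    refine Units.ext ?_
    show !![(a : F), (b : F); (b : F), -(a : F)] * !![(a : F), (b : F); (b : F), -(a : F)] = -1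
    rw [Matrix.mul_fin_two, Matrix.one_fin_two]
    ext r s
    fin_cases r <;> fin_cases s <;> simp <;>
      first | linear_combination hab | linear_combination -hab | ring
  have h4 : ∀ t : G2, t * t = -1 → IsPGroup 2 (Subgroup.zpowers t) := by
    intro t ht
    rintro ⟨_, e, rfl⟩
    refine ⟨2, Subtype.ext ?_⟩
    show (t ^ e) ^ 2 ^ 2 = 1
    have h4' : t ^ ((4 : ℕ) : ℤ) = 1 := by
      rw [_root_.zpow_natCast, show (4 : ℕ) = 2 * 2 from rfl, pow_mul, sq t, ht, sq, neg_mul_neg, one_mul]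
    rw [← _root_.zpow_natCast, ← _root_.zpow_mul, mul_comm, _root_.zpow_mul, show ((2 ^ 2 : ℕ) : ℤ) = ((4 : ℕ) : ℤ) from rfl,
      h4', _root_.one_zpow]
  have hn : Subgroup.zpowers j ≤ Subgroup.normalizer (Subgroup.zpowers i : Set G2) := by
    rw [Subgroup.zpowers_le]
    have := Fintype.ofFinite F
    refine Subgroup.mem_normalizer_fintype ?_
    rintro _ ⟨e, rfl⟩
    show j * i ^ e * j⁻¹ ∈ Subgroup.zpowers i
    rw [← conj_zpow, hji, mul_inv_cancel_right]
    exact zpow_mem (inv_mem (Subgroup.mem_zpowers i)) e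
  obtain ⟨P, hP⟩ := ((h4 i hii).to_sup_of_normal_left' (h4 j hjj) hn).exists_le_sylow
  obtain ⟨g, hg⟩ := MulAction.exists_smul_eq G2 P W
  have hmem : ∀ t ∈ (P : Subgroup G2), g * t * g⁻¹ ∈ (W : Subgroup G2) := by
    intro t ht
    rw [← hg, Sylow.coe_subgroup_smul]
    exact ⟨t, ht, rfl⟩
  refine ⟨_, hmem i (hP (Subgroup.mem_sup_left (Subgroup.mem_zpowers i))),
    _, hmem j (hP (Subgroup.mem_sup_right (Subgroup.mem_zpowers j))), ?_, ?_, ?_⟩
  · rw [map_mul, map_mul, map_inv, hdi, mul_one, mul_inv_cancel]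
  · rw [map_mul, map_mul, map_inv, hdj, mul_one, mul_inv_cancel]
  · intro e
    have e' : i * j = j * i := by
      refine mul_left_cancel (a := g) (mul_right_cancel (b := g⁻¹) ?_)
      calc g * (i * j) * g⁻¹ = g * i * g⁻¹ * (g * j * g⁻¹) := by group
        _ = g * j * g⁻¹ * (g * i * g⁻¹) := e
        _ = g * (j * i) * g⁻¹ := by group
    rw [hji] at e'
    have h1 : i * i = 1 := by
      rw [← inv_eq_iff_mul_eq_one]
      exact (mul_right_cancel e').symm
    rw [hii] at h1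
    exact neg_one_ne_one h2 h1

theorem scal_mem_sylow [Finite F] {ι : Type*} [Fintype ι] [DecidableEq ι] (W : Sylow 2 (GL ι F))
    {c : Fˣ} (hc : ∃ k : ℕ, c ^ 2 ^ k = 1) : scal c ∈ (W : Subgroup (GL ι F)) := by
  obtain ⟨k, hk⟩ := hc
  refine mem_sylow_of_normalizer W (k := k) (by rw [← map_pow, hk, map_one]) ?_
  rw [Subgroup.mem_normalizer_iff]
  intro x
  rw [scal_comm, mul_inv_cancel_right]

theorem sylow_cent [Finite F] (h2 : (2 : F) ≠ 0) (W : Sylow 2 G2) {x : G2}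
    (h : ∀ a ∈ (W : Subgroup G2), dt a = 1 → x * a = a * x) : ∃ c : Fˣ, x = scal c := by
  obtain ⟨i, hi, j, hj, hdi, hdj, hij⟩ := exists_pair h2 W
  exact scal_of_comm hij (h i hi hdi) (h j hj hdj)

theorem sylow_nontriv [Finite F] (h2 : (2 : F) ≠ 0) (W : Sylow 2 G2) :
    ∃ a ∈ (W : Subgroup G2), dt a = 1 ∧ a ≠ 1 ∧ a ≠ -1 := by
  obtain ⟨i, hi, j, -, hdi, -, hij⟩ := exists_pair h2 W
  refine ⟨i, hi, hdi, fun h => hij (by rw [h, one_mul, mul_one]), fun h => hij (by rw [h, neg_one_mul, mul_neg_one])⟩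

/-- The structure of the Sylow 2-subgroups for `q ≡ 3 mod 4`. -/
theorem qd_data_of {W : Subgroup G2} (hW : Cfsg.IsQuasiDihedral W) :
    ∃ x ∈ W, ∃ y ∈ W, x * y ≠ y * x ∧ x ^ 4 ≠ 1 ∧
      (∀ s ∈ W, s ^ 4 ≠ 1 → s ∈ Subgroup.zpowers x) ∧
      Nat.card W = 2 * orderOf x := by
  obtain ⟨n, hn, hc, x, y, hx, hy, hxy⟩ := hW
  obtain ⟨m, rfl⟩ : ∃ m, n = m + 3 := ⟨n - 3, by omega⟩
  simp only [show m + 3 - 1 = m + 2 by omega] at hxy
  have hpos : 1 ≤ 2 ^ (m + 2) := Nat.one_le_two_pow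
  have e4 : 2 ^ (m + 2) = 4 * 2 ^ m := by rw [pow_add]; ring
  have e8 : 2 ^ (m + 3) = 8 * 2 ^ m := by rw [pow_add]; ring
  have hnc : x * y ≠ y * x := by
    intro e
    rw [← e, mul_inv_cancel_right] at hxy
    have h1 : x ^ 1 = x ^ (2 ^ (m + 2) - 1) := by rwa [pow_one]
    rw [pow_eq_pow_iff_modEq, hx, Nat.modEq_iff_dvd' (by omega)] at h1
    have := Nat.le_of_dvd (by omega) h1
    omega
  have hi2 : (Subgroup.zpowers x).index = 2 := by
    have := (Subgroup.zpowers x).card_mul_index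
    rw [Nat.card_zpowers, hx, hc, pow_succ] at this
    exact mul_left_cancel₀ (by positivity) this
  have hynot : y ∉ Subgroup.zpowers x := by
    rintro ⟨i, rfl⟩
    exact hnc ((Commute.refl x).zpow_right i)
  have hgen : ∀ s : W, s ^ 4 ≠ 1 → s ∈ Subgroup.zpowers x := by
    intro s hs
    by_contra hsx
    obtain ⟨i, hi⟩ : s * y⁻¹ ∈ Subgroup.zpowers x :=
      (Subgroup.mul_mem_iff_of_index_two hi2).2 (by simp [hsx, hynot])
    have hi' : x ^ i = s * y⁻¹ := hi
    have hs' : s = x ^ i * y := by rw [hi', inv_mul_cancel_right]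
    have hyy : y * y = 1 := by
      have := pow_orderOf_eq_one y
      rwa [hy, sq] at this
    have hsq : s * s = x ^ (((2 ^ (m + 2) : ℕ) : ℤ) * i) := by
      calc s * s = x ^ i * (y * x * y⁻¹) ^ i * (y * y) := by rw [hs', conj_zpow]; group
        _ = x ^ (((2 ^ (m + 2) : ℕ) : ℤ) * i) := by
          rw [hxy, hyy, mul_one, ← _root_.zpow_natCast x, ← _root_.zpow_mul, ← _root_.zpow_add, Nat.cast_sub hpos, Nat.cast_one]
          congr 1
          ring
    apply hs
    rw [show (4 : ℕ) = 2 * 2 from rfl, pow_mul, sq s, hsq, sq, ← _root_.zpow_add,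
      show ((2 ^ (m + 2) : ℕ) : ℤ) * i + ((2 ^ (m + 2) : ℕ) : ℤ) * i = ((orderOf x : ℕ) : ℤ) * i by
        rw [hx]; push_cast; ring,
      _root_.zpow_mul, _root_.zpow_natCast, pow_orderOf_eq_one, _root_.one_zpow]
  refine ⟨(x : G2), x.2, (y : G2), y.2, fun e => hnc (Subtype.ext e), fun h => ?_, fun s hs h4 => ?_, ?_⟩
  · have h' : x ^ 4 = 1 := Subtype.ext h
    have := Nat.le_of_dvd (by norm_num) (orderOf_dvd_of_pow_eq_one h')
    rw [hx] at this
    omega
  · obtain ⟨i, hi⟩ := hgen ⟨s, hs⟩ fun h => h4 (congrArg Subtype.val h)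
    exact ⟨i, congrArg Subtype.val hi⟩
  · rw [Subgroup.orderOf_coe, hc, hx, pow_succ']

/-- The structure of the Sylow 2-subgroups for `q ≡ 3 mod 4`. -/
theorem qd_data [Fintype F] (W : Sylow 2 G2) (hq : Fintype.card F % 4 = 3) :
    ∃ x ∈ (W : Subgroup G2), ∃ y ∈ (W : Subgroup G2), x * y ≠ y * x ∧ x ^ 4 ≠ 1 ∧
      (∀ s ∈ (W : Subgroup G2), s ^ 4 ≠ 1 → s ∈ Subgroup.zpowers x) ∧
      Nat.card (W : Subgroup G2) = 2 * orderOf x := by
  exact qd_data_of (Cfsg.Agent.H49.GL_two_quasiDihedral W hq)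

theorem good_qd [Fintype F] (h2 : (2 : F) ≠ 0) (W : Sylow 2 G2) (hq : Fintype.card F % 4 = 3) :
    Good (W : Subgroup G2) := by
  obtain ⟨x, hx, y, hy, hxy, hx4, hgen, -⟩ := qd_data W hq
  refine ⟨W.isPGroup', fun g hg => ?_, fun c hc => scal_mem_sylow W hc, fun z _ h => sylow_cent h2 W h,
    sylow_nontriv h2 W⟩
  obtain ⟨g2, u, rfl, ⟨k, hk⟩, hodd, hg2, hu⟩ := exists_two_odd g
  obtain ⟨c, rfl⟩ := odd_normal_scalar W.isPGroup' hx hx4 hgen hy hxy ((Subgroup.zpowers_le.2 hg) hu) hodd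
  exact ⟨g2, mem_sylow_of_normalizer W hk ((Subgroup.zpowers_le.2 hg) hg2), c, rfl⟩

section Transport

variable {ι ι' : Type*} [Fintype ι] [DecidableEq ι] [Fintype ι'] [DecidableEq ι']

/-- Renaming the indices. -/
def reix (e : ι ≃ ι') : GL ι F ≃* GL ι' F :=
  Units.mapEquiv (Matrix.reindexAlgEquiv F F e).toMulEquiv

theorem coe_reix (e : ι ≃ ι') (g : GL ι F) :
    ((reix e g : GL ι' F) : Matrix ι' ι' F) = Matrix.reindex e e (g : Matrix ι ι F) := rfl

theorem dt_reix (e : ι ≃ ι') (g : GL ι F) : dt (reix e g) = dt g := by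
  refine Units.ext ?_
  show ((reix e g : GL ι' F) : Matrix ι' ι' F).det = _
  rw [coe_reix, Matrix.det_reindex_self]
  rfl

theorem reix_scal (e : ι ≃ ι') (c : Fˣ) : reix e (scal c : GL ι F) = scal c := by
  refine Units.ext ?_
  rw [coe_reix]
  simp [Matrix.scalar, Matrix.submatrix_diagonal_equiv, Function.comp_def]

theorem reix_neg_one (e : ι ≃ ι') : reix e (-1 : GL ι F) = -1 := by
  rw [← scal_neg_one, ← scal_neg_one, reix_scal]

theorem Good.reix (e : ι ≃ ι') {W : Subgroup (GL ι F)} (hW : Good W) :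
    Good (W.map (reix e).toMonoidHom) := by
  refine ⟨hW.pGroup.map _, fun g hg => ?_, fun c hc => ⟨scal c, hW.scal_mem c hc, reix_scal e c⟩,
    ?_, ?_⟩
  · rw [← Subgroup.map_equiv_normalizer_eq] at hg
    obtain ⟨g, hg, rfl⟩ := hg
    obtain ⟨w, hw, c, rfl⟩ := hW.norm g hg
    exact ⟨_, ⟨w, hw, rfl⟩, c, by simp [map_mul, reix_scal]⟩
  · rintro _ ⟨x, hx, rfl⟩ h
    obtain ⟨c, rfl⟩ := hW.cent x hx fun a ha hd => (Cfsg.Agent.H68.Pro.reix e).injective <| by
      simpa [map_mul] using h _ ⟨a, ha, rfl⟩ (by simpa [dt_reix] using hd)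
    exact ⟨c, reix_scal e c⟩
  · obtain ⟨a, ha, hd, h1, h2⟩ := hW.nontriv
    refine ⟨_, ⟨a, ha, rfl⟩, by simpa [dt_reix] using hd, ?_, ?_⟩
    · exact fun h => h1 ((Cfsg.Agent.H68.Pro.reix e).injective (h.trans (map_one _).symm))
    · exact fun h => h2 ((Cfsg.Agent.H68.Pro.reix e).injective (h.trans (reix_neg_one e).symm))

end Transport

/-- The index equivalence used in degree two. -/
def eU : Unit ⊕ Unit ≃ Fin 2 where
  toFun := Sum.elim (fun _ => 0) (fun _ => 1)
  invFun i := if i = 0 then Sum.inl () else Sum.inr ()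
  left_inv x := by rcases x with x | x <;> rfl
  right_inv i := by fin_cases i <;> rfl

theorem exists_scal_unit (g : GL Unit F) : ∃ c : Fˣ, g = scal c := by
  refine ⟨dt g, Units.ext ?_⟩
  ext i j
  simp [Matrix.det_unique]

/-- The scalars of 2-power order in degree one. -/
def mu (F : Type*) [Field F] : Subgroup (GL Unit F) where
  carrier := {g | ∃ c : Fˣ, g = scal c ∧ ∃ k : ℕ, c ^ 2 ^ k = 1}
  one_mem' := ⟨1, (map_one _).symm, 0, by simp⟩
  mul_mem' := by
    rintro _ _ ⟨c, rfl, k, hk⟩ ⟨d, rfl, l, hl⟩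
    refine ⟨c * d, (map_mul _ c d).symm, k + l, ?_⟩
    rw [mul_pow, pow_add, pow_mul, hk, one_pow, one_mul, mul_comm (2 ^ k), pow_mul, hl, one_pow]
  inv_mem' := by
    rintro _ ⟨c, rfl, k, hk⟩
    exact ⟨c⁻¹, (map_inv _ c).symm, k, by rw [inv_pow, hk, inv_one]⟩

theorem scal_mem_mu {c : Fˣ} (hc : ∃ k : ℕ, c ^ 2 ^ k = 1) : scal c ∈ mu F := ⟨c, rfl, hc⟩

theorem pGroup_mu : IsPGroup 2 (mu F) := by
  rintro ⟨_, c, rfl, k, hk⟩
  exact ⟨k, Subtype.ext (show (scal c) ^ 2 ^ k = 1 by rw [← map_pow, hk, map_one])⟩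

theorem good_wr_mu [Fintype F] (h2 : (2 : F) ≠ 0) (hq : Fintype.card F % 4 = 1) : Good (wr (mu F)) := by
  obtain ⟨ζ, hζ⟩ := Cfsg.Agent.H49.exists_orderOf_units (F := F) (d := 4)
    (Nat.dvd_of_mod_eq_zero (by omega))
  have hζ4 : ζ ^ 2 ^ 2 = 1 := by
    have := pow_orderOf_eq_one ζ
    rwa [hζ] at this
  have hζ2 : ζ ^ 2 ≠ 1 := pow_ne_one_of_lt_orderOf (by norm_num) (by omega)
  set a : GL Unit F := scal ζ with ha
  have haW : a ∈ mu F := scal_mem_mu ⟨2, hζ4⟩
  have hne : a⁻¹ ≠ a := by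
    rw [ha, ← map_inv]
    exact fun h => hζ2 (by rw [sq, ← inv_eq_iff_mul_eq_one]; exact scal_injective h)
  have hneg : (-1 : GL Unit F) ∈ mu F := by
    rw [← scal_neg_one]; exact scal_mem_mu ⟨1, by simp⟩
  have hsw : dt (bd ((1 : GL Unit F), -1) * sw) = 1 := by
    refine Units.ext ?_
    show ((bd ((1 : GL Unit F), -1) * sw : GL (Unit ⊕ Unit) F) : Matrix (Unit ⊕ Unit) (Unit ⊕ Unit) F).det = 1
    rw [← Matrix.det_reindex_self eU, Matrix.det_fin_two]
    simp [eU, coe_bd, coe_sw, Units.val_mul, fromBlocks_multiply]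
  refine ⟨isPGroup_wr pGroup_mu, fun g hg => ?_, scal_mem_wr fun c hc => scal_mem_mu hc, ?_, ?_⟩
  · exact core h2 (fun g _ => ⟨1, one_mem _, by simpa using exists_scal_unit g⟩) le_rfl
      (bd_mem_wr (one_mem _) hneg) sw_mem_wr (A := (mu F : Set (GL Unit F)))
      (fun a ha => ⟨bd_mem_wr ha (one_mem _), bd_mem_wr (one_mem _) ha⟩)
      (fun x _ _ => exists_scal_unit x)
      ⟨a, haW, fun h => hne (by rw [h, inv_one]), fun h => hne (by
        rw [h]; exact inv_eq_of_mul_eq_one_right (by rw [neg_mul_neg, one_mul]))⟩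
      (fun a ha => ⟨a, bd_mem_wr ha ha⟩) hg
  · intro g hg hc
    have hi := hc _ (bd_mem_wr haW (inv_mem haW)) (by rw [dt_bd, map_inv, mul_inv_cancel])
    have hj := hc _ (mul_mem (bd_mem_wr (one_mem _) hneg) sw_mem_wr) hsw
    obtain ⟨x, -, y, -, rfl | rfl⟩ := hg
    · rw [← mul_assoc, bd_mul, mul_one, bd_sw_mul_bd, one_mul] at hj
      obtain ⟨rfl, -⟩ := bd_sw_inj hj
      obtain ⟨c, rfl⟩ := exists_scal_unit x
      exact ⟨c, bd_scal c⟩
    · exfalso
      rw [bd_sw_mul_bd, ← mul_assoc, bd_mul] at hi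
      obtain ⟨d, rfl⟩ := exists_scal_unit x
      have := (bd_sw_inj hi).1
      rw [← scal_comm] at this
      exact hne (mul_left_cancel this)
  · refine ⟨_, bd_mem_wr haW (inv_mem haW), by rw [dt_bd, map_inv, mul_inv_cancel], fun h => hne ?_,
      fun h => hne ?_⟩
    · rw [← bd_one] at h
      obtain ⟨h1, h1'⟩ := bd_inj h
      rw [h1', h1]
    · have e : (-1 : GL (Unit ⊕ Unit) F) = bd ((-1 : GL Unit F), -1) := by rw [← neg_bd, bd_one, mul_one]
      rw [e] at h
      obtain ⟨h1, h1'⟩ := bd_inj h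
      rw [h1', h1]

theorem exists_good_two [Fintype F] (h2 : (2 : F) ≠ 0) : ∃ W : Subgroup G2, Good W := by
  have hodd : Fintype.card F % 2 = 1 := FiniteField.odd_card_of_char_ne_two fun h => h2 (by
    have : CharP F 2 := ringChar.eq_iff.1 h
    exact CharTwo.two_eq_zero)
  by_cases hq : Fintype.card F % 4 = 1
  · exact ⟨_, (good_wr_mu h2 hq).reix eU⟩
  · obtain ⟨W⟩ : Nonempty (Sylow 2 G2) := inferInstance
    exact ⟨_, good_qd h2 W (by omega)⟩

theorem exists_good [Fintype F] (h2 : (2 : F) ≠ 0) :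
    ∀ k : ℕ, ∃ W : Subgroup (GL (Fin (2 ^ (k + 1))) F), Good W := by
  intro k
  induction k with
  | zero => exact exists_good_two h2
  | succ k ih =>
    obtain ⟨W, hW⟩ := ih
    have e : Fin (2 ^ (k + 1)) ⊕ Fin (2 ^ (k + 1)) ≃ Fin (2 ^ (k + 1 + 1)) :=
      finSumFinEquiv.trans (finCongr (by ring))
    exact ⟨_, (hW.double h2 (by simp [Nat.even_pow])).reix e⟩

local notation "SLm" n => Matrix.SpecialLinearGroup (Fin n) F

open Matrix.SpecialLinearGroup in
/-- From degree four on a Sylow 2-subgroup of the special linear group is its own normaliser. -/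
theorem special_selfnorm [Fintype F] (h2 : (2 : F) ≠ 0) (k : ℕ) :
    ∃ S : Subgroup (SLm (2 ^ (k + 2))), IsPGroup 2 S ∧
      Subgroup.normalizer (S : Set (SLm (2 ^ (k + 2)))) = S := by
  obtain ⟨W, hW⟩ := exists_good h2 k
  let e : Fin (2 ^ (k + 1)) ⊕ Fin (2 ^ (k + 1)) ≃ Fin (2 ^ (k + 2)) :=
    finSumFinEquiv.trans (finCongr (by ring))
  let f : (SLm (2 ^ (k + 2))) →* GL (Fin (2 ^ (k + 1)) ⊕ Fin (2 ^ (k + 1))) F :=
    (reix e).symm.toMonoidHom.comp toGL
  have hf : Function.Injective f := (reix e).symm.injective.comp toGL_injective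
  have hdt : ∀ g, dt (f g) = 1 := by
    intro g
    show dt ((reix e).symm (toGL g)) = 1
    have := dt_reix e ((reix e).symm (toGL g))
    rw [MulEquiv.apply_symm_apply] at this
    rw [← this]
    exact Units.ext g.2
  have hsurj : ∀ m, dt m = 1 → ∃ g, f g = m := by
    intro m hm
    have hm' : ((reix e m : GL (Fin (2 ^ (k + 2))) F) :
        Matrix (Fin (2 ^ (k + 2))) (Fin (2 ^ (k + 2))) F).det = 1 :=
      congrArg Units.val ((dt_reix e m).trans hm)
    refine ⟨⟨_, hm'⟩, ?_⟩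
    show (reix e).symm (toGL _) = m
    rw [MulEquiv.symm_apply_eq]
    exact Units.ext rfl
  refine ⟨(wr W).comap f, (isPGroup_wr hW.pGroup).comap_of_injective f hf, le_antisymm ?_
    Subgroup.le_normalizer⟩
  intro g hg
  show f g ∈ wr W
  refine hW.special h2 (by simp [Nat.even_pow]) (d := k + 2) (by simp; ring) (hdt g) ?_
  have hmap : ((wr W).comap f).map f = wr W ⊓ dt.ker := by
    ext m
    constructor
    · rintro ⟨g, hg, rfl⟩; exact ⟨hg, hdt g⟩
    · rintro ⟨hm, hd⟩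
      obtain ⟨g, rfl⟩ := hsurj m hd
      exact ⟨g, hm, rfl⟩
  rw [← hmap]
  exact Subgroup.le_normalizer_map f ⟨g, hg, rfl⟩

open Matrix.SpecialLinearGroup in
/-- Self-normalising Sylow 2-subgroups in degree two. -/
theorem special_two_of_data [Fintype F] (W : Sylow 2 G2) {x : G2} (hx : x ∈ (W : Subgroup G2))
    (hdx : dt x = 1) (hx4 : x ^ 4 ≠ 1)
    (hgen : ∀ s ∈ (W : Subgroup G2), dt s = 1 → s ^ 4 ≠ 1 → s ∈ Subgroup.zpowers x)
    (h2 : (2 : F) ≠ 0) :
    ∃ S : Subgroup (SLm 2), IsPGroup 2 S ∧ Subgroup.normalizer (S : Set (SLm 2)) = S := by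
  have := Fact.mk Nat.prime_two
  set f : (SLm 2) →* G2 := toGL with hf'
  have hf : Function.Injective f := toGL_injective
  have hdt : ∀ g, dt (f g) = 1 := fun g => Units.ext g.2
  set S := (W : Subgroup G2).comap f with hS
  have hSp : IsPGroup 2 S := W.isPGroup'.comap_of_injective f hf
  have hmap : S.map f = (W : Subgroup G2) ⊓ dt.ker := by
    ext m
    constructor
    · rintro ⟨g, hg, rfl⟩; exact ⟨hg, hdt g⟩
    · rintro ⟨hm, hd⟩
      have hd' : (m : Matrix (Fin 2) (Fin 2) F).det = 1 := congrArg Units.val hd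
      have e : f ⟨_, hd'⟩ = m := Units.ext rfl
      refine ⟨⟨_, hd'⟩, ?_, e⟩
      show f ⟨_, hd'⟩ ∈ (W : Subgroup G2)
      rw [e]
      exact hm
  -- it is a Sylow subgroup
  obtain ⟨P, hP⟩ := hSp.exists_le_sylow
  have hPS : (P : Subgroup (SLm 2)) = S := by
    obtain ⟨Q, hQ⟩ := (P.isPGroup'.map f).exists_le_sylow
    obtain ⟨t, ht⟩ := MulAction.exists_smul_eq G2 Q W
    have hle : ((P : Subgroup (SLm 2)).map f).map (MulAut.conj t).toMonoidHom ≤
        (W : Subgroup G2) ⊓ dt.ker := by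
      rintro _ ⟨_, ⟨g, hg, rfl⟩, rfl⟩
      refine ⟨?_, ?_⟩
      · rw [← ht, Sylow.coe_subgroup_smul]
        exact ⟨f g, hQ ⟨g, hg, rfl⟩, rfl⟩
      · show dt (t * f g * t⁻¹) = 1
        rw [map_mul, map_mul, map_inv, hdt g, mul_one, mul_inv_cancel]
    have hcard := Subgroup.card_le_of_le hle
    rw [Subgroup.card_map_of_injective (MulAut.conj t).injective, Subgroup.card_map_of_injective hf,
      ← hmap, Subgroup.card_map_of_injective hf] at hcard
    exact (Subgroup.eq_of_le_of_card_ge hP hcard).symm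
  obtain ⟨i, hi, j, hj, hdi, hdj, hij⟩ := exists_pair h2 W
  have hxns : ∀ c : Fˣ, x ≠ scal c := by
    intro c hc
    have hd : c ^ 2 = 1 := by
      have := hdx
      rw [hc, Matrix.GeneralLinearGroup.det_scalar, Fintype.card_fin] at this
      exact this
    refine hx4 ?_
    rw [hc, show (4 : ℕ) = 2 * 2 from rfl, pow_mul, ← map_pow, hd, map_one, one_pow]
  obtain ⟨y, hy, hxy⟩ : ∃ y ∈ (W : Subgroup G2) ⊓ dt.ker, x * y ≠ y * x := by
    by_contra! h
    exact hij (comm_comm_two hxns (h i ⟨hi, hdi⟩).symm (h j ⟨hj, hdj⟩).symm)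
  refine ⟨S, hSp, le_antisymm ?_ Subgroup.le_normalizer⟩
  intro g hg
  obtain ⟨g2, u, rfl, ⟨k, hk⟩, hodd, hg2, hu⟩ := exists_two_odd g
  refine mul_mem (hPS ▸ mem_sylow_of_normalizer P hk (hPS.symm ▸ (Subgroup.zpowers_le.2 hg) hg2)) ?_
  have hun : f u ∈ Subgroup.normalizer (((W : Subgroup G2) ⊓ dt.ker : Subgroup G2) : Set G2) := by
    rw [← hmap]
    exact Subgroup.le_normalizer_map f ⟨u, (Subgroup.zpowers_le.2 hg) hu, rfl⟩
  obtain ⟨c, hc⟩ := odd_normal_scalar (W.isPGroup'.to_le inf_le_left) (⟨hx, hdx⟩ : x ∈ _ ⊓ dt.ker) hx4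
    (fun s hs h => hgen s hs.1 hs.2 h) hy hxy hun (by rw [orderOf_injective f hf]; exact hodd)
  have hd : c ^ 2 = 1 := by
    have := hdt u
    rw [hc, Matrix.GeneralLinearGroup.det_scalar, Fintype.card_fin] at this
    exact this
  show f u ∈ (W : Subgroup G2)
  rw [hc]
  exact scal_mem_sylow W ⟨1, by simpa using hd⟩

end Cfsg.Agent.H68.Pro
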