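import Cfsg.Agent.H70.Bruhat
import Cfsg.Agent.H70.AutPSL.Transv
import Cfsg.Agent.H68.Pro.GLTwo

/-!
Subgroups of the special linear group in characteristic two containing the unitriangular group are
normalised by the diagonal matrices.
-/

set_option autoImplicit false
set_option linter.unusedSectionVars false

namespace Cfsg.Agent.H68.Pro.Even

open Matrix Cfsg.Agent.H70 Cfsg.Agent.H70.AutPSL

variable {n : ℕ} {F : Type*} [Field F]

local notation "Mn" => Matrix (Fin n) (Fin n) F
local notation "GLn" => GL (Fin n) F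
local notation "SLn" => Matrix.SpecialLinearGroup (Fin n) F

/-- Diagonal matrices. -/
def dg : (Fin n → Fˣ) →* GLn :=
  MonoidHom.toHomUnits
    { toFun := fun d => Matrix.diagonal fun i => (d i : F)
      map_one' := by simp
      map_mul' := fun d e => by simp [Matrix.diagonal_mul_diagonal] }

theorem coe_dg (d : Fin n → Fˣ) : ((dg d : GLn) : Mn) = Matrix.diagonal fun i => (d i : F) := rfl

/-- Transvections. -/
def tr {i j : Fin n} (h : i ≠ j) (c : F) : GLn :=
  Matrix.SpecialLinearGroup.toGL (Matrix.SpecialLinearGroup.transvection h c)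

theorem coe_tr {i j : Fin n} (h : i ≠ j) (c : F) : ((tr h c : GLn) : Mn) = 1 + Matrix.single i j c := rfl

theorem perm_tr {i j : Fin n} (h : i ≠ j) (c : F) (σ : Equiv.Perm (Fin n)) :
    permGL σ * tr h c * (permGL σ)⁻¹ = tr (σ.injective.ne h) c := by
  rw [mul_inv_eq_iff_eq_mul]
  refine Units.ext ?_
  rw [Units.val_mul, Units.val_mul, coe_tr, coe_tr, mul_add, add_mul, mul_one, one_mul]
  congr 1
  ext a b
  simp only [Matrix.mul_apply, permGL_apply, Matrix.single_apply, ite_mul, one_mul, zero_mul, mul_ite,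
    mul_one, mul_zero]
  rw [Finset.sum_eq_single i (fun x _ hx => by simp [Ne.symm hx]) (by simp),
    Finset.sum_eq_single (σ j) (fun x _ hx => by simp [Ne.symm hx]) (by simp)]
  by_cases h1 : a = σ i <;> by_cases h2 : j = b <;> simp [h1, h2, eq_comm]

theorem dg_tr {i j : Fin n} (h : i ≠ j) (c : F) (d : Fin n → Fˣ) :
    dg d * tr h c * (dg d)⁻¹ = tr h ((d i : F) * c * ((d j)⁻¹ : Fˣ)) := by
  rw [mul_inv_eq_iff_eq_mul]
  refine Units.ext ?_
  rw [Units.val_mul, Units.val_mul, coe_tr, coe_tr, coe_dg, mul_add, add_mul, mul_one, one_mul]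
  congr 1
  ext a b
  rw [Matrix.diagonal_mul, Matrix.mul_diagonal, Matrix.single_apply, Matrix.single_apply]
  by_cases h' : i = a ∧ j = b
  · obtain ⟨rfl, rfl⟩ := h'
    simp
  · simp [h']

theorem perm_dg (d : Fin n → Fˣ) (σ : Equiv.Perm (Fin n)) :
    permGL σ * dg d = dg (fun i => d (σ.symm i)) * (permGL σ : GLn) := by
  refine Units.ext ?_
  rw [Units.val_mul, Units.val_mul, coe_dg, coe_dg]
  ext a b
  rw [Matrix.mul_diagonal, Matrix.diagonal_mul, permGL_apply]
  by_cases h : a = σ b <;> simp [h]

theorem tr_swap [CharP F 2] {a b : Fin n} (h : a ≠ b) :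
    tr h (1 : F) * tr h.symm 1 * tr h 1 = (permGL (Equiv.swap a b) : GLn) := by
  refine Units.ext ?_
  rw [Units.val_mul, Units.val_mul, coe_tr, coe_tr]
  simp only [add_mul, mul_add, one_mul, mul_one, Matrix.single_mul_single_same,
    Matrix.single_mul_single_of_ne _ _ _ _ h.symm, add_zero]
  ext x y
  simp only [Matrix.add_apply, Matrix.single_apply, Matrix.one_apply, permGL_apply, Equiv.swap_apply_def]
  have h2 : (1 : F) + 1 = 0 := CharTwo.add_self_eq_zero 1
  by_cases hxa : x = a <;> by_cases hxb : x = b <;> by_cases hya : y = a <;> by_cases hyb : y = b <;>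
    simp_all [eq_comm] <;> grind

/-- Decomposition of an upper triangular matrix. -/
theorem upper_decomp {b : GLn} (hb : IsUpperTri b) :
    ∃ d : Fin n → Fˣ, StrictUpper (((b * (dg d)⁻¹ : GLn) : Mn) - 1) ∧
      StrictUpper ((((dg d)⁻¹ * b : GLn) : Mn) - 1) := by
  have hne : ∀ i, (b : Mn) i i ≠ 0 := by
    intro i h0
    have := Matrix.GeneralLinearGroup.det_ne_zero b
    rw [Matrix.det_of_isUpperTriangular hb] at this
    exact this (Finset.prod_eq_zero (Finset.mem_univ i) h0)
  refine ⟨fun i => Units.mk0 _ (hne i), ?_, ?_⟩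
  · intro i j hij
    rw [← map_inv, Units.val_mul, coe_dg, Matrix.sub_apply, Matrix.mul_diagonal]
    rcases hij.lt_or_eq with h | rfl
    · rw [hb h, zero_mul, Matrix.one_apply_ne h.ne', sub_zero]
    · simp [hne j]
  · intro i j hij
    rw [← map_inv, Units.val_mul, coe_dg, Matrix.sub_apply, Matrix.diagonal_mul]
    rcases hij.lt_or_eq with h | rfl
    · rw [hb h, mul_zero, Matrix.one_apply_ne h.ne', sub_zero]
    · simp [hne j]

theorem strictUpper_tr {i j : Fin n} (h : i < j) (c : F) : StrictUpper (((tr h.ne c : GLn) : Mn) - 1) := by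
  intro a b hab
  rw [coe_tr, add_sub_cancel_left, Matrix.single_apply, if_neg]
  rintro ⟨rfl, rfl⟩
  exact not_le.2 h hab

theorem exists_descent {σ : Equiv.Perm (Fin n)} (h : σ ≠ 1) : ∃ i j : Fin n, i < j ∧ σ j < σ i := by
  by_contra! hc
  refine h (Equiv.ext fun x => ?_)
  have hm : StrictMono σ := fun i j hij => lt_of_le_of_ne (hc i j hij) (σ.injective.ne hij.ne)
  exact congrFun ((hm.range_inj strictMono_id).1 (by simp [σ.surjective.range_eq])) x

/-- A weight which grows when an inversion is removed. -/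
def weight (σ : Equiv.Perm (Fin n)) : ℕ := ∑ x : Fin n, (x : ℕ) * (σ x : ℕ)

theorem weight_le (σ : Equiv.Perm (Fin n)) : weight σ ≤ n * (n * n) := by
  refine (Finset.sum_le_sum fun x _ => Nat.mul_le_mul x.isLt.le (σ x).isLt.le).trans ?_
  simp

theorem weight_lt {σ : Equiv.Perm (Fin n)} {i j : Fin n} (h : i < j) (h' : σ j < σ i) :
    weight σ < weight (σ * Equiv.swap i j) := by
  have split : ∀ f : Fin n → ℕ, ∑ x, f x = f i + (f j + ∑ x ∈ (Finset.univ.erase i).erase j, f x) := by
    intro f
    rw [← Finset.add_sum_erase _ f (Finset.mem_univ i),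
      ← Finset.add_sum_erase _ f (Finset.mem_erase.2 ⟨h.ne', Finset.mem_univ j⟩)]
  rw [weight, weight, split, split (fun x => (x : ℕ) * ((σ * Equiv.swap i j) x : ℕ))]
  have hr : ∑ x ∈ (Finset.univ.erase i).erase j, (x : ℕ) * ((σ * Equiv.swap i j) x : ℕ) =
      ∑ x ∈ (Finset.univ.erase i).erase j, (x : ℕ) * (σ x : ℕ) := by
    refine Finset.sum_congr rfl fun x hx => ?_
    simp only [Finset.mem_erase] at hx
    rw [Equiv.Perm.mul_apply, Equiv.swap_apply_of_ne_of_ne hx.2.1 hx.1]
  rw [hr, Equiv.Perm.mul_apply, Equiv.Perm.mul_apply, Equiv.swap_apply_left, Equiv.swap_apply_right]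
  have h1 : (i : ℕ) < j := h
  have h2 : (σ j : ℕ) < σ i := h'
  nlinarith

/-- Over a field of characteristic two a subgroup of `GL` containing the unitriangular matrices is normalised
by the diagonal matrices. -/
theorem dg_conj_mem [CharP F 2] {K : Subgroup GLn} (hU : ∀ g : GLn, StrictUpper ((g : Mn) - 1) → g ∈ K)
    (t : Fin n → Fˣ) {k : GLn} (hk : k ∈ K) : dg t * k * (dg t)⁻¹ ∈ K := by
  have mon : ∀ (N : ℕ) (σ : Equiv.Perm (Fin n)) (d : Fin n → Fˣ), n * (n * n) - weight σ = N →
      dg d * permGL σ ∈ K → dg t * (dg d * permGL σ) * (dg t)⁻¹ ∈ K := by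
    intro N
    induction N using Nat.strong_induction_on with
    | _ N ih =>
      intro σ d hN hm
      by_cases hσ : σ = 1
      · subst hσ
        rw [map_one, mul_one] at hm ⊢
        rwa [← map_mul, mul_comm, map_mul, mul_inv_cancel_right]
      obtain ⟨i, j, hij, hji⟩ := exists_descent hσ
      have hup : ∀ c : F, tr hji.ne c ∈ K := fun c => hU _ (strictUpper_tr hji c)
      have hlow : ∀ c : F, tr hji.ne.symm c ∈ K := by
        intro c
        have hin := hU _ (strictUpper_tr hij (((d (σ i))⁻¹ : Fˣ) * c * (d (σ j) : F)))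
        have := mul_mem (mul_mem hm hin) (inv_mem hm)
        rw [_root_.mul_inv_rev, show ∀ x y z : GLn, dg d * x * y * (x⁻¹ * z) = dg d * (x * y * x⁻¹) * z
          from fun x y z => by group, perm_tr, dg_tr] at this
        convert this using 2
        simp [mul_assoc, mul_left_comm]
      set s := Equiv.swap (σ j) (σ i) with hs
      have hw : ∀ u : Fin n → Fˣ, dg u * permGL s * (dg u)⁻¹ ∈ K := by
        intro u
        rw [hs, ← tr_swap hji.ne, show ∀ x y z : GLn, dg u * (x * y * z) * (dg u)⁻¹ =
          (dg u * x * (dg u)⁻¹) * (dg u * y * (dg u)⁻¹) * (dg u * z * (dg u)⁻¹) from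
            fun x y z => by group, dg_tr, dg_tr]
        exact mul_mem (mul_mem (hup _) (hlow _)) (hup _)
      have hw1 : (permGL s : GLn) ∈ K := by simpa using hw 1
      have hsσ : s * σ = σ * Equiv.swap i j := by
        rw [hs, Equiv.mul_swap_eq_swap_mul, Equiv.swap_comm]
      have e : (permGL s : GLn) * (dg d * permGL σ) = dg (fun x => d (s.symm x)) * permGL (s * σ) := by
        rw [← mul_assoc, perm_dg, mul_assoc, map_mul]
      have hm' : dg (fun x => d (s.symm x)) * (permGL (s * σ) : GLn) ∈ K := e ▸ mul_mem hw1 hm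
      have hlt : n * (n * n) - weight (s * σ) < N := by
        have := weight_lt hij hji
        have := weight_le (s * σ)
        rw [hsσ] at *
        omega
      have hrec := ih _ hlt (s * σ) _ rfl hm'
      rw [← e, show dg t * ((permGL s : GLn) * (dg d * permGL σ)) * (dg t)⁻¹ =
        (dg t * permGL s * (dg t)⁻¹) * (dg t * (dg d * permGL σ) * (dg t)⁻¹) by group] at hrec
      exact (Subgroup.mul_mem_cancel_left K (hw t)).1 hrec
  obtain ⟨b, c, σ, hb, hc, rfl⟩ := bruhat k
  obtain ⟨db, hu, -⟩ := upper_decomp hb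
  obtain ⟨dc, -, hv⟩ := upper_decomp hc
  set u := b * (dg db)⁻¹ with hu'
  set v := (dg dc)⁻¹ * c with hv'
  have hcu : StrictUpper (((dg t * u * (dg t)⁻¹ : GLn) : Mn) - 1) ∧
      StrictUpper (((dg t * v * (dg t)⁻¹ : GLn) : Mn) - 1) := by
    refine ⟨?_, ?_⟩ <;>
    · intro x y hxy
      rw [← map_inv, Units.val_mul, Units.val_mul, coe_dg, coe_dg, Matrix.sub_apply, Matrix.mul_diagonal,
        Matrix.diagonal_mul]
      rcases hxy.lt_or_eq with h | rfl
      · first
          | (have h0 := hu x y h.le
             rw [Matrix.sub_apply, Matrix.one_apply_ne h.ne', sub_zero] at h0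
             rw [h0, Matrix.one_apply_ne h.ne', mul_zero, zero_mul, sub_zero])
          | (have h0 := hv x y h.le
             rw [Matrix.sub_apply, Matrix.one_apply_ne h.ne', sub_zero] at h0
             rw [h0, Matrix.one_apply_ne h.ne', mul_zero, zero_mul, sub_zero])
      · first
          | (have h0 := hu y y le_rfl
             rw [Matrix.sub_apply, Matrix.one_apply_eq, sub_eq_zero] at h0
             rw [h0, Matrix.one_apply_eq, mul_one]; simp)
          | (have h0 := hv y y le_rfl
             rw [Matrix.sub_apply, Matrix.one_apply_eq, sub_eq_zero] at h0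
             rw [h0, Matrix.one_apply_eq, mul_one]; simp)
  set d' : Fin n → Fˣ := db * fun x => dc (σ.symm x) with hd'
  have e : b * permGL σ * c = u * (dg d' * permGL σ) * v := by
    rw [hd', map_mul, mul_assoc (dg db), ← perm_dg, hu', hv']
    group
  rw [e] at hk ⊢
  have hm : dg d' * (permGL σ : GLn) ∈ K :=
    (Subgroup.mul_mem_cancel_left K (hU u hu)).1 ((Subgroup.mul_mem_cancel_right K (hU v hv)).1 hk)
  rw [show dg t * (u * (dg d' * permGL σ) * v) * (dg t)⁻¹ = (dg t * u * (dg t)⁻¹) *
    (dg t * (dg d' * permGL σ) * (dg t)⁻¹) * (dg t * v * (dg t)⁻¹) by group]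
  exact mul_mem (mul_mem (hU _ hcu.1) (mon _ σ d' rfl hm)) (hU _ hcu.2)

variable [Finite F]

/-- Elements normalising the unitriangular group are upper triangular. -/
theorem upper_of_normalizer {z : SLn} (hz : z ∈ Subgroup.normalizer ((unitri n F : Subgroup SLn) : Set SLn)) :
    (z : Mn).BlockTriangular id := by
  have hupper : ∀ (d : ℕ) (a i : Fin n), n ≤ (a : ℕ) + d → i < a → (z : Mn) a i = 0 := by
    intro d
    induction d with
    | zero => intro a i h; omega
    | succ d ih =>
      intro a i ha hia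
      have hi1 : (i : ℕ) + 1 < n := by
        have : (i : ℕ) < (a : ℕ) := hia
        omega
      set j : Fin n := ⟨(i : ℕ) + 1, hi1⟩ with hj
      have hij : i < j := show (i : ℕ) < (i : ℕ) + 1 by omega
      set X := Matrix.SpecialLinearGroup.transvection hij.ne (1 : F) with hX
      have hXU : X ∈ unitri n F := strictUpper_tr hij (1 : F)
      have hu' : z * X * z⁻¹ ∈ unitri n F := (Subgroup.mem_normalizer_iff.1 hz X).1 hXU
      set u' := z * X * z⁻¹ with hudef
      have he : z * X = u' * z := by rw [hudef, inv_mul_cancel_right]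
      have h1 : ((z : Mn) * (X : Mn)) a j = ((u' : Mn) * (z : Mn)) a j := by
        rw [← Matrix.SpecialLinearGroup.coe_mul, ← Matrix.SpecialLinearGroup.coe_mul, he]
      rw [hX, Matrix.SpecialLinearGroup.transvection_coe, mul_add, mul_one, Matrix.add_apply,
        Matrix.mul_single_apply_same, mul_one, ← sub_add_cancel (u' : Mn) 1, add_mul, one_mul,
        Matrix.add_apply] at h1
      have h2 : (z : Mn) a i = (((u' : Mn) - 1) * (z : Mn)) a j := by linear_combination h1
      rw [h2, Matrix.mul_apply]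
      refine Finset.sum_eq_zero fun l _ => ?_
      rcases le_or_gt l a with h | h
      · rw [hu' a l h, zero_mul]
      · rw [ih l j (by have : (a : ℕ) < (l : ℕ) := h; omega)
          (show (i : ℕ) + 1 < (l : ℕ) by
            have h1 : (a : ℕ) < (l : ℕ) := h
            have h2 : (i : ℕ) < (a : ℕ) := hia
            omega), mul_zero]
  exact fun a b hab => hupper n a b (by omega) hab

theorem pGroup_unitri [CharP F 2] : IsPGroup 2 (unitri n F : Subgroup SLn) := by
  rintro ⟨u, hu⟩
  have : Fact (Nat.Prime 2) := ⟨Nat.prime_two⟩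
  exact ⟨n, Subtype.ext (pow_eq_one_of_strictUpper hu)⟩

/-- In characteristic two, subgroups of odd index of `SL` are normalised by the normaliser of a Sylow
2-subgroup they contain. -/
theorem normalizer_le [CharP F 2] {K : Subgroup SLn} (hU : unitri n F ≤ K) :
    Subgroup.normalizer ((unitri n F : Subgroup SLn) : Set SLn) ≤ Subgroup.normalizer (K : Set SLn) := by
  intro z hz
  have : Fintype F := Fintype.ofFinite F
  refine Subgroup.mem_normalizer_fintype fun k hk => ?_
  set f : SLn →* GLn := Matrix.SpecialLinearGroup.toGL with hf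
  have hinj : Function.Injective f := Matrix.SpecialLinearGroup.toGL_injective
  have hU' : ∀ g : GLn, StrictUpper ((g : Mn) - 1) → g ∈ K.map f := by
    intro g hg
    have htri : (g : Mn).BlockTriangular id := fun a b (hab : b < a) => by
      have := hg a b hab.le
      rwa [Matrix.sub_apply, Matrix.one_apply_ne hab.ne', sub_zero] at this
    have hd : (g : Mn).det = 1 := by
      rw [Matrix.det_of_isUpperTriangular htri]
      refine Finset.prod_eq_one fun a _ => ?_
      have := hg a a le_rfl
      rwa [Matrix.sub_apply, Matrix.one_apply_eq, sub_eq_zero] at this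
    exact ⟨⟨_, hd⟩, hU (show StrictUpper ((g : Mn) - 1) from hg), Units.ext rfl⟩
  obtain ⟨d, hu, -⟩ := upper_decomp (b := f z) (upper_of_normalizer hz)
  set u := f z * (dg d)⁻¹ with hu'
  have hmem : f (z * k * z⁻¹) ∈ K.map f := by
    rw [map_mul, map_mul, map_inv, show f z = u * dg d by rw [hu', inv_mul_cancel_right],
      show u * dg d * f k * (u * dg d)⁻¹ = u * (dg d * f k * (dg d)⁻¹) * u⁻¹ by group]
    exact mul_mem (mul_mem (hU' u hu) (dg_conj_mem hU' d ⟨k, hk, rfl⟩)) (inv_mem (hU' u hu))
  obtain ⟨k', hk', e⟩ := hmem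
  exact hinj e ▸ hk'

/-- The unitriangular group is a Sylow 2-subgroup in characteristic two. -/
theorem exists_sylow_unitri [CharP F 2] : ∃ P : Sylow 2 SLn, (P : Subgroup SLn) = unitri n F := by
  refine exists_sylow_eq pGroup_unitri fun z hz ⟨k, hk⟩ => ?_
  have htri := upper_of_normalizer hz
  have hd : ∀ m : ℕ, ((z : Mn) ^ m).BlockTriangular id ∧ ∀ a, ((z : Mn) ^ m) a a = ((z : Mn) a a) ^ m := by
    intro m
    induction m with
    | zero => exact ⟨by rw [pow_zero]; exact Matrix.blockTriangular_one, by simp⟩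
    | succ m ih =>
      refine ⟨by rw [pow_succ]; exact ih.1.mul htri, fun a => ?_⟩
      rw [pow_succ, Matrix.mul_apply, Finset.sum_eq_single a]
      · rw [ih.2, pow_succ]
      · intro l _ hl
        rcases lt_or_gt_of_ne hl with h | h
        · rw [ih.1 h, zero_mul]
        · rw [htri h, mul_zero]
      · simp
  have hdiag : ∀ a, (z : Mn) a a = 1 := by
    intro a
    have h1 := (hd (2 ^ k)).2 a
    rw [← Matrix.SpecialLinearGroup.coe_pow, hk, Matrix.SpecialLinearGroup.coe_one, Matrix.one_apply_eq] at h1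
    have : Fact (Nat.Prime 2) := ⟨Nat.prime_two⟩
    exact eq_one_of_pow_char_pow (p := 2) h1.symm
  intro i j hij
  rw [Matrix.sub_apply]
  rcases hij.lt_or_eq with h | rfl
  · rw [htri h, Matrix.one_apply_ne h.ne', sub_zero]
  · rw [hdiag, Matrix.one_apply_eq, sub_self]

end Cfsg.Agent.H68.Pro.Even
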