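import Cfsg.Agent.H62.OddIndex
import Cfsg.Agent.S3820
import Cfsg.Agent.H68.Pro.GLTwo

/-!
Groups whose Sylow 2-subgroup is a self-centralising four-group and in which a non-trivial element of odd
order centralises at most one involution: all subgroups of odd index are pronormal.
-/

set_option autoImplicit false
set_option linter.unusedSectionVars false

namespace Cfsg.Agent.H68.Pro

variable {G : Type*} [Group G] [Finite G]

/-- An element of odd order commutes with at most one involution. -/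
def OneInvolution (G : Type*) [Group G] : Prop :=
  ∀ a z z' : G, a ≠ 1 → Odd (orderOf a) → z * z = 1 → z ≠ 1 → z' * z' = 1 → z' ≠ 1 →
    a * z = z * a → a * z' = z' * a → z = z'

/-- A four-group normalising an odd order subgroup cannot centralise non-trivial elements for two of its
involutions. -/
theorem eq_of_centralizers (h1 : OneInvolution G) {O : Subgroup G} (hO : Odd (Nat.card O)) {z z' : G}
    (hzz : z * z = 1) (hz : z ≠ 1) (hzz' : z' * z' = 1) (hz' : z' ≠ 1) (hcomm : z * z' = z' * z)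
    (hzO : ∀ o ∈ O, z * o * z⁻¹ ∈ O)
    {a : G} (ha : a ∈ O) (ha1 : a ≠ 1) (haz : a * z = z * a)
    {b : G} (hb : b ∈ O) (hb1 : b ≠ 1) (hbz : b * z' = z' * b) : z = z' := by
  by_contra hne
  have hodd : ∀ x ∈ O, Odd (orderOf x) := fun x hx =>
    hO.of_dvd_nat (Subgroup.orderOf_dvd_natCard O hx)
  -- the two centralisers
  set A := (O ⊓ Subgroup.centralizer {z}).subgroupOf O with hA
  set B := (O ⊓ Subgroup.centralizer {z'}).subgroupOf O with hB
  have hmemA : ∀ x : O, x ∈ A ↔ (x : G) * z = z * x := by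
    intro x
    simp [hA, Subgroup.mem_subgroupOf, Subgroup.mem_centralizer_singleton_iff]
  have hmemB : ∀ x : O, x ∈ B ↔ (x : G) * z' = z' * x := by
    intro x
    simp [hB, Subgroup.mem_subgroupOf, Subgroup.mem_centralizer_singleton_iff]
  -- meeting conjugates
  have key : ∀ (w w' : G), w * w = 1 → w ≠ 1 → w' * w' = 1 → w' ≠ 1 → ∀ (x y c c' : O), (c : G) ≠ 1 →
      (c : G) * w = w * c → (c' : G) * w' = w' * c' → x * c * x⁻¹ = y * c' * y⁻¹ →
      ((y⁻¹ * x : O) : G) * w = w' * ((y⁻¹ * x : O) : G) := by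
    intro w w' hw1 hw2 hw1' hw2' x y c c' hc hcw hcw' e
    have e' : ((y⁻¹ * x : O) : G) * c * ((y⁻¹ * x : O) : G)⁻¹ = c' := by
      have : (y⁻¹ * x) * c * (y⁻¹ * x)⁻¹ = c' := by
        calc (y⁻¹ * x) * c * (y⁻¹ * x)⁻¹ = y⁻¹ * (x * c * x⁻¹) * y := by group
          _ = c' := by rw [e]; group
      exact congrArg Subtype.val this
    set r := ((y⁻¹ * x : O) : G) with hr
    have hc' : (c' : G) ≠ 1 := fun h0 => hc (by rwa [h0, conj_eq_one_iff] at e')
    have hwr : r * w * r⁻¹ = w' := by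
      refine h1 c' _ _ hc' (hodd c' c'.2) (by rw [conj_mul, hw1, mul_one, mul_inv_cancel])
        (fun h0 => hw2 (conj_eq_one_iff.1 h0)) hw1' hw2' ?_ hcw'
      rw [← e', conj_mul, conj_mul, hcw]
    exact mul_inv_eq_iff_eq_mul.1 hwr
  have hcross : ∀ r : O, (r : G) * z ≠ z' * r := by
    intro r e
    have e' : z * z' = (z * r * z⁻¹) * (r : G)⁻¹ := by
      have hz'r : z' = r * z * (r : G)⁻¹ := by rw [e, mul_inv_cancel_right]
      rw [hz'r, inv_eq_of_mul_eq_one_right hzz]
      group
    have hmem : z * z' ∈ O := e' ▸ mul_mem (hzO r r.2) (inv_mem r.2)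
    have hsq : (z * z') ^ 2 = 1 := by
      rw [sq, mul_assoc, ← mul_assoc z' z z', ← hcomm, mul_assoc z z' z', hzz', mul_one, hzz]
    have h2 := (Nat.dvd_prime Nat.prime_two).1 (orderOf_dvd_of_pow_eq_one hsq)
    rcases h2 with h2 | h2
    · rw [orderOf_eq_one_iff, mul_eq_one_iff_eq_inv, inv_eq_of_mul_eq_one_right hzz'] at h2
      exact hne h2
    · have := hodd _ hmem
      rw [h2] at this
      exact absurd this (by decide)
  -- counting
  have := Fintype.ofFinite G
  classical
  let f : (O ⧸ A) × {c : A // c ≠ 1} ⊕ (O ⧸ B) × {c : B // c ≠ 1} → {o : O // o ≠ 1} :=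
    Sum.elim
      (fun p => ⟨p.1.out * p.2.1 * p.1.out⁻¹, fun h => p.2.2 (Subtype.ext (conj_eq_one_iff.1 h))⟩)
      (fun p => ⟨p.1.out * p.2.1 * p.1.out⁻¹, fun h => p.2.2 (Subtype.ext (conj_eq_one_iff.1 h))⟩)
  have hval : ∀ {H : Subgroup O} (c : {c : H // c ≠ 1}), ((c.1 : O) : G) ≠ 1 := fun c h =>
    c.2 (Subtype.ext (Subtype.ext h))
  have hf : Function.Injective f := by
    have same : ∀ (w : G) (H : Subgroup O), w * w = 1 → w ≠ 1 → (∀ x : O, x ∈ H ↔ (x : G) * w = w * x) →
        ∀ (p q : (O ⧸ H) × {c : H // c ≠ 1}),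
        p.1.out * p.2.1 * p.1.out⁻¹ = q.1.out * q.2.1 * q.1.out⁻¹ → p = q := by
      intro w H hw hw' hH p q e
      have hr := key w w hw hw' hw hw' p.1.out q.1.out p.2.1 q.2.1 (hval p.2) ((hH _).1 p.2.1.2)
        ((hH _).1 q.2.1.2) e
      have h1 : p.1 = q.1 := by
        rw [← p.1.out_eq', ← q.1.out_eq', eq_comm, QuotientGroup.eq]
        exact (hH _).2 hr
      rw [h1] at e
      exact Prod.ext h1 (Subtype.ext (Subtype.ext (mul_left_cancel (mul_right_cancel e))))
    rintro (p | p) (q | q) e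
    · exact congrArg Sum.inl (same z A hzz hz hmemA p q (congrArg Subtype.val e))
    · exact (hcross _ (key z z' hzz hz hzz' hz' p.1.out q.1.out p.2.1 q.2.1 (hval p.2)
        ((hmemA _).1 p.2.1.2) ((hmemB _).1 q.2.1.2) (congrArg Subtype.val e))).elim
    · exact (hcross _ (key z z' hzz hz hzz' hz' q.1.out p.1.out q.2.1 p.2.1 (hval q.2)
        ((hmemA _).1 q.2.1.2) ((hmemB _).1 p.2.1.2) (congrArg Subtype.val e).symm)).elim
    · exact congrArg Sum.inr (same z' B hzz' hz' hmemB p q (congrArg Subtype.val e))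
  have hcard := Nat.card_le_card_of_injective f hf
  rw [Nat.card_sum, Nat.card_prod, Nat.card_prod] at hcard
  have hsub : ∀ (H : Type _) [Group H] [Finite H], Nat.card {c : H // c ≠ 1} = Nat.card H - 1 := by
    intro H _ _
    have := Fintype.ofFinite H
    rw [Nat.card_eq_fintype_card, Nat.card_eq_fintype_card, Fintype.card_subtype_compl,
      Fintype.card_subtype_eq]
  rw [hsub A, hsub B, hsub O] at hcard
  have three : ∀ H : Subgroup O, (∃ x ∈ H, x ≠ 1) → 3 ≤ Nat.card H := by
    rintro H ⟨x, hx, hx1⟩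
    have hgt : 1 < Nat.card H := Finite.one_lt_card_iff_nontrivial.2
      ⟨⟨x, hx⟩, 1, fun h => hx1 (congrArg Subtype.val h)⟩
    have hoddH : Odd (Nat.card H) := hO.of_dvd_nat (Subgroup.card_subgroup_dvd_card H)
    obtain ⟨k, hk⟩ := hoddH
    omega
  have hA3 := three A ⟨⟨a, ha⟩, (hmemA _).2 haz, fun h => ha1 (congrArg Subtype.val h)⟩
  have hB3 := three B ⟨⟨b, hb⟩, (hmemB _).2 hbz, fun h => hb1 (congrArg Subtype.val h)⟩
  have eA := A.card_mul_index
  have eB := B.card_mul_index
  rw [Subgroup.index_eq_card] at eA eB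
  have hpos : 0 < Nat.card O := Nat.card_pos
  have ha' : Nat.card (O ⧸ A) * (Nat.card A - 1) = Nat.card O - Nat.card (O ⧸ A) := by
    rw [Nat.mul_sub, mul_one, mul_comm, eA]
  have hb' : Nat.card (O ⧸ B) * (Nat.card B - 1) = Nat.card O - Nat.card (O ⧸ B) := by
    rw [Nat.mul_sub, mul_one, mul_comm, eB]
  have la : 3 * Nat.card (O ⧸ A) ≤ Nat.card O := eA ▸ Nat.mul_le_mul_right _ hA3
  have lb : 3 * Nat.card (O ⧸ B) ≤ Nat.card O := eB ▸ Nat.mul_le_mul_right _ hB3
  rw [ha', hb'] at hcard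
  omega

/-- Some involution of a four-group normalising a non-trivial odd order subgroup has a non-trivial centraliser. -/
theorem exists_centralized {O : Subgroup G} (_hO : Odd (Nat.card O)) (hne : O ≠ ⊥) {z z' : G}
    (hzz : z * z = 1) (hzz' : z' * z' = 1) (_hcomm : z * z' = z' * z)
    (hzO : ∀ o ∈ O, z * o * z⁻¹ ∈ O) (hzO' : ∀ o ∈ O, z' * o * z'⁻¹ ∈ O) :
    ∃ w, (w = z ∨ w = z' ∨ w = z * z') ∧ ∃ a ∈ O, a ≠ 1 ∧ a * w = w * a := by
  by_contra! hcon
  have inverts : ∀ w, w * w = 1 → (w = z ∨ w = z' ∨ w = z * z') → (∀ o ∈ O, w * o * w⁻¹ ∈ O) →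
      ∀ o ∈ O, w * o * w⁻¹ = o⁻¹ := by
    intro w hw hwcase hwO o ho
    let φ : O → O := fun x => ⟨w * x * w⁻¹, hwO x x.2⟩
    let φh : O →* O :=
      { toFun := φ
        map_one' := Subtype.ext (by simp [φ])
        map_mul' := fun x y => Subtype.ext (by show w * (↑x * ↑y) * w⁻¹ = _; simp [φ, mul_assoc]) }
    have hfpf : MonoidHom.FixedPointFree φh := by
      intro x hx
      by_contra hx1
      refine hcon w hwcase x x.2 (fun h => hx1 (Subtype.ext h)) ?_
      exact (mul_inv_eq_iff_eq_mul.1 (congrArg Subtype.val hx)).symm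
    have hinv : Function.Involutive φh := by
      intro x
      refine Subtype.ext ?_
      show w * (w * x * w⁻¹) * w⁻¹ = x
      rw [inv_eq_of_mul_eq_one_right hw, show w * (w * ↑x * w) * w = (w * w) * ↑x * (w * w) by group, hw,
        one_mul, mul_one]
    exact congrArg Subtype.val (congrFun (MonoidHom.FixedPointFree.coe_eq_inv_of_involutive hfpf hinv) ⟨o, ho⟩)
  obtain ⟨o, ho, ho1⟩ := (Subgroup.bot_or_exists_ne_one O).resolve_left hne
  have e1 := inverts z hzz (Or.inl rfl) hzO o ho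
  have e2 := inverts z' hzz' (Or.inr (Or.inl rfl)) hzO' o⁻¹ (inv_mem ho)
  refine hcon (z * z') (Or.inr (Or.inr rfl)) o ho ho1 ?_
  have e3 : z * z' * o * (z * z')⁻¹ = o := by
    rw [show z * z' * o * (z * z')⁻¹ = z * (z' * o * z'⁻¹) * z⁻¹ by group]
    have e2' : z' * o * z'⁻¹ = o⁻¹ := inverts z' hzz' (Or.inr (Or.inl rfl)) hzO' o ho
    rw [e2', ← conj_inv, e1, inv_inv]
  exact (mul_inv_eq_iff_eq_mul.1 e3).symm

/-- The main criterion. -/
theorem pronormal_of_four (hfour : ∀ P : Sylow 2 G, Nat.card (P : Subgroup G) = 4)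
    (hexp : ∀ P : Sylow 2 G, ∀ x ∈ (P : Subgroup G), x * x = 1)
    (hcent : ∀ z z' : G, z * z = 1 → z ≠ 1 → z' * z' = 1 → z' ≠ 1 → z ≠ z' → z * z' = z' * z →
      ∀ x, x * z = z * x → x * z' = z' * x → x = 1 ∨ x = z ∨ x = z' ∨ x = z * z')
    (h1 : OneInvolution G)
    (H : Subgroup G) (hH : Odd H.index) : Cfsg.IsPronormal H := by
  have := Fact.mk Nat.prime_two
  obtain ⟨P, hP⟩ := Cfsg.Agent.H62.exists_sylow_two_le hH
  set S := (P : Subgroup G) with hS
  have hSpro : Cfsg.IsPronormal S :=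
    Cfsg.Agent.H62.isPronormal_of_sylow P le_rfl le_rfl
  refine (Cfsg.Agent.S3820.result S H hP hSpro).2 fun g hg => ?_
  -- two involutions of `S`
  have h4 : Nat.card S = 4 := hfour P
  obtain ⟨z, hzS, hz1⟩ := (Subgroup.bot_or_exists_ne_one S).resolve_left fun h => by
    rw [h, Subgroup.card_bot] at h4; omega
  obtain ⟨z', hz'S, hz'⟩ : ∃ z' ∈ S, z' ≠ 1 ∧ z' ≠ z := by
    by_contra! h
    classical
    have hsub : (S : Set G) ⊆ {1, z} := fun x hx => by
      by_cases hx1 : x = 1
      · exact Or.inl hx1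
      · exact Or.inr (h x hx hx1)
    have := Set.ncard_le_ncard hsub (Set.toFinite _)
    rw [Set.ncard_pair (Ne.symm hz1)] at this
    have h' : (S : Set G).ncard = 4 := by rw [← Nat.card_coe_set_eq]; exact h4
    omega
  obtain ⟨hz'1, hz'z⟩ := hz'
  have hzz := hexp P z hzS
  have hzz' := hexp P z' hz'S
  have hcom : ∀ x ∈ S, ∀ y ∈ S, x * y = y * x := fun x hx y hy => by
    have h3 := hexp P (x * y) (mul_mem hx hy)
    calc x * y = (x * y)⁻¹ := (inv_eq_of_mul_eq_one_right h3).symm
      _ = y * x := by rw [mul_inv_rev, inv_eq_of_mul_eq_one_right (hexp P x hx),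
        inv_eq_of_mul_eq_one_right (hexp P y hy)]
  have hcomm := hcom z hzS z' hz'S
  have hCS : ∀ x, (∀ s ∈ S, x * s = s * x) → x ∈ S := by
    intro x hx
    rcases hcent z z' hzz hz1 hzz' hz'1 (Ne.symm hz'z) hcomm x (hx z hzS) (hx z' hz'S) with
      rfl | rfl | rfl | rfl
    exacts [one_mem _, hzS, hz'S, mul_mem hzS hz'S]
  set N := Subgroup.normalizer (S : Set G) with hN
  have hSN : S ≤ N := Subgroup.le_normalizer
  have hNodd : Odd (S.relIndex N) := by
    rw [Nat.odd_iff, ← Nat.two_dvd_ne_zero]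
    intro hd
    refine P.not_dvd_index ?_
    exact hd.trans (Subgroup.relIndex_dvd_index_of_le hSN)
  have hN3 : S.relIndex N = 1 ∨ S.relIndex N = 3 := by
    classical
    have := Fintype.ofFinite G
    let T := {s : S // s ≠ 1}
    let ψ : N →* Equiv.Perm T :=
      { toFun := fun n =>
          { toFun := fun s => ⟨⟨n * s.1 * (n : G)⁻¹, (Subgroup.mem_normalizer_iff.1 n.2 _).1 s.1.2⟩,
              fun h => s.2 (Subtype.ext (conj_eq_one_iff.1 (congrArg Subtype.val h)))⟩
            invFun := fun s => ⟨⟨(n : G)⁻¹ * s.1 * n, (Subgroup.mem_normalizer_iff''.1 n.2 _).1 s.1.2⟩,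
              fun h => s.2 (Subtype.ext (by
                have := congrArg Subtype.val h
                simpa [mul_eq_one_iff_eq_inv] using this))⟩
            left_inv := fun s => Subtype.ext (Subtype.ext (by simp [mul_assoc]))
            right_inv := fun s => Subtype.ext (Subtype.ext (by simp [mul_assoc])) }
        map_one' := Equiv.ext fun s => Subtype.ext (Subtype.ext (by simp))
        map_mul' := fun x y => Equiv.ext fun s => Subtype.ext (Subtype.ext (by simp [mul_assoc])) }
    have hker : ψ.ker = S.subgroupOf N := by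
      ext n
      rw [MonoidHom.mem_ker, Subgroup.mem_subgroupOf]
      constructor
      · intro h
        refine hCS _ fun s hs => ?_
        by_cases hs1 : s = 1
        · subst hs1; simp
        · have := congrArg (fun p : T => ((p.1 : S) : G))
            (Equiv.ext_iff.1 h ⟨⟨s, hs⟩, fun h => hs1 (congrArg Subtype.val h)⟩)
          exact mul_inv_eq_iff_eq_mul.1 this
      · intro h
        exact Equiv.ext fun s => Subtype.ext (Subtype.ext
          (mul_inv_eq_iff_eq_mul.2 (hcom _ h _ s.1.2)))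
    have hdvd : S.relIndex N ∣ Nat.card (Equiv.Perm T) := by
      rw [Subgroup.relIndex, ← hker, Subgroup.index_ker]
      exact Subgroup.card_subgroup_dvd_card _
    rw [Nat.card_eq_fintype_card, Fintype.card_perm, show Fintype.card T = 3 by
      rw [Fintype.card_subtype_compl, Fintype.card_subtype_eq, ← Nat.card_eq_fintype_card, h4]] at hdvd
    have : S.relIndex N ≤ 6 := Nat.le_of_dvd (by norm_num) hdvd
    obtain ⟨k, hk⟩ := hNodd
    have h6 : S.relIndex N ∣ 6 := hdvd
    generalize S.relIndex N = r at *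
    subst hk
    have : k ≤ 2 := by omega
    interval_cases k <;> simp_all
  set K := H ⊔ H.map (MulAut.conj g).toMonoidHom with hK
  have hSK : S ≤ K := hP.trans le_sup_left
  by_cases hcase : N ⊓ K ≤ S
  swap
  · -- the element itself lies in the join
    refine ⟨g, ?_, rfl⟩
    obtain ⟨k, hk, hkS⟩ := SetLike.not_le_iff_exists.1 hcase
    set M := N ⊓ K
    have hSM : S ≤ M := le_inf hSN hSK
    have hmul := Subgroup.relIndex_mul_relIndex S M N hSM inf_le_left
    have hne : S.relIndex M ≠ 1 := fun h => hkS (Subgroup.relIndex_eq_one.1 h hk)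
    have h1' : M.relIndex N = 1 := by
      rcases hN3 with h | h <;> rw [h] at hmul
      · exact Nat.eq_one_of_mul_eq_one_left hmul
      · rcases (Nat.dvd_prime Nat.prime_three).1 (Dvd.intro _ hmul) with h' | h'
        · exact absurd h' hne
        · rw [h'] at hmul; omega
    have hgM : g ∈ M := Subgroup.relIndex_eq_one.1 h1' hg
    exact hgM.2
  -- normal 2-complement of the join
  let Q : Sylow 2 K := P.subtype hSK
  have hQ : Subgroup.normalizer ((Q : Subgroup K) : Set K) ≤ Subgroup.centralizer ((Q : Subgroup K) : Set K) := by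
    intro x hx s hs
    have hxN : (x : G) ∈ N := by
      rw [hN, Subgroup.mem_normalizer_iff]
      intro y
      constructor
      · intro hy
        exact (Subgroup.mem_normalizer_iff.1 hx ⟨y, hSK hy⟩).1 hy
      · intro hy
        have hyK : y ∈ K := by
          have := mul_mem (mul_mem (inv_mem x.2) (hSK hy)) x.2
          simpa [mul_assoc] using this
        exact (Subgroup.mem_normalizer_iff.1 hx ⟨y, hyK⟩).2 hy
    exact Subtype.ext (hcom _ hs _ (hcase ⟨hxN, x.2⟩))
  obtain ⟨O', hO'n, hO'⟩ : ∃ O' : Subgroup K, O'.Normal ∧ Subgroup.IsComplement' O' (Q : Subgroup K) :=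
    ⟨_, inferInstance, MonoidHom.ker_transferSylow_isComplement' Q hQ⟩
  have hO'odd : Odd (Nat.card O') := by
    rw [Nat.odd_iff, ← Nat.two_dvd_ne_zero, ← hO'.index_eq_card]
    exact Q.not_dvd_index
  have hO'mem : ∀ x : K, Odd (orderOf x) → x ∈ O' := by
    intro x hx
    rw [← QuotientGroup.eq_one_iff, ← orderOf_eq_one_iff]
    have hd1 : orderOf (x : K ⧸ O') ∣ orderOf x := orderOf_map_dvd (QuotientGroup.mk' O') x
    have hd2 : orderOf (x : K ⧸ O') ∣ 4 := by
      have hc : Nat.card (K ⧸ O') = 4 := by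
        rw [← Subgroup.index_eq_card, hO'.symm.index_eq_card]
        rw [show Nat.card (Q : Subgroup K) = Nat.card S from
          Nat.card_congr (Subgroup.subgroupOfEquivOfLe hSK).toEquiv, h4]
      exact hc ▸ orderOf_dvd_natCard _
    have hd := Nat.dvd_gcd hd1 hd2
    rw [show (4 : ℕ) = 2 ^ 2 from rfl, (hx.coprime_two_right.pow_right 2).gcd_eq_one] at hd
    exact Nat.eq_one_of_dvd_one hd
  set O := O'.map K.subtype with hOdef
  have hOodd : Odd (Nat.card O) := by
    rwa [hOdef, Subgroup.card_map_of_injective K.subtype_injective]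
  have hOmem : ∀ x ∈ K, Odd (orderOf x) → x ∈ O := fun x hx ho =>
    ⟨⟨x, hx⟩, hO'mem _ (by rwa [← Subgroup.orderOf_coe]), rfl⟩
  have hOnorm : ∀ x ∈ K, ∀ o ∈ O, x * o * x⁻¹ ∈ O := by
    rintro x hx _ ⟨o, ho, rfl⟩
    exact ⟨⟨x, hx⟩ * o * ⟨x, hx⟩⁻¹, hO'n.conj_mem o ho _, rfl⟩
  by_cases hHS : H ≤ S
  · refine ⟨1, one_mem _, ?_⟩
    rw [show H = S from le_antisymm hHS hP]
    exact (Subgroup.mem_normalizer_iff_map_conj_eq.1 hg).trans
      (Subgroup.mem_normalizer_iff_map_conj_eq.1 (one_mem _)).symm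
  · -- an involution centralising an odd element of `H`
    have hHO : H ⊓ O ≠ ⊥ := by
      intro hbot
      apply hHS
      intro x hx
      obtain ⟨g2, u, rfl, ⟨k, hk⟩, hodd, hg2, hu⟩ := exists_two_odd x
      have hu1 : u = 1 := by
        have : u ∈ H ⊓ O := ⟨(Subgroup.zpowers_le.2 hx) hu,
          hOmem u (le_sup_left (a := H) ((Subgroup.zpowers_le.2 hx) hu)) hodd⟩
        rw [hbot] at this
        exact this
      rw [hu1, mul_one] at hx ⊢
      set Hc := (H.subgroupOf H)
      have h2 : IsPGroup 2 H := by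
        refine IsPGroup.iff_card.2 ⟨2, ?_⟩
        have := Fintype.ofFinite G
        by_contra hc
        have hdvd : Nat.card S ∣ Nat.card H := Subgroup.card_dvd_of_le hP
        obtain ⟨m, hm⟩ := hdvd
        rw [h4] at hm
        have hm1 : m ≠ 1 := fun h => hc (by rw [hm, h]; rfl)
        obtain ⟨p, hp, hpd⟩ := Nat.exists_prime_and_dvd hm1
        by_cases hp2 : p = 2
        · subst hp2
          have h8 : 2 ^ 3 ∣ Nat.card H := by
            rw [hm]
            exact Nat.mul_dvd_mul_left 4 hpd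
          have := P.pow_dvd_card_of_pow_dvd_card (h8.trans (Subgroup.card_subgroup_dvd_card H))
          rw [h4] at this
          norm_num at this
        · have := Fact.mk hp
          obtain ⟨y, hy⟩ := exists_prime_orderOf_dvd_card' (G := H) p (hm ▸ hpd.mul_left 4)
          have hyO : (y : G) ∈ H ⊓ O := ⟨y.2, hOmem _ (le_sup_left (a := H) y.2)
            (by rw [Subgroup.orderOf_coe, hy]; exact hp.odd_of_ne_two hp2)⟩
          rw [hbot, Subgroup.mem_bot] at hyO
          have : orderOf y = 1 := orderOf_eq_one_iff.2 (Subtype.ext hyO)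
          exact hp.ne_one (hy ▸ this)
      exact (P.is_maximal' h2 hP).le hx
    have hHOodd : Odd (Nat.card ↥(H ⊓ O)) := hOodd.of_dvd_nat (Subgroup.card_dvd_of_le inf_le_right)
    have hnorm : ∀ s ∈ S, ∀ o ∈ H ⊓ O, s * o * s⁻¹ ∈ H ⊓ O := fun s hs o ho =>
      ⟨H.mul_mem (H.mul_mem (hP hs) ho.1) (H.inv_mem (hP hs)), hOnorm s (hSK hs) o ho.2⟩
    obtain ⟨v, hv, a, ha, ha1, hav⟩ :=
      exists_centralized hHOodd hHO hzz hzz' hcomm (hnorm z hzS) (hnorm z' hz'S)
    have hvS : v ∈ S := by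
      rcases hv with rfl | rfl | rfl
      exacts [hzS, hz'S, mul_mem hzS hz'S]
    have hv1 : v ≠ 1 := by
      rcases hv with rfl | rfl | rfl
      exacts [hz1, hz'1, fun h => hz'z (by
        rw [← inv_eq_of_mul_eq_one_right hzz]
        exact (inv_eq_of_mul_eq_one_right h).symm)]
    set w := g * v * g⁻¹ with hw
    have hwS : w ∈ S := (Subgroup.mem_normalizer_iff.1 hg v).1 hvS
    have hw1 : w ≠ 1 := fun h => hv1 (conj_eq_one_iff.1 h)
    set b := g * a * g⁻¹ with hb
    have hbK : b ∈ K := le_sup_right (a := H) ⟨a, ha.1, rfl⟩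
    have hb1 : b ≠ 1 := fun h => ha1 (conj_eq_one_iff.1 h)
    have haodd : Odd (orderOf a) := hOodd.of_dvd_nat (Subgroup.orderOf_dvd_natCard O ha.2)
    have hbO : b ∈ O := hOmem b hbK (by
      rw [hb, show g * a * g⁻¹ = MulAut.conj g a from rfl,
        MulEquiv.orderOf_eq]
      exact haodd)
    have hbw : b * w = w * b := by rw [hb, hw, conj_mul, conj_mul, hav]
    have hvw : v = w := eq_of_centralizers h1 hOodd (hexp P v hvS) hv1 (hexp P w hwS) hw1
      (hcom v hvS w hwS) (fun o ho => hOnorm v (hSK hvS) o ho) ha.2 ha1 hav hbO hb1 hbw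
    -- `g` lies in `S`
    have hgS : g ∈ S := by
      have hgv : g * v = v * g := mul_inv_eq_iff_eq_mul.1 hvw.symm
      obtain ⟨v', hv'S, hv'1, hv'v⟩ : ∃ v' ∈ S, v' ≠ 1 ∧ v' ≠ v := by
        by_cases hvz : v = z
        · exact ⟨z', hz'S, hz'1, hvz ▸ hz'z⟩
        · exact ⟨z, hzS, hz1, Ne.symm hvz⟩
      have hvv := hexp P v hvS
      have hvv' := hexp P v' hv'S
      have hall : ∀ s ∈ S, s = 1 ∨ s = v ∨ s = v' ∨ s = v * v' := fun s hs =>
        hcent v v' hvv hv1 hvv' hv'1 (Ne.symm hv'v) (hcom v hvS v' hv'S) s (hcom s hs v hvS)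
          (hcom s hs v' hv'S)
      have hg2 : g * g ∈ S := by
        refine hCS _ fun s hs => ?_
        have fixv : Commute (g * g) v := Commute.mul_left hgv hgv
        have fixv' : Commute (g * g) v' := by
          rcases hall _ ((Subgroup.mem_normalizer_iff.1 hg v').1 hv'S) with h | h | h | h
          · exact absurd (conj_eq_one_iff.1 h) hv'1
          · exact absurd (mul_left_cancel ((mul_inv_eq_iff_eq_mul.1 h).trans hgv.symm)) hv'v
          · exact Commute.mul_left (mul_inv_eq_iff_eq_mul.1 h) (mul_inv_eq_iff_eq_mul.1 h)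
          · have e : g * g * v' * (g * g)⁻¹ = v' := by
              rw [show g * g * v' * (g * g)⁻¹ = g * (g * v' * g⁻¹) * g⁻¹ by group, h, ← conj_mul,
                mul_inv_eq_iff_eq_mul.2 hgv, h, ← mul_assoc, hvv, one_mul]
            exact mul_inv_eq_iff_eq_mul.1 e
        rcases hall s hs with rfl | rfl | rfl | rfl
        · simp
        · exact fixv
        · exact fixv'
        · exact fixv.mul_right fixv'
      have hgn : g ^ S.relIndex N ∈ S := by
        have : (S.subgroupOf N).Normal := Subgroup.normal_in_normalizer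
        exact Subgroup.pow_index_mem (S.subgroupOf N) ⟨g, hg⟩
      rcases hN3 with h | h <;> rw [h] at hgn
      · simpa using hgn
      · have : g = (g * g)⁻¹ * g ^ 3 := by group
        rw [this]
        exact mul_mem (inv_mem hg2) hgn
    exact ⟨g, hSK hgS, rfl⟩

end Cfsg.Agent.H68.Pro
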