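import Cfsg.Agent.H6.Basic
import Cfsg.Agent.H68.Pro.FourGroup

/-!
The degree two inputs: Sylow 2-subgroups of `SL₂` for `q ≡ ±1 mod 8`, and the hypotheses of the
four-group criterion for `PSL₂`, `q ≡ ±3 mod 8`.
-/

set_option autoImplicit false
set_option linter.unusedSectionVars false

namespace Cfsg.Agent.H68.Pro

open Matrix

variable {F : Type*} [Field F] [Fintype F]

local notation "SL2" => Matrix.SpecialLinearGroup (Fin 2) F
local notation "PSL2" => Matrix.ProjectiveSpecialLinearGroup (Fin 2) F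
local notation "G2" => GL (Fin 2) F

/-- Self-normalising Sylow 2-subgroups of `SL₂` when `q ≡ 7 mod 8`. -/
theorem selfnorm_seven (h2 : (2 : F) ≠ 0) (hq : Fintype.card F % 8 = 7) :
    ∃ S : Subgroup SL2, IsPGroup 2 S ∧ Subgroup.normalizer (S : Set SL2) = S := by
  classical
  have := Fact.mk Nat.prime_two
  obtain ⟨W⟩ : Nonempty (Sylow 2 G2) := inferInstance
  obtain ⟨x0, hx0, -, -, -, -, hgen, hcard⟩ := qd_data W (by omega)
  have h32 : 2 ^ 5 ∣ Nat.card G2 := by
    rw [Cfsg.Agent.H49.card_GL_two]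
    generalize Fintype.card F = q at *
    obtain ⟨t, rfl⟩ : ∃ t, q = 8 * t + 7 := ⟨q / 8, by omega⟩
    have e1 : (8 * t + 7) * (8 * t + 7) - 1 = 16 * ((4 * t + 3) * (t + 1)) := by
      rw [show (8 * t + 7) * (8 * t + 7) = 16 * ((4 * t + 3) * (t + 1)) + 1 by ring, Nat.add_sub_cancel]
    have e2 : (8 * t + 7) * (8 * t + 7) - (8 * t + 7) = 2 * ((4 * t + 3) * (8 * t + 7)) := by
      rw [show (8 * t + 7) * (8 * t + 7) = 2 * ((4 * t + 3) * (8 * t + 7)) + (8 * t + 7) by ring,
        Nat.add_sub_cancel]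
    rw [e1, e2]
    exact ⟨(4 * t + 3) * (t + 1) * ((4 * t + 3) * (8 * t + 7)), by ring⟩
  have h16 : 16 ≤ orderOf x0 := by
    have h := Nat.le_of_dvd Nat.card_pos (W.pow_dvd_card_of_pow_dvd_card h32)
    rw [hcard] at h
    norm_num at h
    omega
  set C := Subgroup.zpowers x0 ⊓ (dt (ι := Fin 2) (F := F)).ker with hC
  have : IsCyclic C :=
    isCyclic_of_injective (Subgroup.inclusion (inf_le_left : C ≤ Subgroup.zpowers x0))
      (Subgroup.inclusion_injective _)
  obtain ⟨⟨x, hx⟩, hgenC⟩ := IsCyclic.exists_generator (α := C)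
  have hmemC : ∀ s ∈ C, s ∈ Subgroup.zpowers x := by
    intro s hs
    obtain ⟨i, hi⟩ := hgenC ⟨s, hs⟩
    exact ⟨i, congrArg Subtype.val hi⟩
  have hx2 : x0 ^ 2 ∈ C := by
    refine ⟨pow_mem (Subgroup.mem_zpowers x0) 2, ?_⟩
    show dt (x0 ^ 2) = 1
    obtain ⟨k, hk⟩ := W.isPGroup' ⟨x0, hx0⟩
    have hk' : dt x0 ^ 2 ^ k = 1 := by
      rw [← map_pow, show x0 ^ 2 ^ k = 1 from congrArg Subtype.val hk, map_one]
    have hgcd : dt x0 ^ Nat.gcd (2 ^ k) (Fintype.card F - 1) = 1 :=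
      pow_gcd_eq_one.2 ⟨hk', by rw [← Fintype.card_units]; exact pow_card_eq_one⟩
    have hd : Nat.gcd (2 ^ k) (Fintype.card F - 1) ∣ 2 := by
      obtain ⟨o, ho⟩ : ∃ o, Fintype.card F - 1 = 2 * (2 * o + 1) :=
        ⟨(Fintype.card F - 3) / 4, by omega⟩
      rw [ho]
      have hco : Nat.Coprime (2 ^ k) (2 * o + 1) := (Nat.coprime_two_left.2 ⟨o, rfl⟩).pow_left k
      rw [Nat.Coprime.gcd_mul_right_cancel_right 2 hco.symm]
      exact Nat.gcd_dvd_right _ _
    rw [map_pow]
    exact orderOf_dvd_iff_pow_eq_one.1 ((orderOf_dvd_of_pow_eq_one hgcd).trans hd)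
  refine special_two_of_data W (x := x) ?_ hx.2 ?_ (fun s hs hd h4 => hmemC s ⟨hgen s hs h4, hd⟩) h2
  · obtain ⟨i, hi⟩ := hx.1
    exact (show x0 ^ i = x from hi) ▸ zpow_mem hx0 i
  · intro h4
    obtain ⟨i, hi⟩ := hmemC _ hx2
    have hi' : x ^ i = x0 ^ 2 := hi
    have h8 : x0 ^ 8 = 1 := by
      rw [show (8 : ℕ) = 2 * 4 from rfl, pow_mul, ← hi', ← _root_.zpow_natCast, ← _root_.zpow_mul,
        mul_comm, _root_.zpow_mul, _root_.zpow_natCast, h4, _root_.one_zpow]
    have := Nat.le_of_dvd (by norm_num) (orderOf_dvd_of_pow_eq_one h8)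
    omega

/-- The 2-elements of the normaliser of a good subgroup lie in it. -/
theorem Good.mem_of_norm {ι : Type*} [Fintype ι] [DecidableEq ι] [Nonempty ι] {W : Subgroup (GL ι F)}
    (hW : Good W) {g : GL ι F} (hg : g ∈ Subgroup.normalizer (W : Set (GL ι F)))
    (h : ∃ k : ℕ, g ^ 2 ^ k = 1) : g ∈ W := by
  obtain ⟨w, hw, c, rfl⟩ := hW.norm g hg
  obtain ⟨k, hk⟩ := h
  obtain ⟨l, hl⟩ := hW.pGroup ⟨w, hw⟩
  have hl' : w ^ 2 ^ l = 1 := congrArg Subtype.val hl
  refine mul_mem hw (hW.scal_mem c ⟨k + l, scal_injective (ι := ι) ?_⟩)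
  have e : (w * scal c) ^ 2 ^ (k + l) = 1 := by rw [pow_add, pow_mul, hk, one_pow]
  rw [(show Commute w (scal c) from (scal_comm c w).symm).mul_pow,
    show w ^ 2 ^ (k + l) = 1 by rw [add_comm, pow_add, pow_mul, hl', one_pow], one_mul] at e
  rw [map_pow, map_one, e]

/-- Self-normalising Sylow 2-subgroups of `SL₂` when `q ≡ 1 mod 8`. -/
theorem selfnorm_one (h2 : (2 : F) ≠ 0) (hq : Fintype.card F % 8 = 1) :
    ∃ S : Subgroup SL2, IsPGroup 2 S ∧ Subgroup.normalizer (S : Set SL2) = S := by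
  classical
  have := Fact.mk Nat.prime_two
  have hG := (good_wr_mu (F := F) h2 (by omega)).reix eU
  obtain ⟨W, hW⟩ := exists_sylow_eq hG.pGroup fun g hg h => hG.mem_of_norm hg h
  obtain ⟨a, o, ho, hao⟩ := Nat.exists_eq_pow_mul_and_not_dvd
    (show Fintype.card F - 1 ≠ 0 by have := Fintype.one_lt_card (α := F); omega) 2 (by norm_num)
  have ho' : Odd o := Nat.not_even_iff_odd.1 fun h => ho h.two_dvd
  obtain ⟨ζ, hζ⟩ := Cfsg.Agent.H49.exists_orderOf_units (F := F) (d := 2 ^ a) (hao ▸ Dvd.intro o rfl)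
  have hζk : ζ ^ 2 ^ a = 1 := by
    have := pow_orderOf_eq_one ζ
    rwa [hζ] at this
  have hgenζ : ∀ c : Fˣ, (∃ k : ℕ, c ^ 2 ^ k = 1) → ∃ i : ℕ, ζ ^ i = c := by
    rintro c ⟨k, hk⟩
    have hc : c ^ 2 ^ a = 1 := by
      have h1 : c ^ Nat.gcd (2 ^ k) (Fintype.card F - 1) = 1 :=
        pow_gcd_eq_one.2 ⟨hk, by rw [← Fintype.card_units]; exact pow_card_eq_one⟩
      have hd : Nat.gcd (2 ^ k) (Fintype.card F - 1) ∣ 2 ^ a := by
        rw [hao]
        have hco : Nat.Coprime (2 ^ k) o := (Nat.coprime_two_left.2 ho').pow_left k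
        rw [Nat.Coprime.gcd_mul_right_cancel_right (2 ^ a) hco.symm]
        exact Nat.gcd_dvd_right _ _
      exact orderOf_dvd_iff_pow_eq_one.1 ((orderOf_dvd_of_pow_eq_one h1).trans hd)
    have hprim : IsPrimitiveRoot (ζ : F) (2 ^ a) := by
      rw [← hζ, ← orderOf_units]
      exact IsPrimitiveRoot.orderOf _
    obtain ⟨i, -, hi⟩ := hprim.eq_pow_of_pow_eq_one (ξ := (c : F))
      (by rw [← Units.val_pow_eq_pow_val, hc, Units.val_one])
    exact ⟨i, Units.ext (by rw [Units.val_pow_eq_pow_val, hi])⟩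
  set y : GL (Unit ⊕ Unit) F := bd ((scal ζ : GL Unit F), scal ζ⁻¹) with hy
  have hymem : y ∈ wr (mu F) :=
    bd_mem_wr (scal_mem_mu ⟨a, hζk⟩) (scal_mem_mu ⟨a, by rw [inv_pow, hζk, inv_one]⟩)
  have h8 : 8 ≤ 2 ^ a := by
    have hd : 2 ^ 3 ∣ 2 ^ a * o := by rw [← hao]; exact Nat.dvd_of_mod_eq_zero (by omega)
    exact Nat.le_of_dvd (by positivity) (((Nat.coprime_two_left.2 ho').pow_left 3).dvd_of_dvd_mul_right hd)
  refine special_two_of_data W (x := reix eU y) (hW ▸ ⟨y, hymem, rfl⟩) ?_ ?_ ?_ h2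
  · rw [dt_reix, hy, dt_bd, ← map_mul, ← map_mul, mul_inv_cancel, map_one, map_one]
  · intro h
    rw [← map_pow, MulEquiv.map_eq_one_iff, hy, ← map_pow, Prod.pow_mk, ← bd_one] at h
    have h4 := (bd_inj h).1
    rw [← map_pow, ← map_one (scal (ι := Unit) (F := F))] at h4
    have := Nat.le_of_dvd (by norm_num) (orderOf_dvd_of_pow_eq_one (scal_injective h4))
    rw [hζ] at this
    omega
  · intro s hs hd h4
    rw [hW] at hs
    obtain ⟨s, hs, rfl⟩ := hs
    rw [MulEquiv.toMonoidHom_eq_coe, MonoidHom.coe_coe] at hd h4 ⊢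
    rw [dt_reix] at hd
    obtain ⟨u, hu, v, hv, e⟩ := hs
    obtain ⟨cu, rfl, hcu⟩ := hu
    obtain ⟨cv, rfl, -⟩ := hv
    have hdu : ∀ c : Fˣ, dt (scal c : GL Unit F) = c := fun c => by
      rw [Matrix.GeneralLinearGroup.det_scalar]; simp
    rcases e with rfl | rfl
    · rw [dt_bd, hdu, hdu] at hd
      obtain ⟨i, rfl⟩ := hgenζ cu hcu
      refine ⟨(i : ℤ), ?_⟩
      show (reix eU y) ^ (i : ℤ) = _
      rw [_root_.zpow_natCast, ← map_pow, hy, ← map_pow, Prod.pow_mk, ← map_pow, ← map_pow,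
        inv_pow, eq_inv_of_mul_eq_one_right hd]
    · exfalso
      apply h4
      have hsw : dt (sw : GL (Unit ⊕ Unit) F) = -1 := by
        refine Units.ext ?_
        show ((sw : GL (Unit ⊕ Unit) F) : Matrix (Unit ⊕ Unit) (Unit ⊕ Unit) F).det = ((-1 : Fˣ) : F)
        rw [← Matrix.det_reindex_self eU, Matrix.det_fin_two]
        simp [eU, coe_sw]
      rw [map_mul, hsw, dt_bd, hdu, hdu] at hd
      have hm1 : cu * cv = -1 := by rw [mul_neg_one, neg_eq_iff_eq_neg] at hd; exact hd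
      rw [show (4 : ℕ) = 2 * 2 from rfl, ← map_pow, pow_mul, sq (bd _ * sw), bd_sw_mul_bd_sw, ← map_mul, ← map_mul,
        mul_comm cv cu, hm1, bd_scal, ← map_pow, sq, neg_mul_neg, one_mul, map_one, map_one]

/-! ### `q ≡ ±3 mod 8` -/

/-- The map to the general linear group. -/
abbrev tg : SL2 →* G2 := Matrix.SpecialLinearGroup.toGL

theorem proj_eq {a b : SL2} : Cfsg.Agent.H6.π a = (Cfsg.Agent.H6.π b : PSL2) ↔ tg b = tg a ∨ tg b = -tg a := by
  rw [Cfsg.Agent.H6.π, QuotientGroup.mk'_apply, QuotientGroup.mk'_apply, QuotientGroup.eq,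
    Matrix.SpecialLinearGroup.mem_center_iff]
  constructor
  · rintro ⟨r, hr, he⟩
    have hb : (b : Matrix (Fin 2) (Fin 2) F) = r • (a : Matrix (Fin 2) (Fin 2) F) := by
      have h : (b : Matrix (Fin 2) (Fin 2) F) = (a : Matrix (Fin 2) (Fin 2) F) * ((a⁻¹ * b : SL2) : Matrix (Fin 2) (Fin 2) F) := by
        rw [← Matrix.SpecialLinearGroup.coe_mul, mul_inv_cancel_left]
      rw [h, ← he, Matrix.scalar_apply, ← Matrix.smul_one_eq_diagonal, mul_smul_comm, mul_one]
    rw [Fintype.card_fin, sq, mul_self_eq_one_iff] at hr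
    rcases hr with rfl | rfl
    · exact Or.inl (Units.ext (by simpa using hb))
    · exact Or.inr (Units.ext (by rw [Units.val_neg]; simpa using hb))
  · intro h
    rcases h with h | h
    · refine ⟨1, one_pow _, ?_⟩
      have : b = a := Matrix.SpecialLinearGroup.toGL_injective h
      rw [this, inv_mul_cancel, Matrix.SpecialLinearGroup.coe_one, map_one]
    · refine ⟨-1, by simp, ?_⟩
      have hb : (b : Matrix (Fin 2) (Fin 2) F) = -(a : Matrix (Fin 2) (Fin 2) F) := congrArg Units.val h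
      rw [Matrix.SpecialLinearGroup.coe_mul, hb, mul_neg, ← Matrix.SpecialLinearGroup.coe_mul,
        inv_mul_cancel, Matrix.SpecialLinearGroup.coe_one, map_neg, map_one]

theorem dt_tg (a : SL2) : dt (tg a) = 1 := Units.ext a.2

theorem eq_pm_of_sq (h2 : (2 : F) ≠ 0) {a : SL2} (h : tg a * tg a = 1) : tg a = 1 ∨ tg a = -1 := by
  have hadj : Matrix.adjugate (a : Matrix (Fin 2) (Fin 2) F) = (a : Matrix (Fin 2) (Fin 2) F) := by
    have e : a⁻¹ = a := inv_eq_of_mul_eq_one_right (Matrix.SpecialLinearGroup.toGL_injective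
      (by rw [map_mul, h, map_one]))
    rw [← Matrix.SpecialLinearGroup.coe_inv, e]
  rw [Matrix.adjugate_fin_two] at hadj
  have e00 := congrFun (congrFun hadj 0) 0
  have e01 := congrFun (congrFun hadj 0) 1
  have e10 := congrFun (congrFun hadj 1) 0
  simp at e00 e01 e10
  have h01 : (a : Matrix (Fin 2) (Fin 2) F) 0 1 = 0 :=
    (mul_eq_zero.1 (show (2 : F) * _ = 0 by linear_combination -e01)).resolve_left h2
  have h10 : (a : Matrix (Fin 2) (Fin 2) F) 1 0 = 0 :=
    (mul_eq_zero.1 (show (2 : F) * _ = 0 by linear_combination -e10)).resolve_left h2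
  have hd := a.2
  rw [Matrix.det_fin_two, h01, h10, e00, zero_mul, sub_zero, mul_self_eq_one_iff] at hd
  rcases hd with h' | h'
  · refine Or.inl (Units.ext ?_)
    show (a : Matrix (Fin 2) (Fin 2) F) = 1
    ext i j
    fin_cases i <;> fin_cases j <;> simp [h01, h10, e00, h']
  · refine Or.inr (Units.ext ?_)
    show (a : Matrix (Fin 2) (Fin 2) F) = -1
    ext i j
    fin_cases i <;> fin_cases j <;> simp [h01, h10, e00, h']

theorem lift_involution (h2 : (2 : F) ≠ 0) {z : SL2} (hzz : (Cfsg.Agent.H6.π z : PSL2) * Cfsg.Agent.H6.π z = 1)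
    (hz : (Cfsg.Agent.H6.π z : PSL2) ≠ 1) : tg z * tg z = -1 := by
  rw [← map_mul, ← map_one Cfsg.Agent.H6.π, eq_comm, proj_eq, map_one] at hzz
  rcases hzz with h | h <;> rw [map_mul] at h
  · exfalso
    refine hz ?_
    rw [← map_one Cfsg.Agent.H6.π, eq_comm, proj_eq, map_one]
    exact eq_pm_of_sq h2 h
  · exact h

theorem lift_anticomm (h2 : (2 : F) ≠ 0) {z z' : SL2} (hi : tg z * tg z = -1) (hj : tg z' * tg z' = -1)
    (hc : tg z * tg z' = tg z' * tg z) : (Cfsg.Agent.H6.π z : PSL2) = Cfsg.Agent.H6.π z' := by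
  rw [proj_eq]
  have hsq : tg (z * z') * tg (z * z') = 1 := by
    rw [map_mul, mul_assoc, ← mul_assoc (tg z'), ← hc, mul_assoc (tg z), hj, ← mul_assoc, hi,
      neg_mul_neg, one_mul]
  rcases eq_pm_of_sq h2 hsq with h | h <;> rw [map_mul] at h
  · refine Or.inr ?_
    calc tg z' = -(tg z * tg z) * tg z' := by rw [hi, neg_neg, one_mul]
      _ = -(tg z) := by rw [neg_mul, mul_assoc, h, mul_one]
  · refine Or.inl ?_
    calc tg z' = -(tg z * tg z) * tg z' := by rw [hi, neg_neg, one_mul]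
      _ = tg z := by rw [neg_mul, mul_assoc, h, mul_neg_one, neg_neg]

theorem lift_comm {a b : SL2} (h : (Cfsg.Agent.H6.π a : PSL2) * Cfsg.Agent.H6.π b = Cfsg.Agent.H6.π b * Cfsg.Agent.H6.π a) :
    tg a * tg b = tg b * tg a ∨ tg a * tg b = -(tg b * tg a) := by
  rw [← map_mul, ← map_mul, eq_comm, proj_eq, map_mul, map_mul] at h
  exact h

theorem oneInvolution (h2 : (2 : F) ≠ 0) : OneInvolution PSL2 := by
  intro a z z' ha hodd hzz hz hzz' hz' haz haz'
  obtain ⟨A0, rfl⟩ := Cfsg.Agent.H6.π_surjective a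
  obtain ⟨I, rfl⟩ := Cfsg.Agent.H6.π_surjective z
  obtain ⟨J, rfl⟩ := Cfsg.Agent.H6.π_surjective z'
  set m := orderOf (Cfsg.Agent.H6.π A0 : PSL2) with hm
  have hA0 : tg A0 ^ m = 1 ∨ tg A0 ^ m = -1 := by
    have h : (Cfsg.Agent.H6.π 1 : PSL2) = Cfsg.Agent.H6.π (A0 ^ m) := by
      rw [map_one, map_pow, hm, pow_orderOf_eq_one]
    rwa [proj_eq, map_one, map_pow] at h
  set A := A0 ^ (m + 1) with hA
  have hπA : (Cfsg.Agent.H6.π A : PSL2) = Cfsg.Agent.H6.π A0 := by
    rw [hA, map_pow, pow_succ, hm, pow_orderOf_eq_one, one_mul]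
  have hAm : tg A ^ m = 1 := by
    rw [hA, map_pow, ← pow_mul, mul_comm, pow_mul]
    rcases hA0 with h | h <;> rw [h]
    · exact one_pow _
    · exact Even.neg_one_pow hodd.add_one
  have hcomm : ∀ K : SL2, (Cfsg.Agent.H6.π A0 : PSL2) * Cfsg.Agent.H6.π K = Cfsg.Agent.H6.π K * Cfsg.Agent.H6.π A0 →
      tg A * tg K = tg K * tg A := by
    intro K hK
    rw [← hπA] at hK
    rcases lift_comm hK with h | h
    · exact h
    · exfalso
      have e : tg K * tg A * (tg K)⁻¹ = -tg A := by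
        rw [mul_inv_eq_iff_eq_mul, neg_mul, h, neg_neg]
      have e2 := congrArg (fun x => x ^ m) e
      simp only [conj_pow, hAm, mul_one, mul_inv_cancel] at e2
      rw [hodd.neg_pow, hAm] at e2
      exact neg_one_ne_one h2 e2.symm
  have hAns : ∀ c : Fˣ, tg A ≠ scal c := by
    intro c hc
    have hd := dt_tg A
    rw [hc, Matrix.GeneralLinearGroup.det_scalar, Fintype.card_fin] at hd
    refine ha ?_
    rw [← hπA, ← map_one Cfsg.Agent.H6.π, eq_comm, proj_eq, map_one, hc]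
    have := congrArg Units.val hd
    rw [Units.val_pow_eq_pow_val, Units.val_one, sq, mul_self_eq_one_iff] at this
    rcases this with h | h
    · exact Or.inl (by rw [show c = 1 from Units.ext h, map_one])
    · exact Or.inr (by rw [show c = -1 from Units.ext (by rw [h, Units.val_neg, Units.val_one]), scal_neg_one])
  exact lift_anticomm h2 (lift_involution h2 hzz hz) (lift_involution h2 hzz' hz')
    (comm_comm_two hAns (hcomm I haz).symm (hcomm J haz').symm)

theorem centralizer_four (h2 : (2 : F) ≠ 0) : ∀ z z' : PSL2, z * z = 1 → z ≠ 1 → z' * z' = 1 → z' ≠ 1 → z ≠ z' →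
    z * z' = z' * z → ∀ x, x * z = z * x → x * z' = z' * x → x = 1 ∨ x = z ∨ x = z' ∨ x = z * z' := by
  intro z z' hzz hz hzz' hz' hne hcomm x hx hx'
  obtain ⟨I, rfl⟩ := Cfsg.Agent.H6.π_surjective z
  obtain ⟨J, rfl⟩ := Cfsg.Agent.H6.π_surjective z'
  obtain ⟨X, rfl⟩ := Cfsg.Agent.H6.π_surjective x
  have hi := lift_involution h2 hzz hz
  have hj := lift_involution h2 hzz' hz'
  have hij : tg I * tg J = -(tg J * tg I) :=
    (lift_comm hcomm).resolve_left fun h => hne (lift_anticomm h2 hi hj h)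
  have hncomm : tg I * tg J ≠ tg J * tg I := fun h => hne (lift_anticomm h2 hi hj h)
  have key : ∀ K : SL2, tg (X * K) * tg I = tg I * tg (X * K) → tg (X * K) * tg J = tg J * tg (X * K) →
      (Cfsg.Agent.H6.π X : PSL2) * Cfsg.Agent.H6.π K = 1 := by
    intro K h1 h2'
    obtain ⟨c, hc⟩ := scal_of_comm hncomm h1 h2'
    rw [← map_mul, ← map_one Cfsg.Agent.H6.π, eq_comm, proj_eq, map_one]
    have hd := dt_tg (X * K)
    rw [hc, Matrix.GeneralLinearGroup.det_scalar, Fintype.card_fin] at hd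
    have := congrArg Units.val hd
    rw [Units.val_pow_eq_pow_val, Units.val_one, sq, mul_self_eq_one_iff] at this
    rcases this with h | h
    · exact Or.inl (by rw [hc, show c = 1 from Units.ext h, map_one])
    · exact Or.inr (by rw [hc, show c = -1 from Units.ext (by rw [h, Units.val_neg, Units.val_one]), scal_neg_one])
  have hinv : ∀ (K : SL2), (Cfsg.Agent.H6.π K : PSL2) * Cfsg.Agent.H6.π K = 1 →
      (Cfsg.Agent.H6.π X : PSL2) * Cfsg.Agent.H6.π K = 1 → Cfsg.Agent.H6.π X = (Cfsg.Agent.H6.π K : PSL2) :=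
    fun K hK hXK => by rw [eq_inv_of_mul_eq_one_left hXK, inv_eq_of_mul_eq_one_right hK]
  rcases lift_comm hx with a1 | a1 <;> rcases lift_comm hx' with a2 | a2
  · left
    simpa using key 1 (by rwa [mul_one]) (by rwa [mul_one])
  · right; left
    refine hinv I hzz (key I ?_ ?_)
    · rw [map_mul]
      calc tg X * tg I * tg I = tg I * tg X * tg I := by rw [a1]
        _ = tg I * (tg X * tg I) := mul_assoc _ _ _
    · rw [map_mul]
      calc tg X * tg I * tg J = -(tg X * tg J * tg I) := by rw [mul_assoc, hij, mul_neg, mul_assoc]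
        _ = tg J * (tg X * tg I) := by rw [a2, neg_mul, neg_neg, mul_assoc]
  · right; right; left
    refine hinv J hzz' (key J ?_ ?_)
    · rw [map_mul]
      calc tg X * tg J * tg I = -(tg X * tg I * tg J) := by
            rw [mul_assoc, mul_assoc, hij, mul_neg, neg_neg]
        _ = tg I * (tg X * tg J) := by rw [a1, neg_mul, neg_neg, mul_assoc]
    · rw [map_mul]
      calc tg X * tg J * tg J = tg J * tg X * tg J := by rw [a2]
        _ = tg J * (tg X * tg J) := mul_assoc _ _ _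
  · right; right; right
    have hcz : (Cfsg.Agent.H6.π (I * J) : PSL2) = Cfsg.Agent.H6.π I * Cfsg.Agent.H6.π J := map_mul _ _ _
    rw [← hcz]
    refine hinv (I * J) ?_ (key (I * J) ?_ ?_)
    · rw [hcz, mul_assoc, ← mul_assoc (Cfsg.Agent.H6.π J), ← hcomm, mul_assoc (Cfsg.Agent.H6.π I), hzz',
        mul_one, hzz]
    · rw [map_mul, map_mul]
      calc tg X * (tg I * tg J) * tg I = -(tg X * tg I * (tg I * tg J)) := by
            have hji : tg J * tg I = -(tg I * tg J) := by rw [hij, neg_neg]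
            rw [mul_assoc, mul_assoc (tg I), hji, mul_neg, mul_neg, mul_assoc (tg X) (tg I)]
        _ = tg I * (tg X * (tg I * tg J)) := by rw [a1, neg_mul, neg_neg, mul_assoc]
    · rw [map_mul, map_mul]
      calc tg X * (tg I * tg J) * tg J = -(tg X * tg J * (tg I * tg J)) := by
            have e1 : tg X * (tg I * tg J) * tg J = -(tg X * tg I) := by
              rw [mul_assoc, mul_assoc (tg I), hj, mul_neg_one, mul_neg]
            have e2 : tg X * tg J * (tg I * tg J) = tg X * tg I := by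
              rw [hij, mul_neg, mul_assoc (tg X), ← mul_assoc (tg J), hj, neg_one_mul, mul_neg, neg_neg]
            rw [e1, e2]
        _ = tg J * (tg X * (tg I * tg J)) := by rw [a2, neg_mul, neg_neg, mul_assoc]

theorem sylow_four (h2 : (2 : F) ≠ 0) (hq : Fintype.card F % 8 = 3 ∨ Fintype.card F % 8 = 5) :
    (∀ P : Sylow 2 PSL2, Nat.card (P : Subgroup PSL2) = 4) ∧
      ∀ P : Sylow 2 PSL2, ∀ x ∈ (P : Subgroup PSL2), x * x = 1 := by
  have := Fact.mk Nat.prime_two
  obtain ⟨o, ho, hcard⟩ : ∃ o, Odd o ∧ Nat.card PSL2 = 2 ^ 2 * o := by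
    have h := Cfsg.Agent.H6.card_psl2_mul (F := F) rfl
    have hg : Nat.gcd 2 (Fintype.card F - 1) = 2 := Nat.gcd_eq_left (by omega)
    rw [hg, sq] at h
    generalize Nat.card PSL2 = N at *
    generalize Fintype.card F = q at *
    rcases hq with hq | hq
    · obtain ⟨t, rfl⟩ : ∃ t, q = 8 * t + 3 := ⟨q / 8, by omega⟩
      refine ⟨(8 * t + 3) * ((4 * t + 1) * (2 * t + 1)), ?_, ?_⟩
      · exact (Nat.odd_iff.2 (by omega)).mul ((Nat.odd_iff.2 (by omega)).mul (Nat.odd_iff.2 (by omega)))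
      · rw [show (8 * t + 3) * (8 * t + 3) - 1 = 8 * ((4 * t + 1) * (2 * t + 1)) by
          rw [show (8 * t + 3) * (8 * t + 3) = 8 * ((4 * t + 1) * (2 * t + 1)) + 1 by ring, Nat.add_sub_cancel]] at h
        linarith
    · obtain ⟨t, rfl⟩ : ∃ t, q = 8 * t + 5 := ⟨q / 8, by omega⟩
      refine ⟨(8 * t + 5) * ((4 * t + 3) * (2 * t + 1)), ?_, ?_⟩
      · exact (Nat.odd_iff.2 (by omega)).mul ((Nat.odd_iff.2 (by omega)).mul (Nat.odd_iff.2 (by omega)))
      · rw [show (8 * t + 5) * (8 * t + 5) - 1 = 8 * ((4 * t + 3) * (2 * t + 1)) by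
          rw [show (8 * t + 5) * (8 * t + 5) = 8 * ((4 * t + 3) * (2 * t + 1)) + 1 by ring, Nat.add_sub_cancel]] at h
        linarith
  have hfour : ∀ P : Sylow 2 PSL2, Nat.card (P : Subgroup PSL2) = 4 := fun P =>
    Cfsg.Agent.H49.card_sylow_two P hcard ho
  refine ⟨hfour, ?_⟩
  obtain ⟨p, hp⟩ := CharP.exists F
  have : NeZero p := ⟨(CharP.char_is_prime F p).ne_zero⟩
  obtain ⟨a, b, hab⟩ := CharP.sq_add_sq F p (-1)
  simp only [Int.cast_neg, Int.cast_one] at hab
  let I : SL2 := ⟨!![(0 : F), 1; -1, 0], by simp [Matrix.det_fin_two]⟩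
  let J : SL2 := ⟨!![(a : F), (b : F); (b : F), -(a : F)], by
    rw [Matrix.det_fin_two_of]; linear_combination -hab⟩
  have hi : tg I * tg I = -1 := by
    refine Units.ext ?_
    show !![(0 : F), 1; -1, 0] * !![(0 : F), 1; -1, 0] = -1
    simp [Matrix.one_fin_two]
  have hj : tg J * tg J = -1 := by
    refine Units.ext ?_
    show !![(a : F), (b : F); (b : F), -(a : F)] * !![(a : F), (b : F); (b : F), -(a : F)] = -1
    rw [Matrix.mul_fin_two, Matrix.one_fin_two]
    ext r s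
    fin_cases r <;> fin_cases s <;> simp <;>
      first | linear_combination hab | linear_combination -hab | ring
  have hij : tg I * tg J = -(tg J * tg I) := by
    refine Units.ext ?_
    show !![(0 : F), 1; -1, 0] * !![(a : F), (b : F); (b : F), -(a : F)] =
      -(!![(a : F), (b : F); (b : F), -(a : F)] * !![(0 : F), 1; -1, 0])
    simp
  have hsq : ∀ K : SL2, tg K * tg K = -1 → (Cfsg.Agent.H6.π K : PSL2) * Cfsg.Agent.H6.π K = 1 := by
    intro K hK
    rw [← map_mul, ← map_one Cfsg.Agent.H6.π, eq_comm, proj_eq, map_one, map_mul]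
    exact Or.inr hK
  set z : PSL2 := Cfsg.Agent.H6.π I with hz
  set z' : PSL2 := Cfsg.Agent.H6.π J with hz'
  have hzz : z * z = 1 := hsq I hi
  have hzz' : z' * z' = 1 := hsq J hj
  have hne1 : ∀ K : SL2, tg K * tg K = -1 → (Cfsg.Agent.H6.π K : PSL2) ≠ 1 := by
    intro K hK h
    rw [← map_one Cfsg.Agent.H6.π, eq_comm, proj_eq, map_one] at h
    rcases h with h | h <;> rw [h] at hK
    · exact neg_one_ne_one h2 (by simpa using hK.symm)
    · exact neg_one_ne_one h2 (by simpa using hK.symm)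
  have hzne : z ≠ z' := by
    intro h
    rw [hz, hz', proj_eq] at h
    rcases h with h | h <;> rw [h] at hij
    · rw [hi, neg_neg] at hij
      exact neg_one_ne_one h2 hij
    · rw [mul_neg, neg_mul, neg_neg, hi, neg_neg] at hij
      exact neg_one_ne_one h2 hij.symm
  have hcomm : z * z' = z' * z := by
    rw [hz, hz', ← map_mul, ← map_mul, eq_comm, proj_eq, map_mul, map_mul]
    exact Or.inr hij
  -- the four-group
  let V : Subgroup PSL2 :=
    { carrier := {1, z, z', z * z'}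
      one_mem' := Or.inl rfl
      mul_mem' := by
        intro u v hu hv
        simp only [Set.mem_insert_iff, Set.mem_singleton_iff] at hu hv ⊢
        have e1 : z * (z * z') = z' := by rw [← mul_assoc, hzz, one_mul]
        have e2 : z' * (z * z') = z := by rw [hcomm, ← mul_assoc, hzz', one_mul]
        have e3 : z * z' * z = z' := by rw [hcomm, mul_assoc, hzz, mul_one]
        have e4 : z * z' * z' = z := by rw [mul_assoc, hzz', mul_one]
        have e5 : z * z' * (z * z') = 1 := by rw [← mul_assoc, e3, hzz']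
        rcases hu with rfl | rfl | rfl | rfl <;> rcases hv with rfl | rfl | rfl | rfl <;>
          simp [hzz, hzz', e1, e2, e3, e4, e5, ← hcomm]
      inv_mem' := by
        intro u hu
        have i1 : z⁻¹ = z := inv_eq_of_mul_eq_one_right hzz
        have i2 : z'⁻¹ = z' := inv_eq_of_mul_eq_one_right hzz'
        simp only [Set.mem_insert_iff, Set.mem_singleton_iff] at hu ⊢
        rcases hu with rfl | rfl | rfl | rfl <;> simp [i1, i2, ← hcomm] }
  have hVsq : ∀ x ∈ V, x * x = 1 := by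
    intro x hx
    rcases hx with rfl | rfl | rfl | rfl
    · exact one_mul 1
    · exact hzz
    · exact hzz'
    · rw [mul_assoc, ← mul_assoc z' z, ← hcomm, mul_assoc z, hzz', mul_one, hzz]
  have hV2 : IsPGroup 2 V := fun x => ⟨1, Subtype.ext (by
    show (x : PSL2) ^ 2 ^ 1 = 1
    rw [pow_one, sq]
    exact hVsq x x.2)⟩
  have hVcard : 4 ≤ Nat.card V := by
    have hsub : ({1, z, z', z * z'} : Set PSL2).ncard = 4 := by
      classical
      have d1 : z * z' ≠ 1 := fun h => hzne (by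
        rw [← inv_eq_of_mul_eq_one_right h, inv_eq_of_mul_eq_one_right hzz])
      rw [Set.ncard_eq_toFinset_card', Set.toFinset_insert, Set.toFinset_insert, Set.toFinset_insert,
        Set.toFinset_singleton]
      have z1 : z ≠ 1 := hne1 I hi
      have z1' : z' ≠ 1 := hne1 J hj
      rw [Finset.card_insert_of_notMem (by simp [z1.symm, z1'.symm, d1.symm]),
        Finset.card_insert_of_notMem (by simp [hzne, z1']),
        Finset.card_insert_of_notMem (by simp [z1]), Finset.card_singleton]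
    rw [← hsub]
    exact (Nat.card_coe_set_eq _).symm.le
  obtain ⟨P0, hP0⟩ := hV2.exists_le_sylow
  have hP0eq : V = P0 := Subgroup.eq_of_le_of_card_ge hP0 (by rw [hfour P0]; exact hVcard)
  intro P x hx
  obtain ⟨g, hg⟩ := MulAction.exists_smul_eq PSL2 P0 P
  rw [← hg, Sylow.coe_subgroup_smul] at hx
  obtain ⟨y, hy, rfl⟩ := hx
  show (g * y * g⁻¹) * (g * y * g⁻¹) = 1
  rw [conj_mul, hVsq y (hP0eq ▸ hy), mul_one, mul_inv_cancel]

end Cfsg.Agent.H68.Pro
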