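import Cfsg.Agent.H68.Pro.GLTwo
import Cfsg.Agent.H49.ClassicalTwoU
import Cfsg.Agent.H3.Field

/-!
Sylow 2-subgroups of the unitary groups of degree a power of two and their normalisers, `q` odd.
-/

set_option autoImplicit false
set_option linter.unusedSectionVars false

namespace Cfsg.Agent.H68.Pro

open Matrix

section UGroup

variable {F : Type*} [Field F] {ι : Type*} [Fintype ι] [DecidableEq ι]

/-- The inverse transpose. -/
def ct : GL ι F →* GL ι F where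
  toFun g := ⟨((g⁻¹ : GL ι F) : Matrix ι ι F)ᵀ, (g : Matrix ι ι F)ᵀ,
    by rw [← Matrix.transpose_mul, g.mul_inv, Matrix.transpose_one],
    by rw [← Matrix.transpose_mul, g.inv_mul, Matrix.transpose_one]⟩
  map_one' := Units.ext (by simp)
  map_mul' a b := Units.ext (by
    show (((a * b)⁻¹ : GL ι F) : Matrix ι ι F)ᵀ = _
    rw [_root_.mul_inv_rev, Units.val_mul, Matrix.transpose_mul]
    rfl)

theorem coe_ct (g : GL ι F) : ((ct g : GL ι F) : Matrix ι ι F) = ((g⁻¹ : GL ι F) : Matrix ι ι F)ᵀ := rfl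

/-- The isometry group of the standard form attached to the field endomorphism `σ`. -/
def uGrp (σ : F →+* F) : Subgroup (GL ι F) :=
  MonoidHom.eqLocus (Matrix.GeneralLinearGroup.map σ) ct

variable {σ : F →+* F}

theorem mem_uGrp {g : GL ι F} :
    g ∈ uGrp σ ↔ (g : Matrix ι ι F)ᵀ * (g : Matrix ι ι F).map σ = 1 := by
  constructor
  · intro h
    have e : (g : Matrix ι ι F).map σ = ((g⁻¹ : GL ι F) : Matrix ι ι F)ᵀ := congrArg Units.val h
    rw [e, ← Matrix.transpose_mul, g.inv_mul, Matrix.transpose_one]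
  · intro h
    refine Units.ext ?_
    show (g : Matrix ι ι F).map σ = ((g⁻¹ : GL ι F) : Matrix ι ι F)ᵀ
    calc (g : Matrix ι ι F).map σ
        = (((g⁻¹ : GL ι F) : Matrix ι ι F)ᵀ * (g : Matrix ι ι F)ᵀ) * (g : Matrix ι ι F).map σ := by
          rw [← Matrix.transpose_mul, g.mul_inv, Matrix.transpose_one, one_mul]
      _ = ((g⁻¹ : GL ι F) : Matrix ι ι F)ᵀ := by rw [mul_assoc, h, mul_one]

theorem bd_mem_uGrp {a b : GL ι F} : bd (a, b) ∈ uGrp σ ↔ a ∈ uGrp σ ∧ b ∈ uGrp σ := by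
  simp only [mem_uGrp, coe_bd, fromBlocks_transpose, fromBlocks_map, Matrix.transpose_zero,
    Matrix.map_zero σ (map_zero σ), fromBlocks_multiply, mul_zero, zero_mul, add_zero, zero_add]
  rw [← fromBlocks_one, fromBlocks_inj]
  simp

theorem sw_mem_uGrp : (sw : GL (ι ⊕ ι) F) ∈ uGrp σ := by
  rw [mem_uGrp, coe_sw, fromBlocks_transpose, fromBlocks_map, fromBlocks_multiply]
  simp

theorem scal_mem_uGrp [Nonempty ι] {c : Fˣ} : (scal c : GL ι F) ∈ uGrp σ ↔ (c : F) * σ c = 1 := by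
  rw [mem_uGrp]
  show (Matrix.scalar ι (c : F))ᵀ * (Matrix.scalar ι (c : F)).map σ = 1 ↔ _
  rw [Matrix.scalar_apply, Matrix.diagonal_transpose, Matrix.diagonal_map (map_zero σ),
    Matrix.diagonal_mul_diagonal, ← Matrix.diagonal_one, Matrix.diagonal_eq_diagonal_iff]
  exact ⟨fun h => h (Classical.arbitrary ι), fun h _ => h⟩

theorem reix_mem_uGrp {ι' : Type*} [Fintype ι'] [DecidableEq ι'] (e : ι ≃ ι') {g : GL ι F} :
    reix e g ∈ uGrp σ ↔ g ∈ uGrp σ := by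
  rw [mem_uGrp, mem_uGrp, coe_reix, Matrix.reindex_apply, ← Matrix.submatrix_map, Matrix.transpose_submatrix,
    Matrix.submatrix_mul_equiv]
  constructor
  · intro h
    ext i j
    have := congrFun (congrFun h (e i)) (e j)
    simpa [Matrix.one_apply] using this
  · intro h
    rw [h, Matrix.submatrix_one_equiv]

theorem herm_eq_dot (n : ℕ) {q : ℕ} (hσ : ∀ x, σ x = x ^ q) (g : Matrix (Fin n) (Fin n) F) (u v : Fin n → F) :
    Cfsg.hermForm n F q (g *ᵥ u) (g *ᵥ v) = u ⬝ᵥ ((gᵀ * g.map σ) *ᵥ fun i => σ (v i)) := by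
  have e : ∀ i, (g *ᵥ v) i ^ q = ((g.map σ) *ᵥ fun i => σ (v i)) i := by
    intro i
    rw [← hσ, Matrix.mulVec, dotProduct, map_sum]
    simp [Matrix.mulVec, dotProduct]
  rw [Cfsg.hermForm]
  simp only [e]
  rw [← Matrix.mulVec_mulVec, dotProduct_mulVec, Matrix.vecMul_transpose]
  rfl

theorem mem_uGrp_iff_GU {n q : ℕ} (hσ : ∀ x, σ x = x ^ q) {g : GL (Fin n) F} :
    g ∈ uGrp σ ↔ g ∈ Cfsg.GU n F q := by
  rw [mem_uGrp]
  constructor
  · intro h u v
    show Cfsg.hermForm n F q ((g : Matrix (Fin n) (Fin n) F) *ᵥ u) ((g : Matrix (Fin n) (Fin n) F) *ᵥ v) = _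
    rw [herm_eq_dot n hσ, h, Matrix.one_mulVec]
    simp [Cfsg.hermForm, dotProduct, hσ]
  · intro h
    ext i j
    have h1 := h (Pi.single i 1) (Pi.single j 1)
    change Cfsg.hermForm n F q ((g : Matrix (Fin n) (Fin n) F) *ᵥ Pi.single i 1)
      ((g : Matrix (Fin n) (Fin n) F) *ᵥ Pi.single j 1) = _ at h1
    rw [herm_eq_dot n hσ] at h1
    have e : (fun k => σ ((Pi.single j 1 : Fin n → F) k)) = Pi.single j 1 := by
      funext k
      by_cases hk : k = j <;> simp [hk]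
    rw [e, single_one_dotProduct, Matrix.mulVec_single_one, Matrix.col_apply] at h1
    rw [h1, Cfsg.hermForm, Finset.sum_eq_single i (fun k _ hk => by simp [hk]) (by simp),
      Pi.single_eq_same, one_mul, ← hσ]
    by_cases hij : i = j <;> simp [hij, Matrix.one_apply]

/-- What the induction carries along inside a subgroup `Γ` of `GL`. -/
structure GoodU (Γ W : Subgroup (GL ι F)) : Prop where
  pGroup : IsPGroup 2 W
  le : W ≤ Γ
  norm : ∀ g ∈ Γ, g ∈ Subgroup.normalizer (W : Set (GL ι F)) → ∃ w ∈ W, ∃ c : Fˣ, g = w * scal c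
  scal_mem : ∀ c : Fˣ, (∃ k : ℕ, c ^ 2 ^ k = 1) → scal c ∈ Γ → scal c ∈ W
  cent : ∀ x ∈ W, (∀ a ∈ W, dt a = 1 → x * a = a * x) → ∃ c : Fˣ, x = scal c
  nontriv : ∃ a ∈ W, dt a = 1 ∧ a ≠ 1 ∧ a ≠ -1

theorem neg_one_mem_uGrp [Nonempty ι] : (-1 : GL ι F) ∈ uGrp σ := by
  rw [← scal_neg_one, scal_mem_uGrp]
  simp

theorem neg_one_memU [Nonempty ι] {W : Subgroup (GL ι F)} (hW : GoodU (uGrp σ) W) : (-1 : GL ι F) ∈ W := by
  have h : (scal (-1 : Fˣ) : GL ι F) ∈ uGrp σ := by rw [scal_neg_one]; exact neg_one_mem_uGrp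
  rw [← scal_neg_one]
  exact hW.scal_mem _ ⟨1, by simp⟩ h

theorem wr_le_uGrp {W : Subgroup (GL ι F)} (h : W ≤ uGrp σ) : wr W ≤ uGrp (ι := ι ⊕ ι) σ := by
  rintro g ⟨a, ha, b, hb, rfl | rfl⟩
  · exact bd_mem_uGrp.2 ⟨h ha, h hb⟩
  · exact mul_mem (bd_mem_uGrp.2 ⟨h ha, h hb⟩) sw_mem_uGrp

theorem scal_mem_wr_uGrp {W : Subgroup (GL ι F)}
    (hW : ∀ c : Fˣ, (∃ k : ℕ, c ^ 2 ^ k = 1) → (scal c : GL ι F) ∈ uGrp σ → scal c ∈ W) (c : Fˣ)
    (hc : ∃ k : ℕ, c ^ 2 ^ k = 1) (hcU : (scal c : GL (ι ⊕ ι) F) ∈ uGrp σ) : scal c ∈ wr W := by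
  rw [← bd_scal] at hcU ⊢
  exact bd_mem_wr (hW c hc (bd_mem_uGrp.1 hcU).1) (hW c hc (bd_mem_uGrp.1 hcU).1)

variable {W : Subgroup (GL ι F)}

/-- The doubling step. -/
theorem GoodU.double [Finite F] [Nonempty ι] (h2 : (2 : F) ≠ 0) (hι : Even (Fintype.card ι))
    (hW : GoodU (uGrp σ) W) : GoodU (uGrp σ) (wr W) := by
  have hneg := neg_one_memU hW
  obtain ⟨a0, ha0, hd0, h01, h02⟩ := hW.nontriv
  refine ⟨isPGroup_wr hW.pGroup, wr_le_uGrp hW.le, ?_, scal_mem_wr_uGrp hW.scal_mem, ?_, ?_⟩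
  · intro g hgU hg
    exact coreRel h2 (fun a b h => bd_mem_uGrp.1 h) sw_mem_uGrp hW.norm le_rfl
      (bd_mem_wr (one_mem _) hneg) sw_mem_wr
      (A := {a | a ∈ W ∧ dt a = 1})
      (fun a ha => ⟨bd_mem_wr ha.1 (one_mem _), bd_mem_wr (one_mem _) ha.1⟩)
      (fun x hx h => hW.cent x hx fun a ha hd => h a ⟨ha, hd⟩) ⟨a0, ⟨ha0, hd0⟩, h01, h02⟩
      (fun a ha => ⟨a, bd_mem_wr ha ha⟩) hgU hg
  · intro g hg hc
    have hc1 : ∀ a ∈ W, dt a = 1 → g * bd (a, 1) = bd (a, 1) * g := fun a ha hd =>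
      hc _ (bd_mem_wr ha (one_mem _)) (by rw [dt_bd, hd, map_one, one_mul])
    obtain ⟨x, hx, y, hy, rfl | rfl⟩ := hg
    · have hsw' := hc sw sw_mem_wr (dt_sw hι)
      rw [sw_bd] at hsw'
      obtain ⟨rfl, -⟩ := bd_sw_inj hsw'
      obtain ⟨c, rfl⟩ := hW.cent x hx fun a ha hd => by
        have := hc1 a ha hd
        rw [bd_mul, bd_mul] at this
        exact (bd_inj this).1
      exact ⟨c, bd_scal c⟩
    · have := hc1 a0 ha0 hd0
      rw [bd_sw_mul_bd, ← mul_assoc (bd _), bd_mul, mul_one] at this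
      exact absurd (mul_eq_right.1 (bd_sw_inj this).1.symm) h01
  · refine ⟨bd (a0, 1), bd_mem_wr ha0 (one_mem _), by rw [dt_bd, hd0, map_one, one_mul],
      fun h => h01 ?_, fun h => ?_⟩
    · rw [← bd_one] at h
      exact (bd_inj h).1
    · have e : (-1 : GL (ι ⊕ ι) F) = bd ((-1 : GL ι F), (-1 : GL ι F)) := by rw [← neg_bd, bd_one, mul_one]
      rw [e] at h
      exact neg_one_ne_one h2 (bd_inj h).2.symm

/-- In the special unitary group the Sylow 2-subgroup is its own normaliser. -/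
theorem GoodU.special [Finite F] [Nonempty ι] (h2 : (2 : F) ≠ 0) (hι : Even (Fintype.card ι))
    {d : ℕ} (hd : Fintype.card (ι ⊕ ι) = 2 ^ d) (hW : GoodU (uGrp σ) W) {g : GL (ι ⊕ ι) F} (hg1 : dt g = 1)
    (hgU : g ∈ uGrp σ)
    (hg : g ∈ Subgroup.normalizer ((wr W ⊓ dt.ker : Subgroup (GL (ι ⊕ ι) F)) : Set (GL (ι ⊕ ι) F))) :
    g ∈ wr W := by
  have hneg := neg_one_memU hW
  obtain ⟨a0, ha0, hd0, h01, h02⟩ := hW.nontriv
  have hdn : dt (-1 : GL ι F) = 1 := by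
    rw [← scal_neg_one, Matrix.GeneralLinearGroup.det_scalar, hι.neg_one_pow]
  obtain ⟨w, hw, c, rfl⟩ := coreRel h2 (fun a b h => bd_mem_uGrp.1 h) sw_mem_uGrp hW.norm
    (S := wr W ⊓ dt.ker) inf_le_left
    ⟨bd_mem_wr (one_mem _) hneg, by show dt _ = 1; rw [zz, dt_bd, map_one, one_mul, hdn]⟩
    ⟨sw_mem_wr, dt_sw hι⟩
    (A := {a | a ∈ W ∧ dt a = 1})
    (fun a ha => ⟨⟨bd_mem_wr ha.1 (one_mem _), by show dt _ = 1; rw [dt_bd, ha.2, map_one, one_mul]⟩,
      ⟨bd_mem_wr (one_mem _) ha.1, by show dt _ = 1; rw [dt_bd, ha.2, map_one, one_mul]⟩⟩)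
    (fun x hx h => hW.cent x hx fun a ha hd => h a ⟨ha, hd⟩) ⟨a0, ⟨ha0, hd0⟩, h01, h02⟩
    (fun a ha => ⟨a⁻¹, bd_mem_wr ha (inv_mem ha), by
      show dt _ = 1; rw [dt_bd, map_inv, mul_inv_cancel]⟩) hgU hg
  have hcU : (scal c : GL (ι ⊕ ι) F) ∈ uGrp σ := by
    have := mul_mem (inv_mem (wr_le_uGrp hW.le hw)) hgU
    rwa [inv_mul_cancel_left] at this
  refine mul_mem hw (scal_mem_wr_uGrp hW.scal_mem c ?_ hcU)
  obtain ⟨k, hk⟩ := isPGroup_wr hW.pGroup ⟨w, hw⟩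
  have hk' : dt w ^ 2 ^ k = 1 := by rw [← map_pow, show w ^ 2 ^ k = 1 from congrArg Subtype.val hk, map_one]
  rw [map_mul, Matrix.GeneralLinearGroup.det_scalar, hd] at hg1
  refine ⟨d + k, ?_⟩
  rw [pow_add, pow_mul, show c ^ 2 ^ d = (dt w)⁻¹ from eq_inv_of_mul_eq_one_right hg1, inv_pow, hk',
    inv_one]

theorem GoodU.reix {ι' : Type*} [Fintype ι'] [DecidableEq ι'] (e : ι ≃ ι') (hW : GoodU (uGrp σ) W) :
    GoodU (uGrp σ) (W.map (Cfsg.Agent.H68.Pro.reix (F := F) e).toMonoidHom) := by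
  refine ⟨hW.pGroup.map _, ?_, ?_, ?_, ?_, ?_⟩
  · rintro _ ⟨w, hw, rfl⟩
    exact (reix_mem_uGrp e).2 (hW.le hw)
  · intro g hgU hg
    rw [← Subgroup.map_equiv_normalizer_eq] at hg
    obtain ⟨g, hg, rfl⟩ := hg
    obtain ⟨w, hw, c, rfl⟩ := hW.norm g ((reix_mem_uGrp e).1 hgU) hg
    exact ⟨_, ⟨w, hw, rfl⟩, c, by simp [map_mul, reix_scal]⟩
  · intro c hc hcU
    refine ⟨scal c, hW.scal_mem c hc ?_, reix_scal e c⟩
    rw [← reix_scal e c] at hcU
    exact (reix_mem_uGrp e).1 hcU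
  · rintro _ ⟨x, hx, rfl⟩ h
    obtain ⟨c, rfl⟩ := hW.cent x hx fun a ha hd => (Cfsg.Agent.H68.Pro.reix e).injective <| by
      simpa [map_mul] using h _ ⟨a, ha, rfl⟩ (by simpa [dt_reix] using hd)
    exact ⟨c, reix_scal e c⟩
  · obtain ⟨a, ha, hd, h1, h2⟩ := hW.nontriv
    refine ⟨_, ⟨a, ha, rfl⟩, by simpa [dt_reix] using hd, ?_, ?_⟩
    · exact fun h => h1 ((Cfsg.Agent.H68.Pro.reix e).injective (h.trans (map_one _).symm))
    · exact fun h => h2 ((Cfsg.Agent.H68.Pro.reix e).injective (h.trans (reix_neg_one e).symm))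

end UGroup

section Base

variable {F : Type*} [Field F] [Fintype F] {q : ℕ}

/-- The field automorphism of order two. -/
noncomputable def frobQ (hF : Fintype.card F = q ^ 2) : F →+* F :=
  RingHom.mk' { toFun := fun x => x ^ q, map_one' := one_pow q, map_mul' := fun x y => mul_pow x y q }
    (fun x y => H3.add_pow_q hF x y)

theorem frobQ_apply (hF : Fintype.card F = q ^ 2) (x : F) : frobQ hF x = x ^ q := rfl

theorem exists_norms_add_eq_one (hF : Fintype.card F = q ^ 2) (hq : Odd q) :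
    ∃ a b : F, a + a ^ q = 0 ∧ b + b ^ q = 0 ∧ a ^ (q + 1) + b ^ (q + 1) = 1 := by
  classical
  let T := Finset.univ.filter fun x : F => x + x ^ q = 0
  let K := Finset.univ.filter fun x : F => x ^ q = x
  have hT : T.card = q := by
    rw [← Fintype.card_subtype, ← Nat.card_eq_fintype_card]
    exact H3.card_trace_zero hF
  have hK : K.card = q := by
    rw [← Fintype.card_subtype, ← Nat.card_eq_fintype_card]
    exact H3.card_fixed hF
  have hval : ∀ a ∈ T, a ^ (q + 1) = -(a * a) := by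
    intro a ha
    rw [Finset.mem_filter] at ha
    rw [pow_succ, eq_neg_of_add_eq_zero_right ha.2, neg_mul]
  let A := T.image fun a => a ^ (q + 1)
  let B := A.image fun z => 1 - z
  have hA : T.card ≤ 2 * A.card := by
    refine Finset.card_le_mul_card_image T 2 fun z _ => ?_
    rcases (T.filter fun a => a ^ (q + 1) = z).eq_empty_or_nonempty with h | ⟨a, ha⟩
    · rw [h]; simp
    · refine (Finset.card_le_card fun b hb => ?_).trans (Finset.card_le_two (a := a) (b := -a))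
      rw [Finset.mem_filter] at ha hb
      have e : b * b = a * a := by
        have := hb.2.trans ha.2.symm
        rwa [hval b hb.1, hval a ha.1, neg_inj] at this
      simpa using mul_self_eq_mul_self_iff.1 e
  have hAK : A ⊆ K := by
    intro z hz
    obtain ⟨a, -, rfl⟩ := Finset.mem_image.1 hz
    exact Finset.mem_filter.2 ⟨Finset.mem_univ _, H3.norm_pow_q hF a⟩
  have hBK : B ⊆ K := by
    intro z hz
    obtain ⟨y, hy, rfl⟩ := Finset.mem_image.1 hz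
    refine Finset.mem_filter.2 ⟨Finset.mem_univ _, ?_⟩
    rw [← frobQ_apply hF, map_sub, map_one, frobQ_apply, (Finset.mem_filter.1 (hAK hy)).2]
  have hB : B.card = A.card := Finset.card_image_of_injective _ fun x y h => sub_right_injective h
  have hne : (A ∩ B).Nonempty := by
    rw [← Finset.card_pos]
    have h1 := Finset.card_union_add_card_inter A B
    have h2 := Finset.card_le_card (Finset.union_subset hAK hBK)
    obtain ⟨t, ht⟩ := hq
    omega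
  obtain ⟨z, hz⟩ := hne
  rw [Finset.mem_inter, Finset.mem_image, Finset.mem_image] at hz
  obtain ⟨⟨a, ha, rfl⟩, y, hy, hy'⟩ := hz
  obtain ⟨b, hb, rfl⟩ := Finset.mem_image.1 hy
  exact ⟨a, b, (Finset.mem_filter.1 ha).2, (Finset.mem_filter.1 hb).2, by linear_combination -hy'⟩

local notation "G2" => GL (Fin 2) F
local notation "GU2" => Cfsg.GU 2 F q

theorem mk_mem_GU (hF : Fintype.card F = q ^ 2) {a b : F}
    (h : a ^ (q + 1) + b ^ (q + 1) = 1) (ha : a + a ^ q = 0) (hb : b + b ^ q = 0) :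
    ∃ g : G2, (g : Matrix (Fin 2) (Fin 2) F) = !![a, b; b, -a] ∧ g ∈ GU2 ∧ dt g = 1 := by
  have h' : a * a + b * b = -1 := by
    rw [pow_succ, pow_succ, eq_neg_of_add_eq_zero_right ha, eq_neg_of_add_eq_zero_right hb] at h
    linear_combination -h
  have hd : (!![a, b; b, -a]).det = 1 := by
    rw [Matrix.det_fin_two_of]; linear_combination -h'
  refine ⟨Matrix.GeneralLinearGroup.mkOfDetNeZero _ (by rw [hd]; exact one_ne_zero), rfl, ?_, Units.ext hd⟩
  rw [← mem_uGrp_iff_GU (frobQ_apply hF), mem_uGrp]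
  show (!![a, b; b, -a])ᵀ * (!![a, b; b, -a]).map (frobQ hF) = 1
  have e1 : frobQ hF a = -a := by rw [frobQ_apply]; linear_combination ha
  have e2 : frobQ hF b = -b := by rw [frobQ_apply]; linear_combination hb
  ext i j
  fin_cases i <;> fin_cases j <;> simp [Matrix.mul_apply, Fin.sum_univ_two, e1, e2] <;>
    first | linear_combination h' | linear_combination -h' | ring

theorem rot_mem_GU (hF : Fintype.card F = q ^ 2) :
    ∃ g : G2, (g : Matrix (Fin 2) (Fin 2) F) = !![0, 1; -1, 0] ∧ g ∈ GU2 ∧ dt g = 1 := by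
  refine ⟨Matrix.GeneralLinearGroup.mkOfDetNeZero !![(0 : F), 1; -1, 0] (by simp [Matrix.det_fin_two]), rfl,
    ?_, Units.ext (by simp [Matrix.det_fin_two])⟩
  rw [← mem_uGrp_iff_GU (frobQ_apply hF), mem_uGrp]
  show (!![(0 : F), 1; -1, 0])ᵀ * (!![(0 : F), 1; -1, 0]).map (frobQ hF) = 1
  ext i j
  fin_cases i <;> fin_cases j <;> simp [Matrix.mul_apply, Fin.sum_univ_two]

/-- Two non-commuting determinant one elements in every Sylow 2-subgroup of `GU₂`. -/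
theorem exists_pairU (hF : Fintype.card F = q ^ 2) (hq : Odd q) (h2 : (2 : F) ≠ 0) (P : Sylow 2 GU2) :
    ∃ i ∈ (P : Subgroup GU2), ∃ j ∈ (P : Subgroup GU2),
      dt (i : G2) = 1 ∧ dt (j : G2) = 1 ∧ (i : G2) * j ≠ j * i := by
  have := Fact.mk Nat.prime_two
  obtain ⟨a, b, ha, hb, hab⟩ := exists_norms_add_eq_one hF hq
  obtain ⟨j, hj, hjU, hdj⟩ := mk_mem_GU hF hab ha hb
  obtain ⟨i, hi, hiU, hdi⟩ := rot_mem_GU (q := q) hF
  have h' : a * a + b * b = -1 := by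
    rw [pow_succ, pow_succ, eq_neg_of_add_eq_zero_right ha, eq_neg_of_add_eq_zero_right hb] at hab
    linear_combination -hab
  have hii : i * i = -1 := by
    refine Units.ext ?_
    rw [Units.val_mul, hi]
    simp [Matrix.one_fin_two]
  have hjj : j * j = -1 := by
    refine Units.ext ?_
    rw [Units.val_mul, hj, Units.val_neg, Units.val_one, Matrix.mul_fin_two, Matrix.one_fin_two]
    ext r s
    fin_cases r <;> fin_cases s <;> simp <;>
      first | linear_combination h' | linear_combination -h' | ring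
  have hji : j * i = i⁻¹ * j := by
    rw [eq_inv_mul_iff_mul_eq]
    refine Units.ext ?_
    rw [Units.val_mul, Units.val_mul, hi, hj]
    simp
  let i' : GU2 := ⟨i, hiU⟩
  let j' : GU2 := ⟨j, hjU⟩
  have h4 : ∀ t : GU2, (t : G2) * t = -1 → IsPGroup 2 (Subgroup.zpowers t) := by
    intro t ht
    rintro ⟨_, e, rfl⟩
    refine ⟨2, Subtype.ext ?_⟩
    show (t ^ e) ^ 2 ^ 2 = 1
    have h4' : t ^ ((4 : ℕ) : ℤ) = 1 := by
      refine Subtype.ext ?_
      rw [_root_.zpow_natCast]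
      show (t : G2) ^ 4 = 1
      rw [show (4 : ℕ) = 2 * 2 from rfl, pow_mul, sq (t : G2), ht, sq, neg_mul_neg, one_mul]
    rw [← _root_.zpow_natCast, ← _root_.zpow_mul, mul_comm, _root_.zpow_mul,
      show ((2 ^ 2 : ℕ) : ℤ) = ((4 : ℕ) : ℤ) from rfl, h4', _root_.one_zpow]
  have hn : Subgroup.zpowers j' ≤ Subgroup.normalizer (Subgroup.zpowers i' : Set GU2) := by
    rw [Subgroup.zpowers_le]
    refine Subgroup.mem_normalizer_fintype ?_
    rintro _ ⟨e, rfl⟩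
    show j' * i' ^ e * j'⁻¹ ∈ Subgroup.zpowers i'
    have hji' : j' * i' = i'⁻¹ * j' := Subtype.ext hji
    rw [← conj_zpow, hji', mul_inv_cancel_right]
    exact zpow_mem (inv_mem (Subgroup.mem_zpowers i')) e
  obtain ⟨Q, hQ⟩ := ((h4 i' hii).to_sup_of_normal_left' (h4 j' hjj) hn).exists_le_sylow
  obtain ⟨g, hg⟩ := MulAction.exists_smul_eq GU2 Q P
  have hmem : ∀ t ∈ (Q : Subgroup GU2), g * t * g⁻¹ ∈ (P : Subgroup GU2) := by
    intro t ht
    rw [← hg, Sylow.coe_subgroup_smul]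
    exact ⟨t, ht, rfl⟩
  refine ⟨_, hmem i' (hQ (Subgroup.mem_sup_left (Subgroup.mem_zpowers i'))),
    _, hmem j' (hQ (Subgroup.mem_sup_right (Subgroup.mem_zpowers j'))), ?_, ?_, ?_⟩
  · show dt ((g : G2) * i * (g : G2)⁻¹) = 1
    rw [map_mul, map_mul, map_inv, hdi, mul_one, mul_inv_cancel]
  · show dt ((g : G2) * j * (g : G2)⁻¹) = 1
    rw [map_mul, map_mul, map_inv, hdj, mul_one, mul_inv_cancel]
  · intro e
    change (g : G2) * i * (g : G2)⁻¹ * ((g : G2) * j * (g : G2)⁻¹) =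
      (g : G2) * j * (g : G2)⁻¹ * ((g : G2) * i * (g : G2)⁻¹) at e
    have e' : i * j = j * i := by
      refine mul_left_cancel (a := (g : G2)) (mul_right_cancel (b := (g : G2)⁻¹) ?_)
      calc (g : G2) * (i * j) * (g : G2)⁻¹ = (g : G2) * i * (g : G2)⁻¹ * ((g : G2) * j * (g : G2)⁻¹) := by group
        _ = (g : G2) * j * (g : G2)⁻¹ * ((g : G2) * i * (g : G2)⁻¹) := e
        _ = (g : G2) * (j * i) * (g : G2)⁻¹ := by group
    rw [hji] at e'
    have h1 : i * i = 1 := by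
      rw [← inv_eq_iff_mul_eq_one]
      exact (mul_right_cancel e').symm
    rw [hii] at h1
    exact neg_one_ne_one h2 h1

theorem goodU_qd (hF : Fintype.card F = q ^ 2) (h2 : (2 : F) ≠ 0) (hq : q % 4 = 1) (hq1 : q ≠ 1)
    (P : Sylow 2 GU2) :
    GoodU (uGrp (frobQ hF)) ((P : Subgroup GU2).map (GU2).subtype) := by
  have := Fact.mk Nat.prime_two
  set W := (P : Subgroup GU2).map (GU2).subtype with hW
  have hqd : Cfsg.IsQuasiDihedral W := by
    obtain ⟨n, hn, hc, x, y, hx, hy, hxy⟩ := H49.GU_two_quasiDihedral hF P hq hq1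
    let e := Subgroup.equivMapOfInjective (P : Subgroup GU2) _ (GU2).subtype_injective
    refine ⟨n, hn, ?_, e x, e y, ?_, ?_, ?_⟩
    · rw [← hc]; exact (Nat.card_congr e.toEquiv).symm
    · rw [MulEquiv.orderOf_eq, hx]
    · rw [MulEquiv.orderOf_eq, hy]
    · rw [← map_inv, ← map_mul, ← map_mul, hxy, map_pow]
  obtain ⟨x, hx, y, hy, hxy, hx4, hgen, -⟩ := qd_data_of hqd
  have hU : ∀ g : G2, g ∈ uGrp (frobQ hF) ↔ g ∈ GU2 := fun g => mem_uGrp_iff_GU (frobQ_apply hF)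
  have hWp : IsPGroup 2 W := P.isPGroup'.map _
  have h2el : ∀ g : G2, g ∈ GU2 → g ∈ Subgroup.normalizer (W : Set G2) → (∃ k : ℕ, g ^ 2 ^ k = 1) → g ∈ W := by
    rintro g hg hn ⟨k, hk⟩
    refine ⟨⟨g, hg⟩, mem_sylow_of_normalizer P (k := k) (Subtype.ext hk) ?_, rfl⟩
    rw [Subgroup.mem_normalizer_iff]
    intro t
    have e1 : (t : G2) ∈ W ↔ t ∈ (P : Subgroup GU2) :=
      ⟨fun ⟨u, hu, h⟩ => (Subtype.ext h : u = t) ▸ hu, fun h => ⟨t, h, rfl⟩⟩
    have e2 : g * t * g⁻¹ ∈ W ↔ (⟨g, hg⟩ * t * ⟨g, hg⟩⁻¹ : GU2) ∈ (P : Subgroup GU2) :=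
      ⟨fun ⟨u, hu, h⟩ => (Subtype.ext h : u = ⟨g, hg⟩ * t * ⟨g, hg⟩⁻¹) ▸ hu, fun h => ⟨_, h, rfl⟩⟩
    rw [← e1, ← e2]
    exact Subgroup.mem_normalizer_iff.1 hn t
  refine ⟨hWp, ?_, fun g hgU hg => ?_, fun c hc hcU => ?_, fun z _ h => ?_, ?_⟩
  · rintro _ ⟨w, _, rfl⟩
    exact (hU _).2 w.2
  · obtain ⟨g2, u, rfl, hk, hodd, hg2, hu⟩ := exists_two_odd g
    obtain ⟨c, rfl⟩ := odd_normal_scalar hWp hx hx4 hgen hy hxy ((Subgroup.zpowers_le.2 hg) hu) hodd
    exact ⟨g2, h2el g2 ((hU _).1 ((Subgroup.zpowers_le.2 hgU) hg2)) ((Subgroup.zpowers_le.2 hg) hg2) hk, c, rfl⟩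
  · obtain ⟨k, hk⟩ := hc
    refine h2el _ ((hU _).1 hcU) ?_ ⟨k, by rw [← map_pow, hk, map_one]⟩
    rw [Subgroup.mem_normalizer_iff]
    intro x
    rw [scal_comm, mul_inv_cancel_right]
  · obtain ⟨i, hi, j, hj, hdi, hdj, hij⟩ := exists_pairU hF (Nat.odd_iff.2 (by omega)) h2 P
    exact scal_of_comm hij (h _ ⟨i, hi, rfl⟩ hdi) (h _ ⟨j, hj, rfl⟩ hdj)
  · obtain ⟨i, hi, j, -, hdi, -, hij⟩ := exists_pairU hF (Nat.odd_iff.2 (by omega)) h2 P
    exact ⟨_, ⟨i, hi, rfl⟩, hdi, fun h => hij (by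
      have h' : (i : G2) = 1 := h
      rw [h', one_mul, mul_one]), fun h => hij (by
      have h' : (i : G2) = -1 := h
      rw [h', neg_one_mul, mul_neg_one])⟩

/-- The scalars of 2-power order in the unitary group of degree one. -/
def muU (σ : F →+* F) : Subgroup (GL Unit F) := mu F ⊓ uGrp σ

theorem goodU_wr_mu (hF : Fintype.card F = q ^ 2) (h2 : (2 : F) ≠ 0) (hq : q % 4 = 3) :
    GoodU (uGrp (frobQ hF)) (wr (muU (frobQ hF))) := by
  set σ := frobQ hF with hσ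
  obtain ⟨ζ, hζ⟩ := Cfsg.Agent.H49.exists_orderOf_units (F := F) (d := 4) (by
    rw [hF, sq]
    obtain ⟨t, rfl⟩ : ∃ t, q = 4 * t + 3 := ⟨q / 4, by omega⟩
    rw [show (4 * t + 3) * (4 * t + 3) = 4 * ((2 * t + 1) * (2 * t + 2)) + 1 by ring, Nat.add_sub_cancel]
    exact Dvd.intro _ rfl)
  have hζ4 : ζ ^ 2 ^ 2 = 1 := by
    have := pow_orderOf_eq_one ζ
    rwa [hζ] at this
  have hζ2 : ζ ^ 2 ≠ 1 := pow_ne_one_of_lt_orderOf (by norm_num) (by omega)
  have hζU : (scal ζ : GL Unit F) ∈ uGrp σ := by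
    rw [scal_mem_uGrp, hσ, frobQ_apply, ← pow_succ', ← Units.val_pow_eq_pow_val]
    rw [show ζ ^ (q + 1) = 1 from orderOf_dvd_iff_pow_eq_one.1 (by rw [hζ]; omega)]
    rfl
  set a : GL Unit F := scal ζ with ha
  have haW : a ∈ muU σ := ⟨scal_mem_mu ⟨2, hζ4⟩, hζU⟩
  have hne : a⁻¹ ≠ a := by
    rw [ha, ← map_inv]
    exact fun h => hζ2 (by rw [sq, ← inv_eq_iff_mul_eq_one]; exact scal_injective h)
  have hneg : (-1 : GL Unit F) ∈ muU σ := by
    refine ⟨?_, neg_one_mem_uGrp⟩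
    rw [← scal_neg_one]; exact scal_mem_mu ⟨1, by simp⟩
  have hsw : dt (bd ((1 : GL Unit F), -1) * sw) = 1 := by
    refine Units.ext ?_
    show ((bd ((1 : GL Unit F), -1) * sw : GL (Unit ⊕ Unit) F) : Matrix (Unit ⊕ Unit) (Unit ⊕ Unit) F).det = 1
    rw [← Matrix.det_reindex_self eU, Matrix.det_fin_two]
    simp [eU, coe_bd, coe_sw, Units.val_mul, fromBlocks_multiply]
  refine ⟨isPGroup_wr (pGroup_mu.to_le inf_le_left), wr_le_uGrp inf_le_right, fun g hgU hg => ?_,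
    scal_mem_wr_uGrp fun c hc hcU => ⟨scal_mem_mu hc, hcU⟩, ?_, ?_⟩
  · exact coreRel h2 (fun a b h => bd_mem_uGrp.1 h) sw_mem_uGrp
      (fun g _ _ => ⟨1, one_mem _, by simpa using exists_scal_unit g⟩) le_rfl
      (bd_mem_wr (one_mem _) hneg) sw_mem_wr (A := (muU σ : Set (GL Unit F)))
      (fun a ha => ⟨bd_mem_wr ha (one_mem _), bd_mem_wr (one_mem _) ha⟩)
      (fun x _ _ => exists_scal_unit x)
      ⟨a, haW, fun h => hne (by rw [h, inv_one]), fun h => hne (by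
        rw [h]; exact inv_eq_of_mul_eq_one_right (by rw [neg_mul_neg, one_mul]))⟩
      (fun a ha => ⟨a, bd_mem_wr ha ha⟩) hgU hg
  · intro g hg hc
    have hi := hc _ (bd_mem_wr haW (inv_mem haW)) (by rw [dt_bd, map_inv, mul_inv_cancel])
    have hj := hc _ (mul_mem (bd_mem_wr (one_mem _) hneg) sw_mem_wr) hsw
    obtain ⟨x, -, y, -, rfl | rfl⟩ := hg
    · rw [← mul_assoc, bd_mul, mul_one, bd_sw_mul_bd, one_mul] at hj
      obtain ⟨rfl, -⟩ := bd_sw_inj hj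
      obtain ⟨c, rfl⟩ := exists_scal_unit x
      exact ⟨c, bd_scal c⟩
    · exfalso
      rw [bd_sw_mul_bd, ← mul_assoc, bd_mul] at hi
      obtain ⟨d, rfl⟩ := exists_scal_unit x
      have := (bd_sw_inj hi).1
      rw [← scal_comm] at this
      exact hne (mul_left_cancel this)
  · refine ⟨_, bd_mem_wr haW (inv_mem haW), by rw [dt_bd, map_inv, mul_inv_cancel], fun h => hne ?_,
      fun h => hne ?_⟩
    · rw [← bd_one] at h
      obtain ⟨h1, h1'⟩ := bd_inj h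
      rw [h1', h1]
    · have e : (-1 : GL (Unit ⊕ Unit) F) = bd ((-1 : GL Unit F), -1) := by rw [← neg_bd, bd_one, mul_one]
      rw [e] at h
      obtain ⟨h1, h1'⟩ := bd_inj h
      rw [h1', h1]

theorem exists_goodU (hF : Fintype.card F = q ^ 2) (hq : Odd q) :
    ∀ k : ℕ, ∃ W : Subgroup (GL (Fin (2 ^ (k + 1))) F), GoodU (uGrp (frobQ hF)) W := by
  have hq2 := H3.two_le_q hF
  have h2 : (2 : F) ≠ 0 := by
    refine Ring.two_ne_zero fun e => ?_
    have h := FiniteField.even_card_iff_char_two.1 e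
    obtain ⟨t, rfl⟩ := hq
    rw [hF, pow_two, Nat.mul_mod] at h
    simp at h
  intro k
  induction k with
  | zero =>
    rcases (show q % 4 = 1 ∨ q % 4 = 3 by obtain ⟨t, rfl⟩ := hq; omega) with h | h
    · obtain ⟨P⟩ : Nonempty (Sylow 2 GU2) := inferInstance
      exact ⟨_, goodU_qd hF h2 h (by omega) P⟩
    · exact ⟨_, (goodU_wr_mu hF h2 h).reix eU⟩
  | succ k ih =>
    obtain ⟨W, hW⟩ := ih
    have e : Fin (2 ^ (k + 1)) ⊕ Fin (2 ^ (k + 1)) ≃ Fin (2 ^ (k + 1 + 1)) :=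
      finSumFinEquiv.trans (finCongr (by ring))
    exact ⟨_, (hW.double h2 (by simp [Nat.even_pow])).reix e⟩

open Matrix.SpecialLinearGroup in
/-- From degree four on a Sylow 2-subgroup of the special unitary group is its own normaliser. -/
theorem su_selfnorm (hF : Fintype.card F = q ^ 2) (hq : Odd q) (k : ℕ) :
    ∃ S : Subgroup (Cfsg.SU (2 ^ (k + 2)) F q), IsPGroup 2 S ∧
      Subgroup.normalizer (S : Set (Cfsg.SU (2 ^ (k + 2)) F q)) = S := by
  obtain ⟨W, hW⟩ := exists_goodU hF hq k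
  have h2 : (2 : F) ≠ 0 := by
    refine Ring.two_ne_zero fun e => ?_
    have h := FiniteField.even_card_iff_char_two.1 e
    obtain ⟨t, rfl⟩ := hq
    rw [hF, pow_two, Nat.mul_mod] at h
    simp at h
  let e : Fin (2 ^ (k + 1)) ⊕ Fin (2 ^ (k + 1)) ≃ Fin (2 ^ (k + 2)) :=
    finSumFinEquiv.trans (finCongr (by ring))
  let f : Cfsg.SU (2 ^ (k + 2)) F q →* GL (Fin (2 ^ (k + 1)) ⊕ Fin (2 ^ (k + 1))) F :=
    ((reix e).symm.toMonoidHom.comp toGL).comp (Cfsg.SU (2 ^ (k + 2)) F q).subtype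
  have hf : Function.Injective f :=
    ((reix e).symm.injective.comp toGL_injective).comp Subtype.val_injective
  have hreix : ∀ g : Cfsg.SU (2 ^ (k + 2)) F q, reix e (f g) = toGL g.1 := fun g =>
    (reix e).apply_symm_apply _
  have hdt : ∀ g, dt (f g) = 1 := by
    intro g
    have h := dt_reix e (f g)
    rw [hreix] at h
    rw [← h]
    exact Units.ext g.1.2
  have hU : ∀ g, f g ∈ uGrp (frobQ hF) := by
    intro g
    rw [← reix_mem_uGrp e, hreix, mem_uGrp_iff_GU (frobQ_apply hF)]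
    exact g.2
  have hsurj : ∀ m, dt m = 1 → m ∈ uGrp (frobQ hF) → ∃ g, f g = m := by
    intro m hm hmU
    have hm' : ((reix e m : GL (Fin (2 ^ (k + 2))) F) :
        Matrix (Fin (2 ^ (k + 2))) (Fin (2 ^ (k + 2))) F).det = 1 :=
      congrArg Units.val ((dt_reix e m).trans hm)
    have hmem : toGL ⟨_, hm'⟩ ∈ uGrp (frobQ hF) := by
      rw [show toGL ⟨_, hm'⟩ = reix e m from Units.ext rfl]
      exact (reix_mem_uGrp e).2 hmU
    refine ⟨⟨⟨_, hm'⟩, (mem_uGrp_iff_GU (frobQ_apply hF)).1 hmem⟩, ?_⟩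
    show (reix e).symm (toGL _) = m
    rw [MulEquiv.symm_apply_eq]
    exact Units.ext rfl
  refine ⟨(wr W).comap f, (isPGroup_wr hW.pGroup).comap_of_injective f hf, le_antisymm ?_
    Subgroup.le_normalizer⟩
  intro g hg
  show f g ∈ wr W
  refine hW.special h2 (by simp [Nat.even_pow]) (d := k + 2) (by simp; ring) (hdt g) (hU g) ?_
  have hmap : ((wr W).comap f).map f = wr W ⊓ dt.ker := by
    ext m
    constructor
    · rintro ⟨g, hg, rfl⟩; exact ⟨hg, hdt g⟩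
    · rintro ⟨hm, hd⟩
      obtain ⟨g, rfl⟩ := hsurj m hd (wr_le_uGrp hW.le hm)
      exact ⟨g, hm, rfl⟩
  rw [← hmap]
  exact Subgroup.le_normalizer_map f ⟨g, hg, rfl⟩

end Base

end Cfsg.Agent.H68.Pro
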