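import Cfsg.Agent.H68.Pro.Even
import Cfsg.Agent.H68.Pro.Unitary
import Cfsg.Agent.H62.OddIndex

/-!
Unitary groups in characteristic two: overgroups of a Sylow 2-subgroup are normalised by its normaliser.
-/

set_option autoImplicit false
set_option linter.unusedSectionVars false

namespace Cfsg.Agent.H68.Pro.UEven

open Matrix Cfsg.Agent.H70 Cfsg.Agent.H70.AutPSL Cfsg.Agent.H68.Pro.Even

/-- Overgroups of a Sylow subgroup `U` are normalised by elements which normalise `U` and preserve the
`U`-orbits on the cosets of the normaliser of `U`. -/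
theorem normalizes_of_cells {G : Type*} [Group G] [Finite G] {p : ℕ} [Fact p.Prime] (P : Sylow p G)
    (T : Subgroup G) (hT : ∀ s ∈ T, ∀ t ∈ T, s * t = t * s)
    (_hTU : ∀ t ∈ T, t ∈ Subgroup.normalizer ((P : Subgroup G) : Set G))
    (hcell : ∀ g : G, ∀ t ∈ T, ∃ u ∈ (P : Subgroup G), ∃ b ∈ Subgroup.normalizer ((P : Subgroup G) : Set G),
      t * g = u * g * b)
    (hN : ∀ z ∈ Subgroup.normalizer ((P : Subgroup G) : Set G), ∃ u ∈ (P : Subgroup G), ∃ t ∈ T, z = u * t)
    {H : Subgroup G} (hH : (P : Subgroup G) ≤ H) :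
    Subgroup.normalizer ((P : Subgroup G) : Set G) ≤ Subgroup.normalizer (H : Set G) := by
  set O := Subgroup.closure {y : G | ∃ h ∈ H, ∃ x ∈ (P : Subgroup G), y = h * x * h⁻¹} with hO
  have hOH : O ≤ H := by
    rw [hO, Subgroup.closure_le]
    rintro _ ⟨h, hh, x, hx, rfl⟩
    exact H.mul_mem (H.mul_mem hh (hH hx)) (H.inv_mem hh)
  have hgen : ∀ h ∈ H, ∀ x ∈ (P : Subgroup G), h * x * h⁻¹ ∈ O := fun h hh x hx =>
    Subgroup.subset_closure ⟨h, hh, x, hx, rfl⟩
  have hOT : ∀ t ∈ T, ∀ o ∈ O, t * o * t⁻¹ ∈ O := by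
    intro t ht o ho
    suffices O ≤ O.comap (MulAut.conj t).toMonoidHom from this ho
    conv_lhs => rw [hO]
    rw [Subgroup.closure_le]
    rintro _ ⟨h, hh, x, hx, rfl⟩
    obtain ⟨u, hu, b, hb, e⟩ := hcell h t ht
    show t * (h * x * h⁻¹) * t⁻¹ ∈ O
    rw [show t * (h * x * h⁻¹) * t⁻¹ = (t * h) * x * (t * h)⁻¹ by group, e,
      show u * h * b * x * (u * h * b)⁻¹ = (u * h) * (b * x * b⁻¹) * (u * h)⁻¹ by group]
    exact hgen _ (H.mul_mem (hH hu) hh) _ ((Subgroup.mem_normalizer_iff.1 hb x).1 hx)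
  have hPO : (P : Subgroup G) ≤ O := fun x hx => by simpa using hgen 1 (one_mem H) x hx
  intro z hz
  obtain ⟨u, hu, t, ht, rfl⟩ := hN z hz
  refine mul_mem (Subgroup.le_normalizer (hH hu)) ?_
  have : Fintype G := Fintype.ofFinite G
  refine Subgroup.mem_normalizer_fintype fun h hh => ?_
  have hle : ((h • P : Sylow p G) : Subgroup G) ≤ O := by
    rw [Sylow.coe_subgroup_smul]
    rintro _ ⟨x, hx, rfl⟩
    exact hgen h hh x hx
  obtain ⟨o, ho⟩ := MulAction.exists_smul_eq O ((h • P).subtype hle) (P.subtype hPO)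
  rw [Sylow.smul_subtype] at ho
  have hfix : ((o : G) * h) • P = P := by
    rw [mul_smul]
    exact Sylow.subtype_injective ho
  obtain ⟨v, hv, s, hs, e⟩ := hN _ (Sylow.smul_eq_iff_mem_normalizer.1 hfix)
  have hsH : s ∈ H := by
    have : s = v⁻¹ * ((o : G) * h) := by rw [e]; group
    rw [this]
    exact H.mul_mem (H.inv_mem (hH hv)) (H.mul_mem (hOH o.2) hh)
  have hh' : h = (o : G)⁻¹ * v * s := by
    rw [mul_assoc, ← e]; group
  rw [hh', show t * ((o : G)⁻¹ * v * s) * t⁻¹ = (t * ((o : G)⁻¹ * v) * t⁻¹) * (t * s * t⁻¹) by group,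
    hT t ht s hs, mul_inv_cancel_right]
  exact H.mul_mem (hOH (hOT t ht _ (O.mul_mem (O.inv_mem o.2) (hPO hv)))) hsH

variable {F : Type*} [Field F] {n : ℕ} (σ : F →+* F)

local notation "Vn" => Fin n → F
local notation "Mn" => Matrix (Fin n) (Fin n) F
local notation "SLn" => Matrix.SpecialLinearGroup (Fin n) F

/-- The antidiagonal hermitian form. -/
def hJ (u v : Vn) : F := ∑ i, u i * σ (v i.rev)

theorem hJ_add_left (u u' v : Vn) : hJ σ (u + u') v = hJ σ u v + hJ σ u' v := by
  simp [hJ, add_mul, Finset.sum_add_distrib]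

theorem hJ_add_right (u v v' : Vn) : hJ σ u (v + v') = hJ σ u v + hJ σ u v' := by
  simp [hJ, mul_add, Finset.sum_add_distrib]

theorem hJ_smul_left (c : F) (u v : Vn) : hJ σ (c • u) v = c * hJ σ u v := by
  simp [hJ, Finset.mul_sum, mul_assoc]

theorem hJ_smul_right (c : F) (u v : Vn) : hJ σ u (c • v) = σ c * hJ σ u v := by
  simp [hJ, Finset.mul_sum, mul_left_comm]

theorem hJ_single_right (u : Vn) (i : Fin n) (c : F) : hJ σ u (Pi.single i c) = u i.rev * σ c := by
  rw [hJ, Finset.sum_eq_single i.rev]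
  · simp
  · intro j _ hj
    rw [Pi.single_eq_of_ne (fun h => hj (by rw [← h, Fin.rev_rev])), map_zero, mul_zero]
  · simp

theorem hJ_single_left (v : Vn) (i : Fin n) (c : F) : hJ σ (Pi.single i c) v = c * σ (v i.rev) := by
  rw [hJ, Finset.sum_eq_single i]
  · simp
  · intro j _ hj
    rw [Pi.single_eq_of_ne hj, zero_mul]
  · simp

theorem hJ_symm (hσ : ∀ x, σ (σ x) = x) (u v : Vn) : σ (hJ σ u v) = hJ σ v u := by
  rw [hJ, map_sum, ← Equiv.sum_comp Fin.revPerm]
  refine Finset.sum_congr rfl fun i _ => ?_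
  simp [hσ, mul_comm]

theorem hJ_single_single (i j : Fin n) : hJ σ (Pi.single i (1 : F)) (Pi.single j 1) = if i = j.rev then 1 else 0 := by
  rw [hJ_single_right, map_one, mul_one, Pi.single_apply]
  simp [eq_comm]

/-- The special unitary group of the antidiagonal form. -/
def JS : Subgroup SLn := Cfsg.preserving (Cfsg.slToMat n F) (hJ σ)

theorem mem_JS {g : SLn} : g ∈ JS σ ↔ ∀ u v, hJ σ ((g : Mn) *ᵥ u) ((g : Mn) *ᵥ v) = hJ σ u v := Iff.rfl

theorem JS_col {g : SLn} (hg : g ∈ JS σ) (i j : Fin n) :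
    hJ σ (fun l => (g : Mn) l i) (fun l => (g : Mn) l j) = if i = j.rev then 1 else 0 := by
  have := (mem_JS σ).1 hg (Pi.single i 1) (Pi.single j 1)
  rw [Matrix.mulVec_single_one, Matrix.mulVec_single_one, hJ_single_single] at this
  exact this

/-- The unitriangular elements. -/
def UJ [Finite F] : Subgroup (JS (n := n) σ) := (unitri n F).comap (JS σ).subtype

theorem mem_UJ [Finite F] {g : JS (n := n) σ} : g ∈ UJ σ ↔ StrictUpper (((g : SLn) : Mn) - 1) := Iff.rfl

/-- Forward substitution. -/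
theorem tri_solve {P : Fin n → Prop} (c : Fin n → Fin n → F) (X : Fin n → F)
    (hd : ∀ j, P j → c j j ≠ 0) (hz : ∀ l j, P j → c l j ≠ 0 → l ≤ j ∧ P l)
    (hs : ∀ j, P j → ∑ l, c l j * X l = 0) : ∀ j, P j → X j = 0 := by
  intro j
  induction j using WellFoundedLT.induction with
  | _ j ih =>
    intro hj
    have h := hs j hj
    rw [Finset.sum_eq_single j] at h
    · exact (mul_eq_zero.1 h).resolve_left (hd j hj)
    · intro l _ hl
      by_cases hc : c l j = 0
      · rw [hc, zero_mul]
      · obtain ⟨h1, h2⟩ := hz l j hj hc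
        rw [ih l (lt_of_le_of_ne h1 hl) h2, mul_zero]
    · simp

/-- The matrix of a root element. -/
noncomputable def rootM (p : Fin n) (z : Vn) : Mn :=
  LinearMap.toMatrix'
    { toFun := fun y => y + y p • z + (hJ σ y z + y p * σ (z p.rev)) • Pi.single p.rev 1
      map_add' := fun y w => by
        simp only [Pi.add_apply, hJ_add_left, add_smul, add_mul]; abel
      map_smul' := fun c y => by
        simp only [Pi.smul_apply, hJ_smul_left, smul_eq_mul, RingHom.id_apply, smul_add, smul_smul,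
          mul_add, mul_assoc] }

theorem rootM_mulVec (p : Fin n) (z y : Vn) :
    rootM σ p z *ᵥ y = y + y p • z + (hJ σ y z + y p * σ (z p.rev)) • Pi.single p.rev 1 := by
  rw [rootM, LinearMap.toMatrix'_mulVec]
  rfl

variable [CharP F 2]

/-- A root element moving a coordinate vector to an isotropic vector whose last entry is at `p`. -/
theorem exists_root [Finite F] (hσ : ∀ x, σ (σ x) = x) (hrev : ∀ i : Fin n, i.rev ≠ i) (p : Fin n)
    (v : Vn) (hvp : v p = 1) (hv : ∀ i, p < i → v i = 0) (hiso : hJ σ v v = 0) :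
    ∃ u : JS (n := n) σ, u ∈ UJ σ ∧ ((u : SLn) : Mn) *ᵥ Pi.single p 1 = v ∧
      ∀ i, i ≠ p → i.rev ≠ p → v i.rev = 0 → ((u : SLn) : Mn) *ᵥ Pi.single i 1 = Pi.single i 1 := by
  set z : Vn := v - Pi.single p 1 with hz
  have hzp : z p = 0 := by simp [hz, hvp]
  have hzi : ∀ i, i ≠ p → z i = v i := fun i hi => by simp [hz, hi]
  have hzbig : ∀ i, p ≤ i → z i = 0 := fun i hi => by
    rcases hi.lt_or_eq with h | h
    · rw [hzi i h.ne', hv i h]
    · rw [← h, hzp]
  set M := rootM σ p z with hM
  have hpp : p ≠ p.rev := (hrev p).symm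
  have hzz : z p.rev + σ (z p.rev) + hJ σ z z = 0 := by
    have e : v = Pi.single p 1 + z := by rw [hz, add_sub_cancel]
    rw [e, hJ_add_left, hJ_add_right, hJ_add_right, hJ_single_single, if_neg hpp, hJ_single_left,
      hJ_single_right, one_mul, map_one, mul_one, zero_add] at hiso
    linear_combination hiso
  have hentry : ∀ i j, M i j = (Pi.single j 1 : Vn) i + (Pi.single j 1 : Vn) p * z i +
      (σ (z j.rev) + (Pi.single j 1 : Vn) p * σ (z p.rev)) * (Pi.single p.rev 1 : Vn) i := by
    intro i j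
    have h := congrFun (rootM_mulVec σ p z (Pi.single j 1)) i
    rw [Matrix.mulVec_single_one, hJ_single_left, one_mul] at h
    simpa using h
  have hSU : StrictUpper (M - 1) := by
    intro i j hji
    have h1 : (Pi.single j 1 : Vn) i = (1 : Mn) i j := by rw [Matrix.one_apply, Pi.single_apply]
    rw [Matrix.sub_apply, hentry, h1, add_assoc, add_sub_cancel_left]
    by_cases hjp : j = p
    · subst hjp
      rw [Pi.single_eq_same, one_mul, one_mul, hzbig i hji, CharTwo.add_self_eq_zero, zero_mul, add_zero]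
    · rw [Pi.single_eq_of_ne (Ne.symm hjp), zero_mul, zero_mul, zero_add, add_zero]
      by_cases hi : i = p.rev
      · subst hi
        rw [hzbig j.rev (by rw [← Fin.rev_le_rev, Fin.rev_rev]; exact hji), map_zero, zero_mul]
      · rw [Pi.single_eq_of_ne hi, mul_zero]
  have hdet : M.det = 1 := by
    have htri : M.BlockTriangular id := fun a b (hab : b < a) => by
      have := hSU a b hab.le
      rwa [Matrix.sub_apply, Matrix.one_apply_ne hab.ne', sub_zero] at this
    rw [Matrix.det_of_isUpperTriangular htri]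
    refine Finset.prod_eq_one fun a _ => ?_
    have := hSU a a le_rfl
    rwa [Matrix.sub_apply, Matrix.one_apply_eq, sub_eq_zero] at this
  have hmem : (⟨M, hdet⟩ : SLn) ∈ JS σ := by
    refine (mem_JS σ).2 fun y w => ?_
    show hJ σ (M *ᵥ y) (M *ᵥ w) = _
    have hwz : σ (hJ σ w z) = hJ σ z w := hJ_symm σ hσ w z
    have e1 : ∀ u : Vn, hJ σ u (Pi.single p.rev 1) = u p := fun u => by
      rw [hJ_single_right, Fin.rev_rev, map_one, mul_one]
    have e2 : ∀ u : Vn, hJ σ (Pi.single p.rev 1) u = σ (u p) := fun u => by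
      rw [hJ_single_left, Fin.rev_rev, one_mul]
    rw [hM, rootM_mulVec, rootM_mulVec]
    simp only [hJ_add_left, hJ_add_right, hJ_smul_left, hJ_smul_right]
    simp only [e1, e2, map_add, map_mul, hwz, hσ, hzp, map_zero, Pi.single_eq_of_ne hpp, mul_zero, add_zero]
    have two : (2 : F) = 0 := CharTwo.two_eq_zero
    linear_combination (y p * σ (w p)) * hzz + (σ (w p) * hJ σ y z + y p * hJ σ z w) * two
  refine ⟨⟨⟨M, hdet⟩, hmem⟩, hSU, ?_, ?_⟩
  · show M *ᵥ Pi.single p 1 = v
    rw [hM, rootM_mulVec, hJ_single_left, Pi.single_eq_same, one_smul, one_mul,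
      CharTwo.add_self_eq_zero, zero_smul, add_zero, hz, add_sub_cancel]
  · intro i hip hirp hvi
    show M *ᵥ Pi.single i 1 = Pi.single i 1
    rw [hM, rootM_mulVec, hJ_single_left, Pi.single_eq_of_ne (Ne.symm hip), zero_smul, add_zero, one_mul,
      zero_mul, add_zero, hzi _ hirp, hvi, map_zero, zero_smul, add_zero]

/-- Monomial elements. -/
theorem perm_mem_JS {π : Equiv.Perm (Fin n)} (hπ : ∀ i, π i.rev = (π i).rev) :
    ∃ g : JS (n := n) σ, ((g : SLn) : Mn) = ((permGL π : GL (Fin n) F) : Mn) := by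
  have hdet : ((permGL π : GL (Fin n) F) : Mn).det = 1 := by
    have hP : ((permGL π : GL (Fin n) F) : Mn) = (π.symm.toPEquiv.toMatrix : Mn) := by
      ext i j
      rw [permGL_apply, PEquiv.toMatrix_apply]
      simp [Equiv.toPEquiv_apply, Equiv.symm_apply_eq]
    rw [hP]
    show (Equiv.Perm.permMatrix F π.symm).det = 1
    rw [Matrix.det_permutation]
    rcases Int.units_eq_one_or (Equiv.Perm.sign π.symm) with h | h <;> simp [h, CharTwo.neg_eq]
  have hv : ∀ (u : Vn) i, (((permGL π : GL (Fin n) F) : Mn) *ᵥ u) i = u (π.symm i) := by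
    intro u i
    rw [Matrix.mulVec, dotProduct, Finset.sum_eq_single (π.symm i)]
    · simp [permGL_apply]
    · intro j _ hj
      rw [permGL_apply, if_neg (fun h => hj (by rw [h, Equiv.symm_apply_apply])), zero_mul]
    · simp
  refine ⟨⟨⟨_, hdet⟩, fun u v => ?_⟩, rfl⟩
  show hJ σ (((permGL π : GL (Fin n) F) : Mn) *ᵥ u) (((permGL π : GL (Fin n) F) : Mn) *ᵥ v) = _
  simp only [hJ, hv]
  rw [← Equiv.sum_comp π]
  refine Finset.sum_congr rfl fun i _ => ?_
  rw [← hπ, Equiv.symm_apply_apply, Equiv.symm_apply_apply]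

set_option maxHeartbeats 1000000 in
/-- Elimination: every element is unitriangular times monomial times upper triangular. -/
theorem exists_cell [Finite F] (hσ : ∀ x, σ (σ x) = x) (hrev : ∀ i : Fin n, i.rev ≠ i) (g : JS (n := n) σ) :
    ∃ u ∈ UJ σ, ∃ (π : Equiv.Perm (Fin n)) (m b : JS (n := n) σ), (∀ i, π i.rev = (π i).rev) ∧
      ((m : SLn) : Mn) = ((permGL π : GL (Fin n) F) : Mn) ∧ ((b : SLn) : Mn).BlockTriangular id ∧
      g = u * m * b := by
  classical
  have hstep : ∀ k : ℕ, ∃ u ∈ UJ (n := n) σ, ∃ p : Fin n → Fin n, ∀ i : Fin n, i.val < k → i < i.rev →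
      (((u * g : JS (n := n) σ) : SLn) : Mn) (p i) i ≠ 0 ∧
      (∀ l, (((u * g : JS (n := n) σ) : SLn) : Mn) l i ≠ 0 → ∃ j, j ≤ i ∧ l = p j) ∧
      (∀ j, j < i → p j ≠ p i ∧ (p j).rev ≠ p i) := by
    intro k
    induction k with
    | zero => exact ⟨1, one_mem _, id, fun i hi => absurd hi (Nat.not_lt_zero _)⟩
    | succ k ih =>
      obtain ⟨u, hu, p, hp⟩ := ih
      by_cases hk : ∃ i : Fin n, i.val = k ∧ i < i.rev
      swap
      · refine ⟨u, hu, p, fun i hi hir => hp i ?_ hir⟩
        rcases Nat.lt_succ_iff_lt_or_eq.1 hi with h | h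
        · exact h
        · exact absurd ⟨i, h, hir⟩ hk
      obtain ⟨k', rfl, hkr⟩ := hk
      set g' := (((u * g : JS (n := n) σ) : SLn) : Mn) with hg'
      have hg'J := (u * g).2
      set P : Fin n → Prop := fun j => j < k' with hP
      have hhalf : ∀ j, P j → j < j.rev := fun j hj =>
        hj.trans (hkr.trans (Fin.rev_lt_rev.2 hj))
      have hpP : ∀ j, P j → g' (p j) j ≠ 0 ∧ (∀ l, g' l j ≠ 0 → ∃ i, i ≤ j ∧ l = p i) ∧
          (∀ i, i < j → p i ≠ p j ∧ (p i).rev ≠ p j) := fun j hj => hp j hj (hhalf j hj)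
      have hpinj : ∀ i j, P i → P j → p i = p j → i = j := by
        intro i j hi hj h
        rcases lt_trichotomy i j with hlt | heq | hgt
        · exact absurd h ((hpP j hj).2.2 i hlt).1
        · exact heq
        · exact absurd h.symm ((hpP i hi).2.2 j hgt).1
      have hprev : ∀ i j, P i → P j → (p i).rev ≠ p j := by
        intro i j hi hj h
        rcases lt_trichotomy i j with hlt | heq | hgt
        · exact ((hpP j hj).2.2 i hlt).2 h
        · subst heq; exact hrev _ h
        · exact ((hpP i hi).2.2 j hgt).2 (by rw [← h, Fin.rev_rev])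
      -- solving along the previous columns
      have solve : ∀ (w : Vn), (∀ j, P j → hJ σ w (fun l => g' l j) = 0) → ∀ j, P j → w (p j).rev = 0 := by
        intro w hw
        refine tri_solve (fun i j => if P i then σ (g' (p i) j) else 0) (fun j => w (p j).rev) ?_ ?_ ?_
        · intro j hj
          rw [if_pos hj]
          exact fun h0 => (hpP j hj).1 (by rw [← hσ (g' (p j) j), h0, map_zero])
        · intro l j hj hne
          by_cases hl : P l
          · rw [if_pos hl] at hne
            obtain ⟨i, hij, hli⟩ := (hpP j hj).2.1 (p l) (fun h0 => hne (by rw [h0, map_zero]))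
            have hi : P i := lt_of_le_of_lt hij hj
            exact ⟨(hpinj l i hl hi hli).trans_le hij, hl⟩
          · rw [if_neg hl] at hne; exact absurd rfl hne
        · intro j hj
          refine Eq.trans ?_ (hw j hj)
          rw [hJ]
          conv_rhs => rw [← Equiv.sum_comp Fin.revPerm]
          simp only [Fin.revPerm_apply, Fin.rev_rev]
          have hsub : ∀ l ∈ (Finset.univ : Finset (Fin n)), l ∉ (Finset.univ.filter P).image p →
              w l.rev * σ (g' l j) = 0 := by
            intro l _ hl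
            by_cases h0 : g' l j = 0
            · rw [h0, map_zero, mul_zero]
            · obtain ⟨i, hij, hli⟩ := (hpP j hj).2.1 l h0
              exact absurd (Finset.mem_image.2 ⟨i, Finset.mem_filter.2 ⟨Finset.mem_univ _, (lt_of_le_of_lt hij (show j < k' from hj) : i < k')⟩, hli.symm⟩) hl
          rw [← Finset.sum_subset (Finset.subset_univ _) hsub, Finset.sum_image (fun a ha b hb h =>
            hpinj a b (Finset.mem_filter.1 ha).2 (Finset.mem_filter.1 hb).2 h), Finset.sum_filter]
          refine Finset.sum_congr rfl fun i _ => ?_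
          split_ifs <;> simp [mul_comm]
      set v : Vn := fun l => g' l k' with hv
      have hjk : ∀ j, P j → k' ≠ j.rev := fun j hj h => by
        have h1 : k' < k'.rev := hkr
        have h2 : j < k' := hj
        have h3 : k'.rev = j := by rw [h, Fin.rev_rev]
        exact lt_irrefl _ (h2.trans (h1.trans_eq h3))
      have hvrev : ∀ j, P j → v (p j).rev = 0 := solve v fun j hj => by
        rw [hv, hg', JS_col σ hg'J, if_neg (hjk j hj)]
      set w : Vn := fun l => g' l k'.rev with hw
      have hwrev : ∀ j, P j → w (p j).rev = 0 := solve w fun j hj => by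
        rw [hw, hg', JS_col σ hg'J, if_neg]
        intro h
        have h2 : j < k' := hj
        exact h2.ne (Fin.rev_injective h).symm
      set v0 : Vn := fun l => if ∃ j, P j ∧ l = p j then 0 else v l with hv0
      have hv0rev : ∀ j, P j → v0 (p j).rev = 0 := fun j hj => by
        simp only [hv0, hvrev j hj, ite_self]
      have hiso : hJ σ v0 v0 = 0 := by
        have hvv : hJ σ v v = 0 := by rw [hv, hg', JS_col σ hg'J, if_neg hkr.ne]
        rw [← hvv, hJ, hJ]
        refine Finset.sum_congr rfl fun l _ => ?_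
        simp only [hv0]
        by_cases h1 : ∃ j, P j ∧ l = p j
        · obtain ⟨j, hj, rfl⟩ := h1
          rw [hvrev j hj]
          simp
        · rw [if_neg h1]
          by_cases h2 : ∃ j, P j ∧ l.rev = p j
          · obtain ⟨j, hj, e⟩ := h2
            have : v l = 0 := by rw [← Fin.rev_rev l, e]; exact hvrev j hj
            rw [this, zero_mul, zero_mul]
          · rw [if_neg h2]
      have hne : (Finset.univ.filter fun l => v0 l ≠ 0).Nonempty := by
        by_contra hcon
        simp only [Finset.not_nonempty_iff_eq_empty, Finset.filter_eq_empty_iff, Finset.mem_univ,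
          true_implies, ne_eq, not_not] at hcon
        have h1 : hJ σ v w = 1 := by rw [hv, hw, hg', JS_col σ hg'J, Fin.rev_rev, if_pos rfl]
        have h0 : hJ σ v w = 0 := by
          rw [hJ]
          refine Finset.sum_eq_zero fun l _ => ?_
          by_cases hl : ∃ j, P j ∧ l = p j
          · obtain ⟨j, hj, rfl⟩ := hl
            rw [hwrev j hj, map_zero, mul_zero]
          · have := @hcon l
            simp only [hv0, if_neg hl] at this
            rw [this, zero_mul]
        rw [h0] at h1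
        exact zero_ne_one h1
      set p0 := (Finset.univ.filter fun l => v0 l ≠ 0).max' hne with hp0
      have hv0p : v0 p0 ≠ 0 := (Finset.mem_filter.1 ((Finset.univ.filter fun l => v0 l ≠ 0).max'_mem hne)).2
      have hv0big : ∀ l, p0 < l → v0 l = 0 := fun l hl => by
        by_contra h
        exact absurd ((Finset.univ.filter fun l => v0 l ≠ 0).le_max' l
          (Finset.mem_filter.2 ⟨Finset.mem_univ _, h⟩)) (not_le.2 hl)
      have hp0ne : ∀ j, P j → p j ≠ p0 ∧ (p j).rev ≠ p0 := by
        intro j hj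
        refine ⟨fun h => hv0p ?_, fun h => hv0p (h ▸ hv0rev j hj)⟩
        have he : ∃ i, P i ∧ p0 = p i := ⟨j, hj, h.symm⟩
        simp only [hv0, if_pos he]
      obtain ⟨r, hr, hrp, hrfix⟩ := exists_root σ hσ hrev p0 ((v0 p0)⁻¹ • v0) (by simp [hv0p])
        (fun l hl => by simp [hv0big l hl]) (by rw [hJ_smul_left, hJ_smul_right, hiso, mul_zero, mul_zero])
      have hfixp : ∀ j, P j → ((r : SLn) : Mn) *ᵥ Pi.single (p j) 1 = Pi.single (p j) 1 := fun j hj =>
        hrfix (p j) (hp0ne j hj).1 (hp0ne j hj).2 (by simp [hv0rev j hj])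
      set R := ((r⁻¹ : JS (n := n) σ) : SLn) with hR
      have hRr : ∀ x : Vn, (R : Mn) *ᵥ (((r : SLn) : Mn) *ᵥ x) = x := fun x => by
        rw [Matrix.mulVec_mulVec, ← Matrix.SpecialLinearGroup.coe_mul, hR, ← Subgroup.coe_mul,
          inv_mul_cancel, OneMemClass.coe_one, Matrix.SpecialLinearGroup.coe_one, Matrix.one_mulVec]
      set p' := Function.update p k' p0 with hp'
      have hp'P : ∀ j, P j → p' j = p j := fun j hj => by rw [hp', Function.update_of_ne (ne_of_lt hj)]
      have hRp : ∀ j, P j → (R : Mn) *ᵥ Pi.single (p j) 1 = Pi.single (p j) 1 := fun j hj => by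
        conv_lhs => rw [← hfixp j hj]
        rw [hRr]
      have hRv0 : (R : Mn) *ᵥ v0 = Pi.single p0 (v0 p0) := by
        have : v0 = ((r : SLn) : Mn) *ᵥ Pi.single p0 (v0 p0) := by
          rw [show (Pi.single p0 (v0 p0) : Vn) = v0 p0 • Pi.single p0 1 by
            rw [← Pi.single_smul, smul_eq_mul, mul_one], Matrix.mulVec_smul, hrp, smul_smul,
            mul_inv_cancel₀ hv0p, one_smul]
        conv_lhs => rw [this]
        rw [hRr]
      have hcol : ∀ (x : Vn), (∀ l, x l ≠ 0 → ∃ j, P j ∧ l = p j) → (R : Mn) *ᵥ x = x := by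
        intro x hx
        conv_lhs => rw [pi_eq_sum_univ x]
        rw [Matrix.mulVec_sum]
        conv_rhs => rw [pi_eq_sum_univ x]
        refine Finset.sum_congr rfl fun l _ => ?_
        have hsl : (fun j => if l = j then (1 : F) else 0) = Pi.single l 1 := by
          funext j; rw [Pi.single_apply]; simp [eq_comm]
        rw [hsl, Matrix.mulVec_smul]
        by_cases h0 : x l = 0
        · simp [h0]
        · obtain ⟨j, hj, rfl⟩ := hx l h0
          rw [hRp j hj]
      refine ⟨r⁻¹ * u, mul_mem (inv_mem hr) hu, p', fun i hi hir => ?_⟩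
      have hG : (((r⁻¹ * u * g : JS (n := n) σ) : SLn) : Mn) = (R : Mn) * g' := by
        rw [mul_assoc, Subgroup.coe_mul, Matrix.SpecialLinearGroup.coe_mul]
      have hGcol : ∀ l, (((r⁻¹ * u * g : JS (n := n) σ) : SLn) : Mn) l i = ((R : Mn) *ᵥ fun l => g' l i) l := by
        intro l
        rw [hG, Matrix.mul_apply]
        rfl
      rcases Nat.lt_succ_iff_lt_or_eq.1 hi with hlt | heq
      · have hPi : P i := hlt
        obtain ⟨h1, h2, h3⟩ := hpP i hPi
        have hfix : (R : Mn) *ᵥ (fun l => g' l i) = fun l => g' l i := hcol _ fun l hl => by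
          obtain ⟨j, hj, e⟩ := h2 l hl
          exact ⟨j, lt_of_le_of_lt hj hPi, e⟩
        refine ⟨?_, fun l hl => ?_, fun j hj => ?_⟩
        · rw [hGcol, hfix, hp'P i hPi]; exact h1
        · rw [hGcol, hfix] at hl
          obtain ⟨j, hj, e⟩ := h2 l hl
          exact ⟨j, hj, by rw [hp'P j (lt_of_le_of_lt hj hPi)]; exact e⟩
        · rw [hp'P j (hj.trans hPi), hp'P i hPi]
          exact h3 j hj
      · obtain rfl : i = k' := Fin.ext heq
        have hpk : p' i = p0 := by rw [hp', Function.update_self]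
        have hdec : (fun l => g' l i) = (v - v0) + v0 := by rw [sub_add_cancel]
        have himg : (R : Mn) *ᵥ (fun l => g' l i) = (v - v0) + Pi.single p0 (v0 p0) := by
          rw [hdec, Matrix.mulVec_add, hRv0, hcol _ fun l hl => ?_]
          by_contra hc
          apply hl
          simp only [Pi.sub_apply, hv0, if_neg hc, sub_self]
        refine ⟨?_, fun l hl => ?_, fun j hj => ?_⟩
        · rw [hGcol, himg, hpk, Pi.add_apply, Pi.single_eq_same, Pi.sub_apply]
          have hv0eq : v p0 = v0 p0 := by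
            have hno : ¬ ∃ j, P j ∧ p0 = p j := fun ⟨j, hj, e⟩ => (hp0ne j hj).1 e.symm
            simp only [hv0, if_neg hno]
          rw [hv0eq, sub_self, zero_add]
          exact hv0p
        · rw [hGcol, himg, Pi.add_apply, Pi.sub_apply] at hl
          by_cases hl0 : l = p0
          · exact ⟨i, le_rfl, by rw [hpk, hl0]⟩
          · rw [Pi.single_eq_of_ne hl0, add_zero] at hl
            by_cases hex : ∃ j, P j ∧ l = p j
            · obtain ⟨j, hj, e⟩ := hex
              exact ⟨j, le_of_lt hj, by rw [hp'P j hj]; exact e⟩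
            · exfalso
              apply hl
              simp only [hv0, if_neg hex, sub_self]
        · rw [hp'P j hj, hpk]
          exact hp0ne j hj
  obtain ⟨u, hu, p, hp⟩ := hstep n
  let f : Fin n → Fin n := fun i => if i < i.rev then p i else (p i.rev).rev
  have hhalf : ∀ i : Fin n, ¬ i < i.rev → i.rev < i.rev.rev := fun i hi => by
    rw [Fin.rev_rev]
    exact lt_of_le_of_ne (not_lt.1 hi) (hrev i)
  have hpne : ∀ i j : Fin n, i < i.rev → j < j.rev → (p i).rev ≠ p j := by
    intro i j hi hj h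
    rcases lt_trichotomy i j with hlt | heq | hgt
    · exact ((hp j j.isLt hj).2.2 i hlt).2 h
    · subst heq; exact hrev _ h
    · exact ((hp i i.isLt hi).2.2 j hgt).2 (by rw [← h, Fin.rev_rev])
  have hpinj : ∀ i j : Fin n, i < i.rev → j < j.rev → p i = p j → i = j := by
    intro i j hi hj h
    rcases lt_trichotomy i j with hlt | heq | hgt
    · exact absurd h ((hp j j.isLt hj).2.2 i hlt).1
    · exact heq
    · exact absurd h.symm ((hp i i.isLt hi).2.2 j hgt).1
  have hf : Function.Injective f := by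
    intro i j h
    simp only [f] at h
    by_cases hi : i < i.rev <;> by_cases hj : j < j.rev
    · rw [if_pos hi, if_pos hj] at h; exact hpinj i j hi hj h
    · rw [if_pos hi, if_neg hj] at h; exact absurd h.symm (hpne _ _ (hhalf j hj) hi)
    · rw [if_neg hi, if_pos hj] at h; exact absurd h (hpne _ _ (hhalf i hi) hj)
    · rw [if_neg hi, if_neg hj] at h
      exact Fin.rev_injective (hpinj _ _ (hhalf i hi) (hhalf j hj) (Fin.rev_injective h))
  let π : Equiv.Perm (Fin n) := Equiv.ofBijective f (Finite.injective_iff_bijective.1 hf)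
  have hπ : ∀ i, π i.rev = (π i).rev := by
    intro i
    show f i.rev = (f i).rev
    simp only [f, Fin.rev_rev]
    by_cases hi : i < i.rev
    · rw [if_pos hi, if_neg (not_lt.2 hi.le)]
    · have h' := hhalf i hi
      rw [Fin.rev_rev] at h'
      rw [if_neg hi, if_pos h', Fin.rev_rev]
  obtain ⟨m, hm⟩ := perm_mem_JS σ hπ
  set b := m⁻¹ * (u * g) with hb
  refine ⟨u⁻¹, inv_mem hu, π, m, b, hπ, hm, ?_, by rw [hb, mul_assoc, mul_inv_cancel_left, inv_mul_cancel_left]⟩
  set Bm := ((b : SLn) : Mn) with hBm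
  set g' := (((u * g : JS (n := n) σ) : SLn) : Mn) with hg'
  have hrow : ∀ l i, Bm l i = g' (π l) i := by
    intro l i
    have e : g' = ((m : SLn) : Mn) * Bm := by
      rw [hBm, ← Matrix.SpecialLinearGroup.coe_mul, ← Subgroup.coe_mul, hb, mul_inv_cancel_left]
    rw [e, hm, Matrix.mul_apply, Finset.sum_eq_single l]
    · simp [permGL_apply]
    · intro j _ hj
      rw [permGL_apply, if_neg (fun h => hj (π.injective h).symm), zero_mul]
    · simp
  have hfirst : ∀ l i : Fin n, i < i.rev → Bm l i ≠ 0 → l ≤ i ∧ l < l.rev := by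
    intro l i hi hne
    rw [hrow] at hne
    obtain ⟨j, hj, e⟩ := (hp i i.isLt hi).2.1 (π l) hne
    have hjh : j < j.rev := lt_of_le_of_lt hj (hi.trans_le (Fin.rev_le_rev.2 hj))
    have hπj : π j = p j := if_pos hjh
    have : l = j := π.injective (e.trans hπj.symm)
    subst this
    exact ⟨hj, hjh⟩
  intro l i (hli : i < l)
  by_contra hne
  by_cases hi : i < i.rev
  · exact absurd (hfirst l i hi hne).1 (not_le.2 hli)
  · have hsol := tri_solve (P := fun j => j < i.rev) (fun a j => σ (Bm a j)) (fun a => Bm a.rev i) ?_ ?_ ?_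
    · have := hsol l.rev (Fin.rev_lt_rev.2 hli)
      rw [Fin.rev_rev] at this
      exact hne this
    · intro j hj h0
      have hjh : j < j.rev :=
        hj.trans ((lt_of_le_of_ne (not_lt.1 hi) (hrev i)).trans (by rw [← Fin.rev_lt_rev, Fin.rev_rev]; exact hj))
      have h1 := (hp j j.isLt hjh).1
      rw [← show π j = p j from if_pos hjh, ← hrow] at h1
      exact h1 (by rw [← hσ (Bm j j), h0, map_zero])
    · intro a j hj h0
      have hjh : j < j.rev :=
        hj.trans ((lt_of_le_of_ne (not_lt.1 hi) (hrev i)).trans (by rw [← Fin.rev_lt_rev, Fin.rev_rev]; exact hj))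
      obtain ⟨ha, -⟩ := hfirst a j hjh fun h => h0 (by rw [h, map_zero])
      exact ⟨ha, lt_of_le_of_lt ha hj⟩
    · intro j hj
      have h := JS_col σ b.2 i j
      rw [if_neg (fun e => by rw [e, Fin.rev_rev] at hj; exact lt_irrefl _ hj), hJ,
        ← Equiv.sum_comp Fin.revPerm] at h
      refine Eq.trans (Finset.sum_congr rfl fun a _ => ?_) h
      simp [hBm, mul_comm]

variable [Finite F]

/-- Diagonal elements. -/
def TJ : Subgroup (JS (n := n) σ) where
  carrier := {t | ∀ i j, i ≠ j → ((t : SLn) : Mn) i j = 0}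
  one_mem' i j h := by simp [Matrix.one_apply_ne h]
  mul_mem' {s t} hs ht i j h := by
    rw [Subgroup.coe_mul, Matrix.SpecialLinearGroup.coe_mul, Matrix.mul_apply]
    refine Finset.sum_eq_zero fun l _ => ?_
    by_cases hl : i = l
    · subst hl; rw [ht i j h, mul_zero]
    · rw [hs i l hl, zero_mul]
  inv_mem' {t} ht i j h := by
    have hd : ((t : SLn) : Mn) = Matrix.diagonal fun a => ((t : SLn) : Mn) a a := by
      ext a b
      by_cases hab : a = b
      · subst hab; simp
      · rw [ht a b hab, Matrix.diagonal_apply_ne _ hab]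
    rw [Subgroup.coe_inv, Matrix.SpecialLinearGroup.coe_inv, hd, Matrix.adjugate_diagonal,
      Matrix.diagonal_apply_ne _ h]

theorem tri_decomp (b : JS (n := n) σ) (hb : ((b : SLn) : Mn).BlockTriangular id) :
    ∃ t ∈ TJ σ, ∃ v ∈ UJ σ, b = v * t := by
  set B := ((b : SLn) : Mn) with hB
  have hb0 : ∀ x y : Fin n, y < x → B x y = 0 := fun x y h => hb h
  have hd : ∀ i, B i i * σ (B i.rev i.rev) = 1 := by
    intro i
    have h := JS_col σ b.2 i i.rev
    rw [Fin.rev_rev, if_pos rfl, hJ, Finset.sum_eq_single i] at h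
    · exact h
    · intro l _ hl
      rcases lt_or_gt_of_ne hl with hlt | hgt
      · have h0 : ((b : SLn) : Mn) l.rev i.rev = 0 := hb0 _ _ (Fin.rev_lt_rev.2 hlt)
        rw [show σ (((b : SLn) : Mn) l.rev i.rev) = 0 by rw [h0, map_zero], mul_zero]
      · have h0 : ((b : SLn) : Mn) l i = 0 := hb0 _ _ hgt
        rw [h0, zero_mul]
    · simp
  have hdet : ∏ i, B i i = 1 := by
    rw [← Matrix.det_of_isUpperTriangular hb]
    exact b.1.2
  let t0 : SLn := ⟨Matrix.diagonal fun i => B i i, by rw [Matrix.det_diagonal, hdet]⟩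
  have ht0 : t0 ∈ JS σ := by
    rw [mem_JS]
    intro u v
    refine Finset.sum_congr rfl fun i _ => ?_
    show (Matrix.diagonal (fun i => B i i) *ᵥ u) i * σ ((Matrix.diagonal (fun i => B i i) *ᵥ v) i.rev) = _
    rw [Matrix.mulVec_diagonal, Matrix.mulVec_diagonal, map_mul]
    linear_combination (u i * σ (v i.rev)) * hd i
  refine ⟨⟨t0, ht0⟩, fun i j h => Matrix.diagonal_apply_ne _ h, b * ⟨t0, ht0⟩⁻¹, ?_, by group⟩
  rw [mem_UJ]
  intro i j hij
  rw [Subgroup.coe_mul, Subgroup.coe_inv, Matrix.SpecialLinearGroup.coe_mul, Matrix.SpecialLinearGroup.coe_inv,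
    Matrix.adjugate_diagonal, Matrix.sub_apply, Matrix.mul_diagonal]
  rcases hij.lt_or_eq with h | rfl
  · rw [show ((b : SLn) : Mn) i j = 0 from hb h, zero_mul, Matrix.one_apply_ne h.ne', sub_zero]
  · rw [Finset.mul_prod_erase _ (fun a => B a a) (Finset.mem_univ j), hdet, Matrix.one_apply_eq, sub_self]

theorem TJ_le_normalizer : (TJ (n := n) σ) ≤ Subgroup.normalizer ((UJ (n := n) σ) : Set (JS (n := n) σ)) := by
  intro t ht
  have : Fintype F := Fintype.ofFinite F
  refine Subgroup.mem_normalizer_fintype fun u hu => ?_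
  have hd : ((t : SLn) : Mn) = Matrix.diagonal fun a => ((t : SLn) : Mn) a a := by
    ext a b
    by_cases hab : a = b
    · subst hab; simp
    · rw [ht a b hab, Matrix.diagonal_apply_ne _ hab]
  have hti : ((t : SLn) : Mn) * (((t⁻¹ : JS (n := n) σ) : SLn) : Mn) = 1 := by
    rw [← Matrix.SpecialLinearGroup.coe_mul, ← Subgroup.coe_mul, mul_inv_cancel, OneMemClass.coe_one,
      Matrix.SpecialLinearGroup.coe_one]
  have hinvd : ∀ a b, a ≠ b → (((t⁻¹ : JS (n := n) σ) : SLn) : Mn) a b = 0 := (TJ σ).inv_mem ht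
  intro i j hij
  have e : (((t * u * t⁻¹ : JS (n := n) σ) : SLn) : Mn) - 1 =
      ((t : SLn) : Mn) * (((u : SLn) : Mn) - 1) * (((t⁻¹ : JS (n := n) σ) : SLn) : Mn) := by
    rw [mul_sub, mul_one, sub_mul, hti]
    rfl
  show ((((t * u * t⁻¹ : JS (n := n) σ) : SLn) : Mn) - 1) i j = 0
  rw [e, Matrix.mul_apply, Finset.sum_eq_single j (fun l _ hl => by rw [hinvd l j hl, mul_zero]) (by simp),
    hd, Matrix.diagonal_mul, (mem_UJ σ).1 hu i j hij, mul_zero, zero_mul]

theorem upper_normalizes {b : JS (n := n) σ} (hb : ((b : SLn) : Mn).BlockTriangular id) :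
    b ∈ Subgroup.normalizer ((UJ (n := n) σ) : Set (JS (n := n) σ)) := by
  obtain ⟨t, ht, v, hv, rfl⟩ := tri_decomp σ b hb
  exact mul_mem (Subgroup.le_normalizer hv) (TJ_le_normalizer σ ht)

/-- The normaliser of the unitriangular group. -/
theorem normalizer_UJ (hσ : ∀ x, σ (σ x) = x) (hrev : ∀ i : Fin n, i.rev ≠ i) {z : JS (n := n) σ}
    (hz : z ∈ Subgroup.normalizer ((UJ (n := n) σ) : Set (JS (n := n) σ))) :
    ∃ v ∈ UJ σ, ∃ t ∈ TJ σ, z = v * t := by
  obtain ⟨u, hu, π, m, b, -, hm, hb, rfl⟩ := exists_cell σ hσ hrev z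
  have hmn : m ∈ Subgroup.normalizer ((UJ (n := n) σ) : Set (JS (n := n) σ)) := by
    have := mul_mem (mul_mem (inv_mem (Subgroup.le_normalizer hu)) hz) (inv_mem (upper_normalizes σ hb))
    rwa [mul_assoc u, inv_mul_cancel_left, mul_inv_cancel_right] at this
  have hmono : StrictMono π := by
    intro i j hij
    obtain ⟨x, hx, hxj, -⟩ := exists_root σ hσ hrev j (Pi.single j 1 + Pi.single i 1)
      (by simp [Pi.single_eq_of_ne hij.ne'])
      (fun l hl => by simp [Pi.single_eq_of_ne hl.ne', Pi.single_eq_of_ne (hij.trans hl).ne'])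
      (by
        rw [hJ_add_left, hJ_add_right, hJ_add_right, hJ_single_single, hJ_single_single, hJ_single_single,
          hJ_single_single, if_neg (hrev j).symm, if_neg (hrev i).symm]
        by_cases h : i = j.rev
        · subst h; simp [CharTwo.add_self_eq_zero]
        · have : ¬ j = i.rev := fun e => h (by rw [e, Fin.rev_rev])
          simp [h, this])
    have h1 := (mem_UJ σ).1 ((Subgroup.mem_normalizer_iff.1 hmn x).1 hx) (π i) (π j)
    have hxij : ((x : SLn) : Mn) i j = 1 := by
      have := congrFun hxj i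
      rwa [Matrix.mulVec_single_one, Matrix.col_apply, Pi.add_apply, Pi.single_eq_of_ne hij.ne, zero_add,
        Pi.single_eq_same] at this
    by_contra hcon
    have h2 := h1 (not_lt.1 hcon)
    rw [Matrix.sub_apply, Matrix.one_apply_ne (π.injective.ne hij.ne), sub_zero] at h2
    have e : (((m * x * m⁻¹ : JS (n := n) σ) : SLn) : Mn) * ((m : SLn) : Mn) = ((m : SLn) : Mn) * ((x : SLn) : Mn) := by
      rw [← Matrix.SpecialLinearGroup.coe_mul, ← Matrix.SpecialLinearGroup.coe_mul, ← Subgroup.coe_mul,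
        ← Subgroup.coe_mul, inv_mul_cancel_right]
    have e' := congrFun (congrFun e (π i)) j
    rw [Matrix.mul_apply, Matrix.mul_apply, hm,
      Finset.sum_eq_single (π j) (fun l _ hl => by rw [permGL_apply, if_neg hl, mul_zero]) (by simp),
      Finset.sum_eq_single i (fun l _ hl => by
        rw [permGL_apply, if_neg (fun h => hl (π.injective h).symm), zero_mul]) (by simp),
      h2, zero_mul, permGL_apply, if_pos rfl, one_mul, hxij] at e'
    exact zero_ne_one e'
  have hπ1 : π = 1 := Equiv.ext fun x => congrFun ((hmono.range_inj strictMono_id).1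
    (by simp [π.surjective.range_eq])) x
  have hm1 : m = 1 := Subtype.ext (Subtype.ext (by rw [hm, hπ1, map_one]; rfl))
  obtain ⟨t, ht, v, hv, rfl⟩ := tri_decomp σ b hb
  exact ⟨u * v, mul_mem hu hv, t, ht, by rw [hm1, mul_one, mul_assoc]⟩

theorem exists_sylow_UJ (hσ : ∀ x, σ (σ x) = x) (hrev : ∀ i : Fin n, i.rev ≠ i) :
    ∃ P : Sylow 2 (JS (n := n) σ), (P : Subgroup (JS (n := n) σ)) = UJ σ := by
  refine exists_sylow_eq (pGroup_unitri.comap_of_injective _ Subtype.val_injective) fun z hz ⟨k, hk⟩ => ?_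
  obtain ⟨v, hv, t, ht, rfl⟩ := normalizer_UJ σ hσ hrev hz
  refine mul_mem hv ?_
  have hd : ∀ (N : ℕ) (a : Fin n), ∀ w ∈ UJ σ,
      ((((w * t) ^ N : JS (n := n) σ) : SLn) : Mn).BlockTriangular id ∧
        ((((w * t) ^ N : JS (n := n) σ) : SLn) : Mn) a a = ((t : SLn) : Mn) a a ^ N := by
    intro N a w hw
    have hwt : (((w * t : JS (n := n) σ) : SLn) : Mn).BlockTriangular id ∧
        (((w * t : JS (n := n) σ) : SLn) : Mn) a a = ((t : SLn) : Mn) a a := by
      have hent : ∀ x y, (((w * t : JS (n := n) σ) : SLn) : Mn) x y =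
          ((w : SLn) : Mn) x y * ((t : SLn) : Mn) y y := fun x y => by
        rw [Subgroup.coe_mul, Matrix.SpecialLinearGroup.coe_mul, Matrix.mul_apply,
          Finset.sum_eq_single y (fun l _ hl => by rw [ht l y hl, mul_zero]) (by simp)]
      refine ⟨fun x y (hxy : y < x) => ?_, ?_⟩
      · have := (mem_UJ σ).1 hw x y hxy.le
        rw [Matrix.sub_apply, Matrix.one_apply_ne hxy.ne', sub_zero] at this
        rw [hent, this, zero_mul]
      · have := (mem_UJ σ).1 hw a a le_rfl
        rw [Matrix.sub_apply, Matrix.one_apply_eq, sub_eq_zero] at this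
        rw [hent, this, one_mul]
    induction N with
    | zero => exact ⟨by rw [pow_zero]; exact Matrix.blockTriangular_one, by simp⟩
    | succ N ih =>
      rw [pow_succ, Subgroup.coe_mul, Matrix.SpecialLinearGroup.coe_mul]
      refine ⟨ih.1.mul hwt.1, ?_⟩
      rw [Matrix.mul_apply, Finset.sum_eq_single a]
      · rw [ih.2, hwt.2, pow_succ]
      · intro l _ hl
        rcases lt_or_gt_of_ne hl with h | h
        · rw [ih.1 h, zero_mul]
        · rw [hwt.1 h, mul_zero]
      · simp
  rw [mem_UJ]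
  intro i j hij
  rw [Matrix.sub_apply]
  rcases hij.lt_or_eq with h | rfl
  · rw [ht i j h.ne', Matrix.one_apply_ne h.ne', sub_zero]
  · have h1 := (hd (2 ^ k) j v hv).2
    rw [hk, OneMemClass.coe_one, Matrix.SpecialLinearGroup.coe_one, Matrix.one_apply_eq] at h1
    have : Fact (Nat.Prime 2) := ⟨Nat.prime_two⟩
    rw [eq_one_of_pow_char_pow (p := 2) h1.symm, Matrix.one_apply_eq, sub_self]

/-- Overgroups of the unitriangular group are normalised by its normaliser. -/
theorem normalizer_le (hσ : ∀ x, σ (σ x) = x) (hrev : ∀ i : Fin n, i.rev ≠ i) {H : Subgroup (JS (n := n) σ)}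
    (hH : UJ σ ≤ H) :
    Subgroup.normalizer ((UJ (n := n) σ) : Set (JS (n := n) σ)) ≤ Subgroup.normalizer (H : Set (JS (n := n) σ)) := by
  have : Fact (Nat.Prime 2) := ⟨Nat.prime_two⟩
  obtain ⟨P, hP⟩ := exists_sylow_UJ σ hσ hrev
  rw [← hP] at hH ⊢
  refine normalizes_of_cells P (TJ σ) ?_ (fun t ht => by rw [hP]; exact TJ_le_normalizer σ ht) ?_
    (fun z hz => by rw [hP] at hz ⊢; exact normalizer_UJ σ hσ hrev hz) hH
  · intro s hs t ht
    refine Subtype.ext (Subtype.ext ?_)
    rw [Subgroup.coe_mul, Subgroup.coe_mul, Matrix.SpecialLinearGroup.coe_mul, Matrix.SpecialLinearGroup.coe_mul]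
    ext i j
    rw [Matrix.mul_apply, Matrix.mul_apply]
    refine Finset.sum_congr rfl fun l _ => ?_
    by_cases hil : i = l
    · subst hil
      by_cases hij : i = j
      · subst hij; rw [mul_comm]
      · rw [hs i j hij, ht i j hij, mul_zero, mul_zero]
    · rw [hs i l hil, ht i l hil, zero_mul, zero_mul]
  · intro g t ht
    obtain ⟨u, hu, π, m, b, -, hm, hb, rfl⟩ := exists_cell σ hσ hrev g
    rw [hP]
    refine ⟨t * u * t⁻¹ * u⁻¹, mul_mem ((Subgroup.mem_normalizer_iff.1 (TJ_le_normalizer σ ht) u).1 hu) (inv_mem hu),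
      b⁻¹ * (m⁻¹ * t * m) * b, ?_, by group⟩
    have htb : (((m⁻¹ * t * m : JS (n := n) σ) : SLn) : Mn).BlockTriangular id := by
      intro x y (hxy : y < x)
      have e : ((m : SLn) : Mn) * (((m⁻¹ * t * m : JS (n := n) σ) : SLn) : Mn) =
          ((t : SLn) : Mn) * ((m : SLn) : Mn) := by
        rw [← Matrix.SpecialLinearGroup.coe_mul, ← Matrix.SpecialLinearGroup.coe_mul, ← Subgroup.coe_mul,
          ← Subgroup.coe_mul, show m * (m⁻¹ * t * m) = t * m by group]
      have e' := congrFun (congrFun e (π x)) y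
      rw [Matrix.mul_apply, Matrix.mul_apply, hm,
        Finset.sum_eq_single x (fun l _ hl => by
          rw [permGL_apply, if_neg (fun h => hl (π.injective h).symm), zero_mul]) (by simp),
        Finset.sum_eq_single (π y) (fun l _ hl => by rw [permGL_apply, if_neg hl, mul_zero]) (by simp),
        permGL_apply, if_pos rfl, one_mul, ht _ _ (π.injective.ne hxy.ne'), zero_mul] at e'
      exact e'
    exact mul_mem (mul_mem (inv_mem (upper_normalizes σ hb)) (upper_normalizes σ htb)) (upper_normalizes σ hb)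

/-- The antidiagonal form is equivalent to the standard one. -/
theorem exists_basis (hrev : ∀ i : Fin n, i.rev ≠ i) {a : F} (ha : a + σ a = 1) :
    ∃ B : Mn, IsUnit B.det ∧ Bᵀ * B.map σ = Matrix.of fun i j : Fin n => if i = j.rev then (1 : F) else 0 := by
  classical
  let B : Mn := Matrix.of fun l j =>
    if l = j ∨ l = j.rev then (if j < j.rev then 1 else if l < l.rev then a else a + 1) else 0
  have hone : (1 : F) + 1 = 0 := CharTwo.add_self_eq_zero 1
  have key : Bᵀ * B.map σ = Matrix.of fun i j : Fin n => if i = j.rev then (1 : F) else 0 := by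
    ext j k
    simp only [Matrix.mul_apply, Matrix.transpose_apply, Matrix.map_apply, Matrix.of_apply, B]
    by_cases hjk : k = j ∨ k = j.rev
    · rw [Finset.sum_eq_add_of_mem j j.rev (Finset.mem_univ _) (Finset.mem_univ _) (hrev j).symm
        (fun l _ hl => by rw [if_neg (not_or.2 ⟨hl.1, hl.2⟩), zero_mul])]
      have hj' : j < j.rev ↔ ¬ (j.rev < j.rev.rev) := by
        rw [Fin.rev_rev, not_lt]
        exact ⟨le_of_lt, fun h => lt_of_le_of_ne h (hrev j).symm⟩
      rcases hjk with rfl | rfl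
      · by_cases hk : k < k.rev
        · simp [hk, hone, (hrev k).symm]
        · have hk' : k.rev < k := lt_of_le_of_ne (not_lt.1 hk) (hrev k)
          simp [hk, hk', (hrev k).symm, map_add]
          linear_combination (a * σ a) * hone + (1 : F) * ha + hone
      · by_cases hk : j < j.rev
        · have hk' : ¬ j.rev < j := not_lt.2 hk.le
          simp [hk, hk', map_add]
          linear_combination hone * σ a
        · have hk' : j.rev < j := lt_of_le_of_ne (not_lt.1 hk) (hrev j)
          simp [hk, hk']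
          linear_combination hone * a
    · rw [not_or] at hjk
      rw [if_neg (fun h => hjk.2 (by rw [h, Fin.rev_rev]))]
      refine Finset.sum_eq_zero fun l _ => ?_
      by_cases h1 : l = j ∨ l = j.rev
      · rw [if_neg (c := l = k ∨ l = k.rev), map_zero, mul_zero]
        rintro (rfl | rfl) <;> rcases h1 with h1 | h1
        · exact hjk.1 h1
        · exact hjk.2 h1
        · exact hjk.2 (by rw [← h1, Fin.rev_rev])
        · exact hjk.1 (Fin.rev_injective h1)
      · rw [if_neg h1, zero_mul]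
  refine ⟨B, ?_, key⟩
  have hJdet : (Matrix.of fun i j : Fin n => if i = j.rev then (1 : F) else 0).det ≠ 0 := by
    have e : (Matrix.of fun i j : Fin n => if i = j.rev then (1 : F) else 0) =
        ((permGL (Fin.revPerm) : GL (Fin n) F) : Mn) := by
      ext i j; simp [permGL_apply]
    rw [e]
    exact Matrix.GeneralLinearGroup.det_ne_zero _
  rw [isUnit_iff_ne_zero]
  intro h0
  rw [← key, Matrix.det_mul, Matrix.det_transpose, h0, zero_mul] at hJdet
  exact hJdet rfl

theorem hJ_eq_dot (u v : Vn) :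
    hJ σ u v = u ⬝ᵥ ((Matrix.of fun i j : Fin n => if i = j.rev then (1 : F) else 0) *ᵥ fun i => σ (v i)) := by
  simp only [hJ, dotProduct, Matrix.mulVec, Matrix.of_apply]
  refine Finset.sum_congr rfl fun i _ => ?_
  congr 1
  rw [Finset.sum_eq_single i.rev]
  · simp
  · intro l _ hl
    rw [if_neg (fun h => hl (by rw [h, Fin.rev_rev])), zero_mul]
  · simp

theorem exists_equiv {q : ℕ} (hq : ∀ x, σ x = x ^ q) (hrev : ∀ i : Fin n, i.rev ≠ i) {a : F} (ha : a + σ a = 1) :
    Nonempty (Cfsg.SU n F q ≃* JS (n := n) σ) := by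
  obtain ⟨B, hBu, hB⟩ := exists_basis σ hrev ha
  have hh : ∀ u v, hJ σ u v = Cfsg.hermForm n F q (B *ᵥ u) (B *ᵥ v) := by
    intro u v
    rw [herm_eq_dot n hq, hB, hJ_eq_dot]
  have hBB : B * B⁻¹ = 1 := Matrix.mul_nonsing_inv B hBu
  have hBB' : B⁻¹ * B = 1 := Matrix.nonsing_inv_mul B hBu
  have hd : B⁻¹.det * B.det = 1 := by rw [← Matrix.det_mul, hBB', Matrix.det_one]
  let c : SLn ≃* SLn :=
    { toFun := fun g => ⟨B⁻¹ * (g : Mn) * B, by rw [Matrix.det_mul, Matrix.det_mul, g.2, mul_one, hd]⟩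
      invFun := fun g => ⟨B * (g : Mn) * B⁻¹, by
        rw [Matrix.det_mul, Matrix.det_mul, g.2, mul_one, mul_comm, hd]⟩
      left_inv := fun g => Subtype.ext (by
        show B * (B⁻¹ * (g : Mn) * B) * B⁻¹ = g
        rw [← mul_assoc, ← mul_assoc, hBB, one_mul, mul_assoc, hBB, mul_one])
      right_inv := fun g => Subtype.ext (by
        show B⁻¹ * (B * (g : Mn) * B⁻¹) * B = g
        rw [← mul_assoc, ← mul_assoc, hBB', one_mul, mul_assoc, hBB', mul_one])
      map_mul' := fun g h => Subtype.ext (by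
        show B⁻¹ * ((g : Mn) * (h : Mn)) * B = B⁻¹ * (g : Mn) * B * (B⁻¹ * (h : Mn) * B)
        rw [show B⁻¹ * (g : Mn) * B * (B⁻¹ * (h : Mn) * B) = B⁻¹ * (g : Mn) * (B * B⁻¹) * (h : Mn) * B by
          simp only [mul_assoc], hBB, mul_one]
        simp only [mul_assoc]) }
  have hc : (Cfsg.SU n F q).map c.toMonoidHom = JS σ := by
    ext g
    constructor
    · rintro ⟨g, hg, rfl⟩ u v
      show hJ σ ((B⁻¹ * (g : Mn) * B) *ᵥ u) ((B⁻¹ * (g : Mn) * B) *ᵥ v) = hJ σ u v
      rw [hh, hh, Matrix.mulVec_mulVec, Matrix.mulVec_mulVec, ← mul_assoc, ← mul_assoc, hBB, one_mul,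
        ← Matrix.mulVec_mulVec, ← Matrix.mulVec_mulVec]
      exact hg (B *ᵥ u) (B *ᵥ v)
    · intro hg
      refine ⟨c.symm g, fun u v => ?_, c.apply_symm_apply g⟩
      show Cfsg.hermForm n F q ((B * (g : Mn) * B⁻¹) *ᵥ u) ((B * (g : Mn) * B⁻¹) *ᵥ v) = _
      have := (mem_JS σ).1 hg (B⁻¹ *ᵥ u) (B⁻¹ *ᵥ v)
      rw [hh, hh] at this
      simp only [Matrix.mulVec_mulVec, ← mul_assoc, hBB, Matrix.one_mulVec] at this
      exact this
  exact ⟨(c.subgroupMap (Cfsg.SU n F q)).trans (MulEquiv.subgroupCongr hc)⟩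

end Cfsg.Agent.H68.Pro.UEven
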